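import Cfsg.Agent.MinParFF.NatlBasic

/-!
Subgroups acting on independent summands of `V` form a direct product.
-/

set_option autoImplicit false
set_option linter.style.haveILetI false
set_option linter.unusedSectionVars false

open Cfsg

namespace CfsgLib.MinParFF

variable {G : Type*} [Group G] [Finite G] {p : ℕ} [hp : Fact p.Prime] {P V M T : Subgroup G}

theorem fix_biSup {κ : Type*} {E : κ → Subgroup G} {S : Set κ} {v : G} (hv : v ∈ V)
    (h : ∀ k ∈ S, v ∈ fix V (E k)) : v ∈ fix V (⨆ k ∈ S, E k) := by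
  refine mem_inf_centralizer.2 ⟨hv, fun y hy => ?_⟩
  have hle : (⨆ k ∈ S, E k) ≤ Subgroup.centralizer ({v} : Set G) := iSup₂_le fun k hk a ha =>
    Subgroup.mem_centralizer_singleton_iff.2 ((mem_inf_centralizer.1 (h k hk)).2 a ha)
  exact Subgroup.mem_centralizer_singleton_iff.1 (hle hy)

/-- The structure of a product of subgroups with independent commutator summands in `V`. -/
theorem product_conclusion (hc : Ctx p P V M T) (hmax : ∀ K ≤ P, T ≤ K → ¬ K ≤ M → K = P)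
    {κ : Type*} [Finite κ] [Nonempty κ] (E : κ → Subgroup G) (hEP : ∀ k, E k ≤ P)
    (hEM : ∀ k, ¬ E k ≤ M) (hV : ∀ k, ⁅V, E k⁆ ⊔ fix V (E k) = V)
    (hfix : ∀ k l, k ≠ l → ⁅V, E k⁆ ≤ fix V (E l))
    (htrans : ∀ k l, ∃ t ∈ T, conjSub t (E k) = E l) :
    ∃ (r : ℕ) (σ : Fin r ≃ κ), 1 ≤ r ∧
      (∀ i j, i ≠ j → ⁅E (σ i), E (σ j)⁆ = ⊥) ∧
      (∀ i, E (σ i) ⊓ (⨆ j ∈ {j | j ≠ i}, E (σ j)) = ⊥) ∧
      (⨆ i, E (σ i)) ⊔ T = P ∧
      (∀ i j, ∃ t ∈ T, (E (σ i)).map (MulAut.conj t).toMonoidHom = E (σ j)) ∧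
      (V ⊓ Subgroup.centralizer (((⨆ i, E (σ i)) : Subgroup G) : Set G)) ⊔ (⨆ i, ⁅V, E (σ i)⁆) = V ∧
      (∀ i j, i ≠ j → ⁅⁅V, E (σ i)⁆, E (σ j)⁆ = ⊥) := by
  classical
  haveI := hc.comm
  obtain ⟨r, ⟨e⟩⟩ := Finite.exists_equiv_fin κ
  set σ := e.symm
  have hne : ∀ {i j : Fin r}, i ≠ j → σ i ≠ σ j := fun h e' => h (σ.injective e')
  have hcV : ∀ k, ⁅V, E k⁆ ≤ V := fun k => le_sup_left.trans (hV k).le
  refine ⟨r, σ, ?_, fun i j hij => ?_, fun i => ?_, ?_, fun i j => htrans _ _, ?_, fun i j hij => ?_⟩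
  · exact Fin.pos_iff_nonempty.2 ⟨e (Classical.arbitrary κ)⟩
  · rw [Subgroup.commutator_eq_bot_iff_le_centralizer]
    intro x hx
    refine Subgroup.mem_centralizer_iff.2 fun y hy => ?_
    refine (commute_of_cm (E := P) (fun z hz => hc.eq_one hz) hc.P_norm (hEP _ hx) (hEP _ hy)
      (fun v hv => ?_) (fun v hv => ?_)).symm
    · exact (mem_inf_centralizer.1 (hfix _ _ (hne hij.symm) (cm_mem_commutator hy hv))).2 x hx
    · exact (mem_inf_centralizer.1 (hfix _ _ (hne hij) (cm_mem_commutator hx hv))).2 y hy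
  · rw [eq_bot_iff]
    rintro x ⟨hx, hx'⟩
    refine Subgroup.mem_bot.2 (hc.eq_one (hEP _ hx) fun v hv => ?_)
    rw [← hV (σ i)] at hv
    obtain ⟨u, hu, c, hc', rfl⟩ := exists_mul_of_mem_sup (hcV _) inf_le_left hv
    have hu1 : u ∈ fix V (⨆ j ∈ {j | j ≠ i}, E (σ j)) :=
      fix_biSup (E := fun j => E (σ j)) (hcV _ hu) fun j hj => hfix _ _ (hne (Ne.symm hj)) hu
    rw [cm_mul_right (V := V) hu1.1 hc'.1 (hc.cm_memV (hEP _ hx) hc'.1),
      (mem_fix_cm.1 hu1).2 x hx', (mem_fix_cm.1 hc').2 x hx, one_mul]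
  · refine hmax _ (sup_le (iSup_le fun i => hEP _) (hc.T_le.trans hc.M_le)) le_sup_right fun hle => ?_
    refine hEM (σ ⟨0, Fin.pos_iff_nonempty.2 ⟨e (Classical.arbitrary κ)⟩⟩)
      (le_trans ?_ (le_sup_left.trans hle))
    exact le_iSup (fun i => E (σ i)) _
  · refine le_antisymm (sup_le inf_le_left (iSup_le fun i => hcV _)) ?_
    have key : ∀ s : Finset (Fin r),
        V ≤ fix V (⨆ i ∈ (s : Set (Fin r)), E (σ i)) ⊔ ⨆ i ∈ (s : Set (Fin r)), ⁅V, E (σ i)⁆ := by
      intro s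
      induction s using Finset.induction_on with
      | empty => exact fun v hv => Subgroup.mem_sup_left (fix_biSup hv fun k hk => by simp at hk)
      | insert a s ha ih =>
        intro v hv
        obtain ⟨c, hc₀, w, hw, rfl⟩ := exists_mul_of_mem_sup (V := V) inf_le_left
          (iSup₂_le fun i _ => hcV _) (ih hv)
        have hcs : ∀ i ∈ s, c ∈ fix V (E (σ i)) := fun i hi =>
          fix_anti (le_iSup₂ (f := fun i (_ : i ∈ (s : Set (Fin r))) => E (σ i)) i hi) hc₀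
        have hcV' : c ∈ ⁅V, E (σ a)⁆ ⊔ fix V (E (σ a)) := (hV (σ a)).ge hc₀.1
        obtain ⟨u, hu, c', hc', rfl⟩ := exists_mul_of_mem_sup (hcV _) inf_le_left hcV'
        rw [show u * c' * w = c' * (u * w) by
          rw [setLike_mul_comm (S := Subgroup G) (s := V) (hcV _ hu) hc'.1, mul_assoc]]
        refine Subgroup.mul_mem_sup (fix_biSup hc'.1 fun i hi => ?_) ?_
        · rcases Finset.mem_insert.1 hi with rfl | hi'
          · exact hc'
          · have hai : σ a ≠ σ i := hne fun e' => ha (e' ▸ hi')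
            have h1 := mul_mem (inv_mem (hfix _ _ hai hu)) (hcs i hi')
            rwa [inv_mul_cancel_left] at h1
        · refine mul_mem ?_ ?_
          · exact le_iSup₂ (f := fun i (_ : i ∈ ((insert a s : Finset (Fin r)) : Set (Fin r))) =>
              ⁅V, E (σ i)⁆) a (Finset.mem_insert_self a s) hu
          · exact (biSup_mono (f := fun i => ⁅V, E (σ i)⁆)
              (p := fun i => i ∈ (s : Set (Fin r)))
              (q := fun i => i ∈ ((insert a s : Finset (Fin r)) : Set (Fin r)))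
              fun i hi => Finset.mem_insert_of_mem hi) hw
    have h1 := key Finset.univ
    simpa using h1
  · rw [Subgroup.commutator_eq_bot_iff_le_centralizer]
    exact fun u hu => (hfix _ _ (hne hij) hu).2

end CfsgLib.MinParFF
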