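import Cfsg.Agent.MinParFF.Transvection
import Cfsg.Agent.MinParFF.Product
import Cfsg.Agent.Eq.Def_BaumannBlocks
import Cfsg.Prelude.Def_BaumannBlocks

/-!
For members of order two the natural `SL₂`s cluster into symmetric groups on their odd permutation modules.
-/

set_option autoImplicit false
set_option linter.style.haveILetI false
set_option linter.unusedSectionVars false

open Cfsg

namespace CfsgLib.MinParFF

variable {G : Type*} [Group G] [Finite G] {P V M T : Subgroup G}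

theorem zmod2_add_self (a : ZMod 2) : a + a = 0 := by
  rcases zmod2_cases a with rfl | rfl <;> rfl

/-- Adjacency of members of `T`: their `SL₂`s do not commute. -/
def Adj (P V T : Subgroup G) (i j : Idx 2 P V T) : Prop :=
  ¬ ∀ x ∈ LT 2 P V T i.1, ∀ y ∈ LT 2 P V T j.1, x * y = y * x

/-- The two generating transvections of each `SL₂(2)`. -/
structure BlockData (P V M T : Subgroup G) where
  α : Idx 2 P V T → Tv P V
  β : Idx 2 P V T → Tv P V
  αX : ∀ i, (α i).X = i.1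
  β_le : ∀ i, (β i).X ≤ LT 2 P V T i.1
  LT_le : ∀ i, LT 2 P V T i.1 ≤ (α i).X ⊔ (β i).X
  βone : ∀ i, (α i).χ (β i).r = 1
  βM : ∀ i, ¬ (β i).X ≤ M

theorem exists_blockData (hc : Ctx 2 P V M T) (h2 : ∀ i : Idx 2 P V T, Nat.card i.1 = 2) :
    Nonempty (BlockData P V M T) := by
  classical
  have hα : ∀ i : Idx 2 P V T, ∃ τ : Tv P V, τ.X = i.1 := fun i => exists_tv hc i.2.1 (h2 i)
  choose α hαX using hα
  have hg : ∀ i : Idx 2 P V T, ∃ g, g ∈ LT 2 P V T i.1 ∧ g ∉ M :=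
    fun i => (hc.member_setup i.2.1 i.2.2).2.2.exists_g
  choose g hg hgM using hg
  have hgP : ∀ i, g i ∈ P := fun i => (hc.member_setup i.2.1 i.2.2).2.2.le (hg i)
  refine ⟨⟨α, fun i => (α i).conjTv hc (hgP i), hαX, fun i => ?_, fun i => ?_, fun i => ?_, fun i => ?_⟩⟩
  · show conjSub (g i) (α i).X ≤ _
    rw [hαX]
    exact conjSub_le_of_mem (hg i) (hc.member_setup i.2.1 i.2.2).2.2.A_le
  · show _ ≤ (α i).X ⊔ conjSub (g i) (α i).X
    rw [hαX]
    exact ((hc.member_setup i.2.1 i.2.2).2.2.gen (hg i) (hgM i)).ge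
  · obtain ⟨hQ, hA, hL⟩ := hc.member_setup i.2.1 i.2.2
    have hgen : i.1 ⊔ conjSub (g i) i.1 = LT 2 P V T i.1 := hL.gen (hg i) (hgM i)
    set τ := (α i).conjTv hc (hgP i)
    have hτX : τ.X = conjSub (g i) i.1 := by show conjSub (g i) (α i).X = _; rw [hαX]
    rcases zmod2_cases ((α i).χ τ.r) with e | e
    · exfalso
      have hcomm := (α i).commute_of_pairing τ hc e (by rw [Tv.pairing_symm τ (α i) hc]; exact e)
      have hN : conjSub (g i) i.1 ≤ Subgroup.normalizer (i.1 : Set G) := by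
        rw [← hτX, τ.X_eq, Subgroup.zpowers_le, mem_normalizer_iff_conjSub]
        refine conjSub_eq_self fun a ha => ?_
        rw [← hαX] at ha ⊢
        rcases (α i).two a ha with rfl | rfl
        · simp
        · rw [← hcomm, mul_inv_cancel_right]
          exact ha
      have hLp : IsPGroup 2 ↥(LT 2 P V T i.1) := by
        rw [← hgen, sup_comm]
        exact (isPGroup_conjSub (isPGroup_of_el i.2.1.2.1)).to_sup_of_normal_right'
          (isPGroup_of_el i.2.1.2.1) hN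
      exact hL.nle (hc.le_M_of_mem hc.family hQ hLp hL.le hL.norm hA.mem hL.A_le hA.le hA.nle)
    · exact e
  · show ¬ conjSub (g i) (α i).X ≤ M
    rw [hαX]
    have h1 := (hc.member_setup i.2.1 i.2.2).2.2.root_nle (hg i) (hgM i) (a := 1) (one_mem _)
    rwa [one_mul] at h1

namespace BlockData

variable (d : BlockData P V M T)

theorem α_mem (i : Idx 2 P V T) : (d.α i).t ∈ i.1 := d.αX i ▸ (d.α i).t_mem

theorem α_LT (hc : Ctx 2 P V M T) (i : Idx 2 P V T) : (d.α i).t ∈ LT 2 P V T i.1 :=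
  (hc.member_setup i.2.1 i.2.2).2.2.A_le (d.α_mem i)

theorem β_LT (i : Idx 2 P V T) : (d.β i).t ∈ LT 2 P V T i.1 := d.β_le i (d.β i).t_mem

theorem αα (hc : Ctx 2 P V M T) (i j : Idx 2 P V T) : (d.α i).χ (d.α j).r = 0 := by
  refine (d.α i).pairing_of_commute _ hc (hc.members_commute hc.T_p (hc.T_le.trans hc.M_le)
    (d.α i).mem (d.α j).mem ?_ ?_ (d.α i).t_mem (d.α j).t_mem) <;> rw [d.αX]
  exacts [i.2.2, j.2.2]

theorem αβ (hc : Ctx 2 P V M T) {i j : Idx 2 P V T} (h : i ≠ j) : (d.α i).χ (d.β j).r = 0 :=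
  (d.α i).pairing_of_commute _ hc ((hc.comm_LT_member j.2.1 j.2.2 i.2.1 i.2.2
    fun e => h (Subtype.ext e)).1 _ (d.β_LT j) _ (d.α_mem i)).symm

theorem βα (hc : Ctx 2 P V M T) {i j : Idx 2 P V T} (h : i ≠ j) : (d.β j).χ (d.α i).r = 0 := by
  rw [Tv.pairing_symm _ _ hc, d.αβ hc h]

theorem βα_one (hc : Ctx 2 P V M T) (i : Idx 2 P V T) : (d.β i).χ (d.α i).r = 1 := by
  rw [Tv.pairing_symm _ _ hc, d.βone]

theorem αβ_not_commute (hc : Ctx 2 P V M T) (i : Idx 2 P V T) :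
    (d.α i).t * (d.β i).t ≠ (d.β i).t * (d.α i).t := fun h => by
  have := (d.α i).pairing_of_commute _ hc h
  rw [d.βone] at this
  exact one_ne_zero this

theorem adj_iff (hc : Ctx 2 P V M T) {i j : Idx 2 P V T} (h : i ≠ j) :
    Adj P V T i j ↔ (d.β i).χ (d.β j).r = 1 := by
  constructor
  · intro hadj
    rcases zmod2_cases ((d.β i).χ (d.β j).r) with e | e
    · exfalso
      apply hadj
      have hab : ∀ τ σ : Tv P V, τ.χ σ.r = 0 → σ.χ τ.r = 0 → τ.X ≤ Subgroup.centralizer (σ.X : Set G) := by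
        intro τ σ h1 h2 x hx
        refine Subgroup.mem_centralizer_iff.2 fun y hy => ?_
        rcases τ.two x hx with rfl | rfl <;> rcases σ.two y hy with rfl | rfl
        · rfl
        · simp
        · simp
        · exact (τ.commute_of_pairing σ hc h1 h2).symm
      have hle : LT 2 P V T i.1 ≤ Subgroup.centralizer (LT 2 P V T j.1 : Set G) := by
        refine (d.LT_le i).trans (le_trans ?_ (Subgroup.centralizer_le (d.LT_le j)))
        rw [Subgroup.le_centralizer_iff]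
        refine sup_le ?_ ?_ <;> rw [Subgroup.le_centralizer_iff] <;> refine sup_le ?_ ?_
        · exact hab _ _ (d.αα hc i j) (d.αα hc j i)
        · exact hab _ _ (d.βα hc h.symm) (d.αβ hc h.symm)
        · exact hab _ _ (d.αβ hc h) (d.βα hc h)
        · exact hab _ _ e (by rw [Tv.pairing_symm _ _ hc]; exact e)
      exact fun x hx y hy => (Subgroup.mem_centralizer_iff.1 (hle hx) y hy).symm
    · exact e
  · intro e hcomm
    have := (d.β i).pairing_of_commute _ hc (hcomm _ (d.β_LT i) _ (d.β_LT j))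
    rw [e] at this
    exact one_ne_zero this

theorem adj_symm {i j : Idx 2 P V T} (h : Adj P V T i j) : Adj P V T j i :=
  fun h' => h fun x hx y hy => (h' y hy x hx).symm

include d in
/-- Adjacency is transitive on distinct indices. -/
theorem adj_trans (hc : Ctx 2 P V M T) {i j k : Idx 2 P V T} (hij : i ≠ j) (hjk : j ≠ k)
    (hik : i ≠ k) (h1 : Adj P V T i j) (h2 : Adj P V T j k) : Adj P V T i k := by
  classical
  by_contra h3
  have eij := (d.adj_iff hc hij).1 h1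
  have ejk := (d.adj_iff hc hjk).1 h2
  have eik : (d.β i).χ (d.β k).r = 0 :=
    (zmod2_cases _).resolve_right fun e => h3 ((d.adj_iff hc hik).2 e)
  have eji : (d.β j).χ (d.β i).r = 1 := by rw [Tv.pairing_symm _ _ hc]; exact eij
  have ekj : (d.β k).χ (d.β j).r = 1 := by rw [Tv.pairing_symm _ _ hc]; exact ejk
  have eki : (d.β k).χ (d.β i).r = 0 := by rw [Tv.pairing_symm _ _ hc]; exact eik
  have hr : ∀ τ : Tv P V, τ.r ∈ V := fun τ => τ.r_mem hc
  have hsq : ∀ τ : Tv P V, τ.r * τ.r = 1 := fun τ => τ.r_sq hc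
  set si := (d.β i).r with hsi
  set sj := (d.β j).r with hsj
  set sk := (d.β k).r with hsk
  set ri := (d.α i).r with hri
  set rj := (d.α j).r with hrj
  set rk := (d.α k).r with hrk
  -- first conjugate
  set x₁ := (d.β j).conjTv hc (d.β i).t_P
  obtain ⟨rx₁, fx₁⟩ := Tv.conj_pair (d.β j) (d.β i) hc eij
  have p₁ : (d.β k).χ x₁.r = 1 := by
    rw [rx₁, (d.β k).χ_mul hc (hr _) (hr _), eki, ekj, zero_add]
  set x := x₁.conjTv hc (d.β k).t_P
  obtain ⟨rx, fx⟩ := Tv.conj_pair x₁ (d.β k) hc p₁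
  have hx : ∀ v ∈ V, x.χ v = (d.β i).χ v + (d.β j).χ v + (d.β k).χ v := fun v hv => by
    rw [fx v hv, fx₁ v hv]; ring
  have hxr : ∀ τ : Tv P V, τ.χ x.r = τ.χ si + τ.χ sj + τ.χ sk := fun τ => by
    rw [rx, τ.χ_mul hc (hr _) (hr _), rx₁, τ.χ_mul hc (hr _) (hr _)]; ring
  set y₁ := x.conjTv hc (d.α i).t_P
  have q₁ : (d.α i).χ x.r = 1 := by
    rw [hxr, hsi, hsj, hsk, d.βone i, d.αβ hc hij, d.αβ hc hik, add_zero, add_zero]
  obtain ⟨ry₁, fy₁⟩ := Tv.conj_pair x (d.α i) hc q₁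
  set y₂ := y₁.conjTv hc (d.α j).t_P
  have q₂ : (d.α j).χ y₁.r = 1 := by
    rw [ry₁, (d.α j).χ_mul hc (hr _) (hr _), d.αα hc, hxr, hsi, hsj, hsk, d.βone j,
      d.αβ hc hij.symm, d.αβ hc hjk, zero_add, zero_add, add_zero]
  obtain ⟨ry₂, fy₂⟩ := Tv.conj_pair y₁ (d.α j) hc q₂
  set y := y₂.conjTv hc (d.α k).t_P
  have q₃ : (d.α k).χ y₂.r = 1 := by
    rw [ry₂, (d.α k).χ_mul hc (hr _) (hr _), d.αα hc, ry₁, (d.α k).χ_mul hc (hr _) (hr _), d.αα hc,
      hxr, hsi, hsj, hsk, d.βone k, d.αβ hc hik.symm, d.αβ hc hjk.symm, zero_add, zero_add, zero_add,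
      zero_add]
  obtain ⟨ry, fy⟩ := Tv.conj_pair y₂ (d.α k) hc q₃
  have hy : ∀ v ∈ V, y.χ v = x.χ v + (d.α i).χ v + (d.α j).χ v + (d.α k).χ v := fun v hv => by
    rw [fy v hv, fy₂ v hv, fy₁ v hv]
  have hyr : ∀ τ : Tv P V, τ.χ y.r = τ.χ x.r + (τ.χ ri + τ.χ rj + τ.χ rk) := fun τ => by
    rw [ry, τ.χ_mul hc (hr _) (hr _), ry₂, τ.χ_mul hc (hr _) (hr _), ry₁,
      τ.χ_mul hc (hr _) (hr _)]
    ring
  have q₄ : x.χ y.r = 1 := by
    have hβα : ∀ l : Idx 2 P V T, (l = i ∨ l = j ∨ l = k) → x.χ (d.α l).r = 1 := by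
      intro l hl
      rw [hx _ (hr _)]
      rcases hl with rfl | rfl | rfl
      · rw [d.βα_one hc, d.βα hc hij, d.βα hc hik, add_zero, add_zero]
      · rw [d.βα_one hc, d.βα hc hij.symm, d.βα hc hjk, zero_add, add_zero]
      · rw [d.βα_one hc, d.βα hc hik.symm, d.βα hc hjk.symm, zero_add, zero_add]
    rw [hyr, x.χ_self hc, hri, hrj, hrk, hβα i (Or.inl rfl), hβα j (Or.inr (Or.inl rfl)),
      hβα k (Or.inr (Or.inr rfl)), zero_add]
    rfl
  set t := y.conjTv hc x.t_P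
  obtain ⟨rt, ft⟩ := Tv.conj_pair y x hc q₄
  have htχ : ∀ v ∈ V, t.χ v = (d.α i).χ v + (d.α j).χ v + (d.α k).χ v := fun v hv => by
    rw [ft v hv, hy v hv]
    linear_combination zmod2_add_self (x.χ v)
  have htcomm : ∀ l : Idx 2 P V T, t.χ (d.α l).r = 0 := fun l => by
    rw [htχ _ (hr _), d.αα hc, d.αα hc, d.αα hc, add_zero, add_zero]
  set J := sSup {X : Subgroup G | OffMin 2 P V X ∧ X ≤ T} with hJdef
  have hJT : J ≤ T := sSup_le fun X hX => hX.2
  have hJc : J ≤ Subgroup.centralizer (t.X : Set G) := by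
    refine sSup_le fun X hX => ?_
    rw [show X = (d.α ⟨X, hX⟩).X from (d.αX ⟨X, hX⟩).symm, (d.α ⟨X, hX⟩).X_eq, Subgroup.zpowers_le,
      Subgroup.mem_centralizer_iff]
    intro a ha
    rcases t.two a ha with rfl | rfl
    · simp
    · exact t.commute_of_pairing _ hc (htcomm _)
        (by rw [Tv.pairing_symm _ _ hc]; exact htcomm _)
  have hS : IsPGroup 2 ↥(J ⊔ t.X) := (hc.T_p.to_le hJT).to_sup_of_normal_left' (isPGroup_of_el t.mem.2.1)
    ((Subgroup.le_centralizer_iff.1 hJc).trans (Subgroup.centralizer_le_normalizer _))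
  obtain ⟨g, hg, hle⟩ := hc.sylP (J ⊔ t.X) (sup_le (hJT.trans (hc.T_le.trans hc.M_le)) t.mem.1) hS
  have hin : t.X ≤ T := by
    by_contra hnot
    let f : Option (Idx 2 P V T) → Idx 2 P V T := fun o => match o with
      | none => ⟨conjSub g t.X, hc.family.conj g hg _ t.mem, (conjSub_mono le_sup_right).trans hle⟩
      | some X => ⟨conjSub g X.1, hc.family.conj g hg _ X.2.1,
          (conjSub_mono ((le_sSup (show X.1 ∈ {X : Subgroup G | OffMin 2 P V X ∧ X ≤ T} from X.2)).trans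
            le_sup_left)).trans hle⟩
    have hf : Function.Injective f := by
      intro a b hab
      have hi := Subgroup.map_injective (f := (MulAut.conj g).toMonoidHom) (MulAut.conj g).injective
      match a, b with
      | none, none => rfl
      | none, some X =>
        exact absurd ((hi (congrArg Subtype.val hab : conjSub g t.X = conjSub g X.1)).le.trans X.2.2) hnot
      | some X, none =>
        exact absurd ((hi (congrArg Subtype.val hab : conjSub g X.1 = conjSub g t.X)).ge.trans X.2.2) hnot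
      | some X, some Y =>
        exact congrArg some (Subtype.ext (hi (congrArg Subtype.val hab : conjSub g X.1 = conjSub g Y.1)))
    haveI : Finite (Idx 2 P V T) := inferInstance
    have := Nat.card_le_card_of_injective f hf
    rw [Finite.card_option] at this
    omega
  set l : Idx 2 P V T := ⟨t.X, t.mem, hin⟩
  have hl : ∀ v, t.χ v = (d.α l).χ v := fun v => t.χ_eq_of_X _ (d.αX l).symm v
  have e₁ : (d.α l).χ si = 1 := by
    rw [← hl, hsi, htχ _ (hr _), d.βone, d.αβ hc hij.symm, d.αβ hc hik.symm, add_zero, add_zero]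
  have e₂ : (d.α l).χ sj = 1 := by
    rw [← hl, hsj, htχ _ (hr _), d.βone, d.αβ hc hij, d.αβ hc hjk.symm, zero_add, add_zero]
  have hli : l = i := by
    by_contra hne
    rw [hsi, d.αβ hc hne] at e₁
    exact zero_ne_one e₁
  rw [hsj, hli, d.αβ hc hij] at e₂
  exact zero_ne_one e₂

end BlockData

/-- Members in the same block. -/
def BRel (P V T : Subgroup G) (i j : Idx 2 P V T) : Prop := i = j ∨ Adj P V T i j

theorem BRel.refl (i : Idx 2 P V T) : BRel P V T i i := Or.inl rfl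

theorem BRel.symm {i j : Idx 2 P V T} (h : BRel P V T i j) : BRel P V T j i :=
  h.imp Eq.symm fun h' => fun h'' => h' fun x hx y hy => (h'' y hy x hx).symm

theorem BRel.trans' (hc : Ctx 2 P V M T) (d : BlockData P V M T) {i j k : Idx 2 P V T}
    (h1 : BRel P V T i j) (h2 : BRel P V T j k) : BRel P V T i k := by
  by_cases hij : i = j
  · exact hij ▸ h2
  by_cases hjk : j = k
  · exact hjk ▸ h1
  by_cases hik : i = k
  · exact Or.inl hik
  exact Or.inr (d.adj_trans hc hij hjk hik (h1.resolve_left hij) (h2.resolve_left hjk))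

/-- The block of a member. -/
def Blk (P V T : Subgroup G) (i : Idx 2 P V T) : Subgroup G :=
  ⨆ j : {j : Idx 2 P V T // BRel P V T i j}, LT 2 P V T j.1.1

theorem Blk_eq (hc : Ctx 2 P V M T) (d : BlockData P V M T) {i j : Idx 2 P V T}
    (h : BRel P V T i j) : Blk P V T i = Blk P V T j := by
  refine le_antisymm (iSup_le fun l => ?_) (iSup_le fun l => ?_)
  · exact le_iSup (fun l : {l : Idx 2 P V T // BRel P V T j l} => LT 2 P V T l.1.1)
      ⟨l.1, BRel.trans' hc d h.symm l.2⟩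
  · exact le_iSup (fun l : {l : Idx 2 P V T // BRel P V T i l} => LT 2 P V T l.1.1)
      ⟨l.1, BRel.trans' hc d h l.2⟩

theorem LT_le_Blk {i j : Idx 2 P V T} (h : BRel P V T i j) : LT 2 P V T j.1 ≤ Blk P V T i :=
  le_iSup (fun l : {l : Idx 2 P V T // BRel P V T i l} => LT 2 P V T l.1.1) ⟨j, h⟩

namespace BlockData

variable (d : BlockData P V M T) (i₀ : Idx 2 P V T)

/-- The transvections generating a block. -/
def gens : Set G :=
  {x | ∃ j, BRel P V T i₀ j ∧ (x = (d.α j).t ∨ x = (d.β j).t)}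

theorem Blk_le_closure : Blk P V T i₀ ≤ Subgroup.closure (d.gens i₀) := by
  refine iSup_le fun j => (d.LT_le j.1).trans ?_
  rw [(d.α j.1).X_eq, (d.β j.1).X_eq]
  exact sup_le (Subgroup.zpowers_le.2 (Subgroup.subset_closure ⟨j.1, j.2, Or.inl rfl⟩))
    (Subgroup.zpowers_le.2 (Subgroup.subset_closure ⟨j.1, j.2, Or.inr rfl⟩))

theorem Blk_le (hc : Ctx 2 P V M T) : Blk P V T i₀ ≤ P :=
  iSup_le fun j => (hc.member_setup j.1.2.1 j.1.2.2).2.2.le

theorem Blk_nle (hc : Ctx 2 P V M T) : ¬ Blk P V T i₀ ≤ M := fun hle =>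
  (hc.member_setup i₀.2.1 i₀.2.2).2.2.nle ((LT_le_Blk (BRel.refl i₀)).trans hle)

theorem α_Blk (hc : Ctx 2 P V M T) {j : Idx 2 P V T} (h : BRel P V T i₀ j) :
    (d.α j).t ∈ Blk P V T i₀ := LT_le_Blk h (d.α_LT hc j)

theorem β_Blk {j : Idx 2 P V T} (h : BRel P V T i₀ j) : (d.β j).t ∈ Blk P V T i₀ :=
  LT_le_Blk h (d.β_LT j)

/-- The centres of the block generate its commutator with `V`. -/
theorem comm_Blk_le (hc : Ctx 2 P V M T) :
    ⁅V, Blk P V T i₀⁆ ≤ Subgroup.closure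
      {u | ∃ j, BRel P V T i₀ j ∧ (u = (d.α j).r ∨ u = (d.β j).r)} := by
  set U := Subgroup.closure {u | ∃ j, BRel P V T i₀ j ∧ (u = (d.α j).r ∨ u = (d.β j).r)}
  have hUV : U ≤ V := by
    rw [Subgroup.closure_le]
    rintro _ ⟨j, -, rfl | rfl⟩
    exacts [(d.α j).r_mem hc, (d.β j).r_mem hc]
  have hcm : ∀ x ∈ d.gens i₀, ∀ v ∈ V, cm x v ∈ U := by
    rintro _ ⟨j, hj, rfl | rfl⟩ v hv
    · rw [(d.α j).cm_eq hv]
      exact pow_mem (Subgroup.subset_closure (show (d.α j).r ∈ {u | ∃ j, BRel P V T i₀ j ∧ (u = (d.α j).r ∨ u = (d.β j).r)} from ⟨j, hj, Or.inl rfl⟩)) _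
    · rw [(d.β j).cm_eq hv]
      exact pow_mem (Subgroup.subset_closure (show (d.β j).r ∈ {u | ∃ j, BRel P V T i₀ j ∧ (u = (d.α j).r ∨ u = (d.β j).r)} from ⟨j, hj, Or.inr rfl⟩)) _
  refine commutator_le_of_cm fun x hx v hv => ?_
  exact cm_mem_of_mem_closure (fun k hk u hu => conj_mem_of_cm hu (hcm k hk u (hUV hu)))
    (fun k hk => hcm k hk v hv) (d.Blk_le_closure i₀ hx)

theorem α_r_mem (hc : Ctx 2 P V M T) {j : Idx 2 P V T} (h : BRel P V T i₀ j) :
    (d.α j).r ∈ ⁅V, Blk P V T i₀⁆ := by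
  obtain ⟨v, hv, he⟩ := (d.α j).attained
  exact he ▸ cm_mem_commutator (d.α_Blk i₀ hc h) hv

theorem β_r_mem (hc : Ctx 2 P V M T) {j : Idx 2 P V T} (h : BRel P V T i₀ j) :
    (d.β j).r ∈ ⁅V, Blk P V T i₀⁆ := by
  obtain ⟨v, hv, he⟩ := (d.β j).attained
  exact he ▸ cm_mem_commutator (d.β_Blk i₀ h) hv

theorem fix_Blk_of_χ (hc : Ctx 2 P V M T) {v : G} (hv : v ∈ V)
    (h : ∀ j, BRel P V T i₀ j → (d.α j).χ v = 0 ∧ (d.β j).χ v = 0) : v ∈ fix V (Blk P V T i₀) := by
  refine mem_inf_centralizer.2 ⟨hv, fun x hx => ?_⟩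
  have hle : Blk P V T i₀ ≤ Subgroup.centralizer ({v} : Set G) := by
    refine (d.Blk_le_closure i₀).trans ((Subgroup.closure_le _).2 ?_)
    rintro _ ⟨j, hj, rfl | rfl⟩ <;> rw [SetLike.mem_coe, Subgroup.mem_centralizer_singleton_iff,
      ← cm_eq_one_iff]
    exacts [(d.α j).χ_eq_zero.1 (h j hj).1, (d.β j).χ_eq_zero.1 (h j hj).2]
  exact Subgroup.mem_centralizer_singleton_iff.1 (hle hx)

include d in
/-- Different blocks act trivially on each other's summands. -/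
theorem Blk_fix (hc : Ctx 2 P V M T) {i : Idx 2 P V T} (h : ¬ BRel P V T i₀ i) :
    ⁅V, Blk P V T i₀⁆ ≤ fix V (Blk P V T i) := by
  refine (d.comm_Blk_le i₀ hc).trans ((Subgroup.closure_le _).2 ?_)
  rintro u ⟨j, hj, hu⟩
  have hne : ∀ l, BRel P V T i l → ¬ BRel P V T j l := fun l hl hjl =>
    h (BRel.trans' hc d (BRel.trans' hc d hj hjl) hl.symm)
  rcases hu with rfl | rfl
  · refine d.fix_Blk_of_χ i hc ((d.α j).r_mem hc) fun l hl => ?_
    have hjl : j ≠ l := fun e => hne l hl (Or.inl e)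
    exact ⟨d.αα hc l j, d.βα hc hjl⟩
  · refine d.fix_Blk_of_χ i hc ((d.β j).r_mem hc) fun l hl => ?_
    have hjl : j ≠ l := fun e => hne l hl (Or.inl e)
    refine ⟨d.αβ hc hjl.symm, (zmod2_cases _).resolve_right fun e => ?_⟩
    exact hne l hl (Or.inr (adj_symm ((d.adj_iff hc hjl.symm).2 e)))

/-- The class of a block. -/
abbrev Cls : Type _ := {j : Idx 2 P V T // BRel P V T i₀ j}

/-- The points of a block. -/
abbrev Pts : Type _ := Option (Cls i₀ × Bool)

variable [Fintype (Cls i₀)]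

/-- The coordinates of `v` in the permutation module. -/
noncomputable def coord (v : G) : Pts i₀ → ZMod 2
  | none => ∑ j : Cls i₀, (d.α j.1).χ v
  | some (j, b) =>
    (if b then (d.α j.1).χ v + (d.β j.1).χ v else (d.β j.1).χ v) + ∑ l : Cls i₀, (d.α l.1).χ v

theorem coord_mul (hc : Ctx 2 P V M T) {u v : G} (hu : u ∈ V) (hv : v ∈ V) :
    d.coord i₀ (u * v) = d.coord i₀ u + d.coord i₀ v := by
  funext o
  rcases o with _ | ⟨j, b⟩
  · simp only [coord, Pi.add_apply]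
    rw [← Finset.sum_add_distrib]
    exact Finset.sum_congr rfl fun l _ => (d.α l.1).χ_mul hc hu hv
  · have hs : ∑ l : Cls i₀, (d.α l.1).χ (u * v) =
        ∑ l : Cls i₀, (d.α l.1).χ u + ∑ l : Cls i₀, (d.α l.1).χ v := by
      rw [← Finset.sum_add_distrib]
      exact Finset.sum_congr rfl fun l _ => (d.α l.1).χ_mul hc hu hv
    simp only [coord, Pi.add_apply, hs, (d.α j.1).χ_mul hc hu hv, (d.β j.1).χ_mul hc hu hv]
    cases b <;> simp <;> abel

theorem coord_one : d.coord i₀ 1 = 0 := by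
  funext o
  rcases o with _ | ⟨j, b⟩ <;> simp [coord, Tv.χ_one]

theorem sum_coord (v : G) : ∑ o, d.coord i₀ v o = 0 := by
  rw [Fintype.sum_option, Fintype.sum_prod_type]
  simp only [coord, Fintype.sum_bool, if_true, Bool.false_eq_true, if_false]
  set S := ∑ l : Cls i₀, (d.α l.1).χ v
  have h : ∀ j : Cls i₀, (d.α j.1).χ v + (d.β j.1).χ v + S + ((d.β j.1).χ v + S) = (d.α j.1).χ v :=
    fun j => by linear_combination zmod2_add_self ((d.β j.1).χ v) + zmod2_add_self S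
  rw [Finset.sum_congr rfl fun j _ => h j]
  exact zmod2_add_self S

theorem αsum (hc : Ctx 2 P V M T) (j : Cls i₀) :
    ∑ l : Cls i₀, (d.α l.1).χ (d.β j.1).r = 1 := by
  classical
  rw [Finset.sum_eq_single j]
  · exact d.βone j.1
  · exact fun l _ hl => d.αβ hc fun e => hl (Subtype.ext e)
  · exact fun h => absurd (Finset.mem_univ j) h

theorem coord_α (hc : Ctx 2 P V M T) [DecidableEq (Pts i₀)] (j : Cls i₀) :
    d.coord i₀ (d.α j.1).r = Pi.single (some (j, false)) 1 + Pi.single (some (j, true)) 1 := by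
  funext o
  rcases o with _ | ⟨l, b⟩
  · simp [coord, d.αα hc]
  · by_cases hl : l = j
    · subst hl
      cases b <;> simp [coord, d.αα hc, d.βα_one hc, Pi.single_apply]
    · have h1 : j.1 ≠ l.1 := fun e => hl (Subtype.ext e.symm)
      cases b <;> simp [coord, d.αα hc, d.βα hc h1, Pi.single_apply, hl]

theorem coord_β (hc : Ctx 2 P V M T) [DecidableEq (Pts i₀)] (j : Cls i₀) :
    d.coord i₀ (d.β j.1).r = Pi.single (some (j, false)) 1 + Pi.single none 1 := by
  funext o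
  rcases o with _ | ⟨l, b⟩
  · simp [coord, d.αsum i₀ hc j, Pi.single_apply]
  · have h11 : (1 : ZMod 2) + 1 = 0 := rfl
    by_cases hl : l = j
    · subst hl
      cases b <;> simp [coord, d.αsum i₀ hc l, (d.β l.1).χ_self hc, d.βone, Pi.single_apply, h11]
    · have h1 : l.1 ≠ j.1 := fun e => hl (Subtype.ext e)
      have h2 : (d.β l.1).χ (d.β j.1).r = 1 :=
        (d.adj_iff hc h1).1 ((BRel.trans' hc d l.2.symm j.2).resolve_left h1)
      cases b <;> simp [coord, d.αsum i₀ hc j, d.αβ hc h1, h2, Pi.single_apply, hl, h11]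

theorem χ_α_eq (v : G) (j : Cls i₀) :
    (d.α j.1).χ v = d.coord i₀ v (some (j, false)) + d.coord i₀ v (some (j, true)) := by
  simp only [coord, if_true, Bool.false_eq_true, if_false]
  linear_combination (-1 : ZMod 2) * zmod2_add_self ((d.β j.1).χ v) +
    (-1 : ZMod 2) * zmod2_add_self (∑ l : Cls i₀, (d.α l.1).χ v)

theorem χ_β_eq (v : G) (j : Cls i₀) :
    (d.β j.1).χ v = d.coord i₀ v (some (j, false)) + d.coord i₀ v none := by
  simp only [coord, Bool.false_eq_true, if_false]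
  linear_combination (-1 : ZMod 2) * zmod2_add_self (∑ l : Cls i₀, (d.α l.1).χ v)

theorem fix_of_coord (hc : Ctx 2 P V M T) {v : G} (hv : v ∈ V) (h : d.coord i₀ v = 0) :
    v ∈ fix V (Blk P V T i₀) :=
  d.fix_Blk_of_χ i₀ hc hv fun j hj => by
    constructor
    · rw [d.χ_α_eq i₀ v ⟨j, hj⟩, h]; exact add_zero 0
    · rw [d.χ_β_eq i₀ v ⟨j, hj⟩, h]; exact add_zero 0

theorem conj_swap (hc : Ctx 2 P V M T) [DecidableEq (Pts i₀)] (τ : Tv P V) {a b : Pts i₀}
    (hr : d.coord i₀ τ.r = Pi.single a 1 + Pi.single b 1) (hab : a ≠ b)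
    {v : G} (hv : v ∈ V) (hχ : τ.χ v = d.coord i₀ v a + d.coord i₀ v b) :
    d.coord i₀ (τ.t * v * τ.t⁻¹) = fun o => d.coord i₀ v (Equiv.swap a b o) := by
  rw [τ.conj_eq hv, d.coord_mul i₀ hc (V.pow_mem (τ.r_mem hc) _) hv]
  funext o
  set f := d.coord i₀ v
  have hp : d.coord i₀ (τ.r ^ (τ.χ v).val) o = (f a + f b) * d.coord i₀ τ.r o := by
    rw [← hχ]
    rcases zmod2_cases (τ.χ v) with e | e <;> rw [e] <;> simp [d.coord_one i₀, ZMod.val_one]
  rw [Pi.add_apply, hp, hr]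
  by_cases ha : o = a
  · subst ha
    simp [Equiv.swap_apply_left, Pi.single_apply, hab]
    linear_combination zmod2_add_self (f o)
  · by_cases hb : o = b
    · subst hb
      simp [Equiv.swap_apply_right, Pi.single_apply, ha]
      linear_combination zmod2_add_self (f o)
    · simp [Equiv.swap_apply_of_ne_of_ne ha hb, Pi.single_apply, ha, hb]

theorem exists_pair (hc : Ctx 2 P V M T) [DecidableEq (Pts i₀)] (a b : Pts i₀) :
    ∃ u ∈ ⁅V, Blk P V T i₀⁆, d.coord i₀ u = Pi.single a 1 + Pi.single b 1 := by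
  haveI := hc.comm
  have hUV : ⁅V, Blk P V T i₀⁆ ≤ V :=
    commutator_le_of_cm fun x hx v hv => hc.cm_memV (Blk_le i₀ hc hx) hv
  have hbase : ∀ a : Pts i₀, ∃ u ∈ ⁅V, Blk P V T i₀⁆,
      d.coord i₀ u = Pi.single a 1 + Pi.single none 1 := by
    intro a
    rcases a with _ | ⟨j, b⟩
    · exact ⟨1, one_mem _, by funext o; rw [d.coord_one]; exact (zmod2_add_self _).symm⟩
    cases b
    · exact ⟨_, d.β_r_mem i₀ hc j.2, d.coord_β i₀ hc j⟩
    · refine ⟨_, mul_mem (d.α_r_mem i₀ hc j.2) (d.β_r_mem i₀ hc j.2), ?_⟩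
      rw [d.coord_mul i₀ hc ((d.α j.1).r_mem hc) ((d.β j.1).r_mem hc), d.coord_α i₀ hc,
        d.coord_β i₀ hc]
      funext o
      simp only [Pi.add_apply]
      linear_combination zmod2_add_self (Pi.single (M := fun _ => ZMod 2) (some (j, false)) 1 o)
  obtain ⟨u, hu, hue⟩ := hbase a
  obtain ⟨w, hw, hwe⟩ := hbase b
  refine ⟨u * w, mul_mem hu hw, ?_⟩
  rw [d.coord_mul i₀ hc (hUV hu) (hUV hw), hue, hwe]
  funext o
  simp only [Pi.add_apply]
  linear_combination zmod2_add_self (Pi.single (M := fun _ => ZMod 2) (none : Pts i₀) 1 o)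

theorem surj_even (hc : Ctx 2 P V M T) {f : Pts i₀ → ZMod 2} (hf : ∑ o, f o = 0) :
    ∃ u ∈ ⁅V, Blk P V T i₀⁆, d.coord i₀ u = f := by
  classical
  have hUV : ⁅V, Blk P V T i₀⁆ ≤ V :=
    commutator_le_of_cm fun x hx v hv => hc.cm_memV (Blk_le i₀ hc hx) hv
  let S : AddSubmonoid (Pts i₀ → ZMod 2) :=
    { carrier := {f | ∃ u ∈ ⁅V, Blk P V T i₀⁆, d.coord i₀ u = f}
      zero_mem' := ⟨1, one_mem _, d.coord_one i₀⟩
      add_mem' := by
        rintro _ _ ⟨u, hu, rfl⟩ ⟨w, hw, rfl⟩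
        exact ⟨u * w, mul_mem hu hw, d.coord_mul i₀ hc (hUV hu) (hUV hw)⟩ }
  have hmem : (fun o => ∑ a, f a * ((Pi.single a 1 + Pi.single none 1 : Pts i₀ → ZMod 2) o)) ∈ S := by
    have : (fun o => ∑ a, f a * ((Pi.single a 1 + Pi.single none 1 : Pts i₀ → ZMod 2) o)) =
        ∑ a, fun o => f a * ((Pi.single a 1 + Pi.single none 1 : Pts i₀ → ZMod 2) o) := by
      funext o
      rw [Finset.sum_apply]
    rw [this]
    refine sum_mem fun a _ => ?_
    rcases zmod2_cases (f a) with e | e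
    · convert S.zero_mem using 1
      funext o
      rw [e, zero_mul]
      rfl
    · obtain ⟨u, hu, hue⟩ := d.exists_pair i₀ hc a none
      refine ⟨u, hu, ?_⟩
      rw [hue]
      funext o
      rw [e, one_mul]
  obtain ⟨u, hu, hue⟩ := hmem
  refine ⟨u, hu, hue.trans ?_⟩
  funext o
  simp only [Pi.add_apply, mul_add, Finset.sum_add_distrib, Pi.single_apply, mul_ite, mul_one, mul_zero,
    Finset.sum_ite_eq, Finset.mem_univ, if_true]
  by_cases ho : o = none
  · simp [ho, hf]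
  · simp [ho]

include d in
theorem comm_sup_Blk (hc : Ctx 2 P V M T) :
    ⁅V, Blk P V T i₀⁆ ⊔ fix V (Blk P V T i₀) = V := by
  haveI := hc.comm
  have hUV : ⁅V, Blk P V T i₀⁆ ≤ V :=
    commutator_le_of_cm fun x hx v hv => hc.cm_memV (Blk_le i₀ hc hx) hv
  refine le_antisymm (sup_le hUV inf_le_left) fun v hv => ?_
  obtain ⟨u, hu, hue⟩ := d.surj_even i₀ hc (d.sum_coord i₀ v)
  have h1 : u⁻¹ * v ∈ V := V.mul_mem (V.inv_mem (hUV hu)) hv
  have h2 : u⁻¹ * v ∈ fix V (Blk P V T i₀) := by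
    refine d.fix_of_coord i₀ hc h1 ?_
    have h3 := d.coord_mul i₀ hc (hUV hu) h1
    rw [mul_inv_cancel_left, hue] at h3
    exact add_eq_left.1 h3.symm
  rw [← mul_inv_cancel_left u v]
  exact Subgroup.mul_mem_sup hu h2

include d in
/-- The block is a symmetric group on its odd permutation module. -/
theorem model (hc : Ctx 2 P V M T) {N : ℕ} (e : Pts i₀ ≃ Fin N) :
    Nonempty (↥(Blk P V T i₀) ≃* Equiv.Perm (Fin N)) ∧
      ActsAsOddPermModuleOnSection N ⊤ (Blk P V T i₀) ⁅V, Blk P V T i₀⁆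
        (⁅V, Blk P V T i₀⁆ ⊓ Subgroup.centralizer ((Blk P V T i₀ : Subgroup G) : Set G)) := by
  classical
  haveI := hc.comm
  set E := Blk P V T i₀
  set U := ⁅V, E⁆
  have hEP : E ≤ P := Blk_le i₀ hc
  have hUV : U ≤ V := commutator_le_of_cm fun x hx v hv => hc.cm_memV (hEP hx) hv
  let Rel : G → Equiv.Perm (Pts i₀) → Prop :=
    fun x π => ∀ v ∈ V, d.coord i₀ (x * v * x⁻¹) = fun o => d.coord i₀ v (π.symm o)
  have hpts : ∀ a b : Pts i₀, ∃ c, c ≠ a ∧ c ≠ b := by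
    intro a b
    set j : Cls i₀ := ⟨i₀, BRel.refl i₀⟩
    by_contra hcon
    push Not at hcon
    have h3 : ({none, some (j, false), some (j, true)} : Finset (Pts i₀)) ⊆ {a, b} := fun c _ => by
      rw [Finset.mem_insert, Finset.mem_singleton]
      exact or_iff_not_imp_left.2 (hcon c)
    have := (Finset.card_le_card h3).trans Finset.card_le_two
    rw [Finset.card_insert_of_notMem (by simp), Finset.card_pair (by simp)] at this
    omega
  have huniq : ∀ x π π', Rel x π → Rel x π' → π = π' := by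
    intro x π π' h h'
    refine Equiv.symm_bijective.injective (Equiv.ext fun o => ?_)
    by_contra hne
    obtain ⟨c, hc1, hc2⟩ := hpts (π.symm o) (π'.symm o)
    obtain ⟨u, hu, hue⟩ := d.exists_pair i₀ hc (π.symm o) c
    have h1 := congrFun ((h u (hUV hu)).symm.trans (h' u (hUV hu))) o
    simp only [hue, Pi.add_apply, Pi.single_apply, Ne.symm hc1, Ne.symm hne, Ne.symm hc2] at h1
    simp at h1
  have hmul : ∀ x ∈ P, ∀ y ∈ P, ∀ π π', Rel x π → Rel y π' → Rel (x * y) (π * π') := by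
    intro x _ y hy π π' h h' v hv
    rw [show x * y * v * (x * y)⁻¹ = x * (y * v * y⁻¹) * x⁻¹ by group, h _ (hc.conj_memV hy hv), h' v hv]
    rfl
  have hone : Rel 1 1 := fun v _ => by simp only [one_mul, inv_one, mul_one]; rfl
  have hα : ∀ j : Cls i₀, Rel (d.α j.1).t (Equiv.swap (some (j, false)) (some (j, true))) := by
    intro j v hv
    rw [Equiv.symm_swap]
    exact d.conj_swap i₀ hc _ (d.coord_α i₀ hc j) (by simp) hv (d.χ_α_eq i₀ v j)
  have hβ : ∀ j : Cls i₀, Rel (d.β j.1).t (Equiv.swap (some (j, false)) none) := by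
    intro j v hv
    rw [Equiv.symm_swap]
    exact d.conj_swap i₀ hc _ (d.coord_β i₀ hc j) (by simp) hv (d.χ_β_eq i₀ v j)
  have hex : ∀ x ∈ E, ∃ π, Rel x π := by
    let K : Submonoid G :=
      { carrier := {x | x ∈ P ∧ ∃ π, Rel x π}
        one_mem' := ⟨P.one_mem, 1, hone⟩
        mul_mem' := by
          rintro x y ⟨hx, π, hπ⟩ ⟨hy, π', hπ'⟩
          exact ⟨P.mul_mem hx hy, π * π', hmul x hx y hy π π' hπ hπ'⟩ }
    intro x hx
    have hx' : x ∈ Submonoid.closure (d.gens i₀) := by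
      rw [← Subgroup.closure_toSubmonoid_of_finite]
      exact d.Blk_le_closure i₀ hx
    refine (Submonoid.closure_le.2 ?_ hx' : x ∈ K).2
    rintro _ ⟨j, hj, rfl | rfl⟩
    · exact ⟨(d.α j).t_P, _, hα ⟨j, hj⟩⟩
    · exact ⟨(d.β j).t_P, _, hβ ⟨j, hj⟩⟩
  choose f hf using fun x : E => hex x x.2
  let ρ : E →* Equiv.Perm (Pts i₀) :=
    { toFun := f
      map_one' := huniq _ _ _ (hf 1) hone
      map_mul' := fun x y =>
        huniq _ _ _ (hf (x * y)) (hmul _ (hEP x.2) _ (hEP y.2) _ _ (hf x) (hf y)) }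
  have hρ : ∀ (x : E) π, Rel x π → ρ x = π := fun x π h => huniq _ _ _ (hf x) h
  have hsurj : Function.Surjective ρ := by
    rw [← MonoidHom.range_eq_top]
    have hnone : ∀ a : Pts i₀, Equiv.swap a none ∈ ρ.range := by
      rintro (_ | ⟨j, b⟩)
      · rw [Equiv.swap_self]
        exact ρ.range.one_mem
      · have hb : Equiv.swap (some (j, false)) (none : Pts i₀) ∈ ρ.range :=
          ⟨⟨_, d.β_Blk i₀ j.2⟩, hρ _ _ (hβ j)⟩
        cases b
        · exact hb
        · have ha : Equiv.swap (some (j, false)) (some (j, true)) ∈ ρ.range :=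
            ⟨⟨_, d.α_Blk i₀ hc j.2⟩, hρ _ _ (hα j)⟩
          have := mul_mem (mul_mem ha hb) (inv_mem ha)
          rw [← Equiv.swap_apply_apply, Equiv.swap_apply_left,
            Equiv.swap_apply_of_ne_of_ne (by simp) (by simp)] at this
          exact this
    rw [eq_top_iff, ← Equiv.Perm.closure_isSwap, Subgroup.closure_le]
    rintro _ ⟨a, b, hab, rfl⟩
    by_cases hb : b = none
    · exact hb ▸ hnone a
    by_cases ha : a = none
    · rw [ha, Equiv.swap_comm]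
      exact hnone b
    have h3 := mul_mem (mul_mem (hnone b) (hnone a)) (inv_mem (hnone b))
    rw [← Equiv.swap_apply_apply, Equiv.swap_apply_right,
      Equiv.swap_apply_of_ne_of_ne hab ha] at h3
    exact h3
  have hinj : Function.Injective ρ := by
    rw [injective_iff_map_eq_one]
    intro x hx
    refine Subtype.ext (hc.eq_one (hEP x.2) fun v hv => ?_)
    have hxrel : Rel x 1 := by rw [← hx]; exact hf x
    have hinv : ∀ w ∈ V, d.coord i₀ ((x : G)⁻¹ * w * x) = d.coord i₀ w := fun w hw => by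
      have h1 := hxrel _ (hc.conj_memV' (hEP x.2) hw)
      rw [show (x : G) * ((x : G)⁻¹ * w * x) * (x : G)⁻¹ = w by group] at h1
      exact h1.symm
    have hfixr : ∀ τ : Tv P V, (∀ w ∈ V, τ.χ ((x : G)⁻¹ * w * x) = τ.χ w) →
        (x : G) * τ.r * (x : G)⁻¹ = τ.r := fun τ hτ =>
      ((τ.conjTv hc (hEP x.2)).eq_of_χ τ hc fun w hw => by rw [Tv.χ_conjTv, hτ w hw]).2.2
    have hU : U ≤ Subgroup.centralizer ({(x : G)} : Set G) := by
      refine (d.comm_Blk_le i₀ hc).trans ((Subgroup.closure_le _).2 ?_)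
      rintro _ ⟨j, hj, rfl | rfl⟩ <;> rw [SetLike.mem_coe, Subgroup.mem_centralizer_singleton_iff] <;>
        refine (mul_inv_eq_iff_eq_mul.1 (hfixr _ fun w hw => ?_)).symm
      · rw [d.χ_α_eq i₀ _ ⟨j, hj⟩, d.χ_α_eq i₀ w ⟨j, hj⟩, hinv w hw]
      · rw [d.χ_β_eq i₀ _ ⟨j, hj⟩, d.χ_β_eq i₀ w ⟨j, hj⟩, hinv w hw]
    obtain ⟨u, hu, c, hc', rfl⟩ := exists_mul_of_mem_sup hUV inf_le_left ((d.comm_sup_Blk i₀ hc).ge hv)
    rw [cm_mul_right (V := V) (hUV hu) hc'.1 (hc.cm_memV (hEP x.2) hc'.1), (mem_fix_cm.1 hc').2 x x.2,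
      mul_one, cm_eq_one_iff]
    exact (Subgroup.mem_centralizer_singleton_iff.1 (hU hu)).symm
  let ρ' : E →* Equiv.Perm (Fin N) := e.permCongrHom.toMonoidHom.comp ρ
  have hρ'bij : Function.Bijective ρ' := e.permCongrHom.bijective.comp ⟨hinj, hsurj⟩
  refine ⟨⟨MulEquiv.ofBijective ρ' hρ'bij⟩,
    le_normalizer_of_conj fun y hy u hu => conj_mem_of_cm hu (cm_mem_commutator hy (hUV hu)),
    inf_le_left, ρ', ?_⟩
  let ψ : ↥U →* Multiplicative (Fin N → ZMod 2) :=
    MonoidHom.mk' (fun u => Multiplicative.ofAdd fun i => d.coord i₀ u (e.symm i)) fun u w => by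
      rw [← ofAdd_add]
      refine congrArg Multiplicative.ofAdd (funext fun i => ?_)
      rw [Subgroup.coe_mul, d.coord_mul i₀ hc (hUV u.2) (hUV w.2)]
      rfl
  refine ⟨ψ, MonoidHom.range_eq_top.2 hρ'bij.2, fun u => ?_, fun g hg => ?_, fun u => ?_, fun y u => ?_⟩
  · show ∑ i, d.coord i₀ u (e.symm i) = 0
    rw [Equiv.sum_comp e.symm (d.coord i₀ u), d.sum_coord]
  · obtain ⟨u, hu, hue⟩ := d.surj_even i₀ hc (f := fun o => g (e o))
      (by rw [Equiv.sum_comp e g]; exact hg)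
    refine ⟨⟨u, hu⟩, funext fun i => ?_⟩
    show d.coord i₀ u (e.symm i) = g i
    rw [hue]
    exact congrArg g (e.apply_symm_apply i)
  · constructor
    · intro h
      refine ⟨u.2, (d.fix_of_coord i₀ hc (hUV u.2) (funext fun o => ?_)).2⟩
      have h1 := congrFun (congrArg Multiplicative.toAdd h) (e o)
      simpa [ψ] using h1
    · intro h
      refine Multiplicative.toAdd.injective (funext fun i => ?_)
      show d.coord i₀ u (e.symm i) = 0
      have hfix : (u : G) ∈ fix V E := ⟨hUV u.2, h.2⟩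
      have hz : ∀ j : Cls i₀, (d.α j.1).χ u = 0 ∧ (d.β j.1).χ u = 0 := fun j =>
        ⟨(d.α j.1).χ_eq_zero.2 ((mem_fix_cm.1 hfix).2 _ (d.α_Blk i₀ hc j.2)),
          (d.β j.1).χ_eq_zero.2 ((mem_fix_cm.1 hfix).2 _ (d.β_Blk i₀ j.2))⟩
      rcases e.symm i with _ | ⟨j, b⟩
      · simp [coord, fun j => (hz j).1]
      · simp [coord, fun j => (hz j).1, (hz j).2]
  · refine ⟨⟨(y : G) * u * (y : G)⁻¹, conj_mem_of_cm u.2 (cm_mem_commutator y.2 (hUV u.2))⟩, rfl,
      fun i => ?_⟩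
    show d.coord i₀ ((y : G) * u * (y : G)⁻¹) (e.symm i) = d.coord i₀ u (e.symm _)
    rw [hf y u (hUV u.2)]
    refine congrArg (d.coord i₀ u) ?_
    show (f y).symm (e.symm i) = e.symm (((e.permCongrHom (f y))⁻¹) i)
    simp [Equiv.permCongrHom, Equiv.permCongr_def, Equiv.Perm.inv_def]

end BlockData

/-- The product decomposition for members of order two. -/
theorem blocks_conclusion (hc : Ctx 2 P V M T) (hmax : ∀ K ≤ P, T ≤ K → ¬ K ≤ M → K = P)
    (hne : Nonempty (Idx 2 P V T)) (h2 : ∀ i : Idx 2 P V T, Nat.card i.1 = 2) :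
    ∃ (κ : Set (Subgroup G)) (r : ℕ) (σ : Fin r ≃ κ), κ = Set.range (Blk P V T) ∧ 1 ≤ r ∧
      (∀ i, (σ i).1 ≤ P) ∧
      (∀ i j, i ≠ j → ⁅(σ i).1, (σ j).1⁆ = ⊥) ∧
      (∀ i, (σ i).1 ⊓ (⨆ j ∈ {j | j ≠ i}, (σ j).1) = ⊥) ∧
      (⨆ i, (σ i).1) ⊔ T = P ∧
      (∀ i j, ∃ t ∈ T, (σ i).1.map (MulAut.conj t).toMonoidHom = (σ j).1) ∧
      (V ⊓ Subgroup.centralizer (((⨆ i, (σ i).1) : Subgroup G) : Set G)) ⊔ (⨆ i, ⁅V, (σ i).1⁆) = V ∧
      (∀ i j, i ≠ j → ⁅⁅V, (σ i).1⁆, (σ j).1⁆ = ⊥) ∧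
      ∀ i, ∃ n : ℕ, 1 ≤ n ∧ Nonempty (↥(σ i).1 ≃* Equiv.Perm (Fin (2 ^ n + 1))) ∧
        ActsAsOddPermModuleOnSection (2 ^ n + 1) ⊤ (σ i).1 ⁅V, (σ i).1⁆
          (⁅V, (σ i).1⁆ ⊓ Subgroup.centralizer (((σ i).1 : Subgroup G) : Set G)) := by
  classical
  obtain ⟨d⟩ := exists_blockData hc h2
  haveI := Fintype.ofFinite (Idx 2 P V T)
  letI : MulAction T (Idx 2 P V T) :=
    { smul := fun t i => ⟨conjSub (t : G) i.1,
        hc.family.conj (t : G) (hc.M_le (hc.T_le t.2)) i.1 i.2.1, conjSub_le_of_mem t.2 i.2.2⟩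
      one_smul := fun i => Subtype.ext (conjSub_one i.1)
      mul_smul := fun s t i => Subtype.ext (conjSub_conjSub (s : G) t i.1).symm }
  have hsmul : ∀ (t : T) (i : Idx 2 P V T), (t • i).1 = conjSub (t : G) i.1 := fun _ _ => rfl
  have htr : ∀ i j : Idx 2 P V T, ∃ t : T, t • i = j := fun i j => by
    obtain ⟨t, ht, he⟩ := hc.member_transitive i.2.1 i.2.2 j.2.1 j.2.2
    exact ⟨⟨t, ht⟩, Subtype.ext he⟩
  have hrel : ∀ (t : T) (i j : Idx 2 P V T), BRel P V T i j → BRel P V T (t • i) (t • j) := by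
    intro t i j h
    rcases h with rfl | h
    · exact BRel.refl _
    refine Or.inr fun hcomm => h fun x hx y hy => ?_
    have hx' : (t : G) * x * (t : G)⁻¹ ∈ LT 2 P V T (t • i).1 := by
      rw [hsmul, ← hc.LT_conj i.2.1 i.2.2 t.2]
      exact conj_mem_conjSub hx
    have hy' : (t : G) * y * (t : G)⁻¹ ∈ LT 2 P V T (t • j).1 := by
      rw [hsmul, ← hc.LT_conj j.2.1 j.2.2 t.2]
      exact conj_mem_conjSub hy
    have := hcomm _ hx' _ hy'
    calc x * y = (t : G)⁻¹ * (((t : G) * x * (t : G)⁻¹) * ((t : G) * y * (t : G)⁻¹)) * t := by group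
      _ = (t : G)⁻¹ * (((t : G) * y * (t : G)⁻¹) * ((t : G) * x * (t : G)⁻¹)) * t := by rw [this]
      _ = y * x := by group
  have hrel' : ∀ (t : T) (i j : Idx 2 P V T), BRel P V T (t • i) (t • j) → BRel P V T i j := by
    intro t i j h
    have := hrel t⁻¹ _ _ h
    rwa [inv_smul_smul, inv_smul_smul] at this
  have hconjB : ∀ (t : T) (i : Idx 2 P V T),
      conjSub (t : G) (Blk P V T i) = Blk P V T (t • i) := by
    intro t i
    have hle : ∀ (s : T) (k : Idx 2 P V T), conjSub (s : G) (Blk P V T k) ≤ Blk P V T (s • k) := by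
      intro s k
      rw [conjSub_le_iff]
      refine iSup_le fun j => ?_
      rw [← conjSub_le_iff, hc.LT_conj j.1.2.1 j.1.2.2 s.2]
      exact LT_le_Blk (i := s • k) (j := s • j.1) (hrel s k j.1 j.2)
    refine le_antisymm (hle t i) ?_
    have h1 := hle t⁻¹ (t • i)
    rw [inv_smul_smul, conjSub_le_iff] at h1
    simpa using h1
  have hinj : ∀ i j : Idx 2 P V T, Blk P V T i = Blk P V T j → BRel P V T i j := by
    intro i j he
    by_contra hne'
    have h1 := d.Blk_fix i hc hne' (d.β_r_mem i hc (BRel.refl i))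
    rw [← he] at h1
    have h2 := (mem_fix_cm.1 h1).2 _ (d.α_Blk i hc (BRel.refl i))
    exact (d.α i).χ_eq_one.1 (d.βone i) h2
  set κ : Set (Subgroup G) := Set.range (Blk P V T) with hκ
  haveI : Nonempty κ := ⟨⟨_, ⟨Classical.arbitrary _, rfl⟩⟩⟩
  have hV : ∀ k : κ, ⁅V, k.1⁆ ⊔ fix V k.1 = V := by
    rintro ⟨_, i, rfl⟩
    exact d.comm_sup_Blk i hc
  have hfix : ∀ k l : κ, k ≠ l → ⁅V, k.1⁆ ≤ fix V l.1 := by
    rintro ⟨_, i, rfl⟩ ⟨_, j, rfl⟩ hne'
    exact d.Blk_fix i hc fun h => hne' (Subtype.ext (Blk_eq hc d h))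
  have hP : ∀ k : κ, k.1 ≤ P := by
    rintro ⟨_, i, rfl⟩
    exact BlockData.Blk_le i hc
  have hM : ∀ k : κ, ¬ k.1 ≤ M := by
    rintro ⟨_, i, rfl⟩
    exact BlockData.Blk_nle i hc
  have htrans : ∀ k l : κ, ∃ t ∈ T, conjSub t k.1 = l.1 := by
    rintro ⟨_, i, rfl⟩ ⟨_, j, rfl⟩
    obtain ⟨t, rfl⟩ := htr i j
    exact ⟨t, t.2, hconjB t i⟩
  obtain ⟨r, σ, hr, h1, h3, h4, h5, h6, h7⟩ :=
    product_conclusion hc hmax (fun k : κ => k.1) hP hM hV hfix htrans
  refine ⟨κ, r, σ, hκ, hr, fun i => hP _, h1, h3, h4, h5, h6, h7, fun a => ?_⟩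
  obtain ⟨i, hi⟩ := (σ a).2
  rw [← hi]
  -- the number of members in a block is a power of two
  have hcls : ∀ i j : Idx 2 P V T,
      Nat.card {l // BRel P V T i l} = Nat.card {l // BRel P V T j l} := by
    intro i j
    obtain ⟨t, rfl⟩ := htr i j
    exact Nat.card_congr ((MulAction.toPerm t).subtypeEquiv fun l => ⟨hrel t i l, hrel' t i l⟩)
  have hdvd : Nat.card {l // BRel P V T i l} ∣ Nat.card (Idx 2 P V T) := by
    let f : Idx 2 P V T → κ := fun l => ⟨Blk P V T l, l, rfl⟩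
    haveI := Fintype.ofFinite κ
    have hfib : ∀ k : κ, Nat.card {l // f l = k} = Nat.card {l // BRel P V T i l} := by
      rintro ⟨_, j, rfl⟩
      rw [hcls i j]
      exact Nat.card_congr (Equiv.subtypeEquivRight fun l =>
        ⟨fun h => hinj _ _ (congrArg Subtype.val h).symm, fun h => Subtype.ext (Blk_eq hc d h).symm⟩)
    rw [← Nat.card_congr (Equiv.sigmaFiberEquiv f), Nat.card_sigma]
    exact Finset.dvd_sum fun k _ => (hfib k).symm.dvd
  obtain ⟨k, hk⟩ : ∃ k, Nat.card (Idx 2 P V T) = 2 ^ k := by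
    obtain ⟨k, hk⟩ := hc.T_p.card_orbit i
    refine ⟨k, ?_⟩
    rw [← hk]
    have : MulAction.orbit T i = Set.univ := Set.eq_univ_of_forall fun j => htr i j
    rw [this]
    exact (Nat.card_congr (Equiv.Set.univ _)).symm
  obtain ⟨m, -, hm⟩ := (Nat.dvd_prime_pow Nat.prime_two).1 (hk ▸ hdvd)
  haveI := Fintype.ofFinite (BlockData.Cls i)
  have hcard : Fintype.card (BlockData.Pts i) = 2 ^ (m + 1) + 1 := by
    rw [Fintype.card_option, Fintype.card_prod, Fintype.card_bool, Fintype.card_eq_nat_card,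
      pow_succ]
    exact congrArg (fun z => z * 2 + 1) hm
  exact ⟨m + 1, Nat.le_add_left 1 m, d.model i hc (Fintype.equivFinOfCardEq hcard)⟩

end CfsgLib.MinParFF
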