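import Cfsg.Agent.MinParFF.MinimalParabolic
import Mathlib.GroupTheory.SemidirectProduct

/-!
A `p`-minimal group with `O_p = 1` and an offender moves the fixed points of a Sylow `p`-subgroup.

The proof passes to an irreducible section `U / U₁` of `V`, where every member of `T` crosses, and lifts a
fixed point of `T` there to one in `U`.
-/

set_option autoImplicit false
set_option linter.style.haveILetI false
set_option linter.unusedSectionVars false

open Cfsg

namespace CfsgLib.MinParFF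

variable {G : Type*} [Group G] [Finite G] {p : ℕ} [hp : Fact p.Prime] {P V M T : Subgroup G}

theorem Natl.comm_inter {Q A L : Subgroup G} (hc : Ctx p P V M T) (hA : OffMin p P V A)
    (h : Natl p P V M Q A L) : ⁅V, L⁆ ⊓ fix V A ≤ ⁅V, A⁆ := by
  haveI := hc.comm
  obtain ⟨g, hg, hgM⟩ := h.exists_g
  set B := conjSub g A with hB
  have hAW : ⁅V, A⁆ ≤ fix V A := commutator_le_of_cm fun a ha v hv => hc.cm_mem_fix hA ha hv
  have hBle : ⁅V, B⁆ ≤ conjSub g ⁅V, A⁆ := commutator_le_of_cm fun b hb v hv => by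
    rw [hB, mem_conjSub] at hb
    rw [mem_conjSub, show g⁻¹ * cm b v * g = cm (g⁻¹ * b * g) (g⁻¹ * v * g) by simp only [cm]; group]
    exact cm_mem_commutator hb (hc.conj_memV' (h.le hg) hv)
  have hgV : conjSub g ⁅V, A⁆ ≤ V := fun u hu => by
    have h1 := hc.conj_memV (h.le hg) (hAW (mem_conjSub.1 hu)).1
    rwa [show g * (g⁻¹ * u * g) * g⁻¹ = u by group] at h1
  have hsum : ⁅V, L⁆ ≤ ⁅V, A⁆ ⊔ conjSub g ⁅V, A⁆ := by
    have hV' : ⁅V, A⁆ ⊔ conjSub g ⁅V, A⁆ ≤ V := sup_le (hAW.trans inf_le_left) hgV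
    refine commutator_le_of_cm fun x hx v hv => ?_
    rw [← h.gen hg hgM] at hx
    exact cm_mem_of_mem_sup
      (fun a ha u hu => conj_mem_of_cm hu (Subgroup.mem_sup_left (cm_mem_commutator ha (hV' hu))))
      (fun b hb u hu => conj_mem_of_cm hu (Subgroup.mem_sup_right (hBle (cm_mem_commutator hb (hV' hu)))))
      (fun a ha => Subgroup.mem_sup_left (cm_mem_commutator ha hv))
      (fun b hb => Subgroup.mem_sup_right (hBle (cm_mem_commutator hb hv))) hx
  rintro u ⟨hu, huW⟩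
  obtain ⟨x, hx, y, hy, rfl⟩ := exists_mul_of_mem_sup (hAW.trans inf_le_left) hgV (hsum hu)
  refine mul_mem hx ?_
  have hyW : y ∈ fix V A := by
    have h1 := mul_mem (inv_mem (hAW hx)) huW
    rwa [inv_mul_cancel_left] at h1
  have h0 : y ∈ fix V L := (h.fix_inter hg hgM).le ⟨hyW, conjSub_mono hAW hy⟩
  rw [mem_conjSub] at hy
  have e := h.conj_fix (L.inv_mem hg) h0
  rw [inv_inv] at e
  rwa [e] at hy

theorem conj_commute_aux {H : Type*} [Group H] {m x z : H}
    (h : x * (m⁻¹ * z * m) = (m⁻¹ * z * m) * x) : z * (m * x * m⁻¹) = m * x * m⁻¹ * z :=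
  calc z * (m * x * m⁻¹) = m * ((m⁻¹ * z * m) * x) * m⁻¹ := by group
    _ = m * (x * (m⁻¹ * z * m)) * m⁻¹ := by rw [h]
    _ = m * x * m⁻¹ * z := by group

theorem conj_commute_aux' {H : Type*} [Group H] {m y z : H}
    (h : (m * y * m⁻¹) * z = z * (m * y * m⁻¹)) : y * (m⁻¹ * z * m) = m⁻¹ * z * m * y :=
  calc y * (m⁻¹ * z * m) = m⁻¹ * ((m * y * m⁻¹) * z) * m := by group
    _ = m⁻¹ * (z * (m * y * m⁻¹)) * m := by rw [h]
    _ = _ := by group

theorem mem_of_conj_mem_aux {H : Type*} [Group H] {M : Subgroup H} {m x : H} (hm : m ∈ M)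
    (h : m * x * m⁻¹ ∈ M) : x ∈ M := by
  simpa [mul_assoc] using M.mul_mem (M.mul_mem (M.inv_mem hm) h) hm

/-- An element of order prime to `p` acting trivially on `U₁` and `U / U₁` fixes `U`. -/
theorem fix_of_coprime {U U₁ : Subgroup G} [IsMulCommutative U] (hU : ∀ u ∈ U, u ^ p = 1)
    (hU₁ : U₁ ≤ U) {x : G} (hx : (orderOf x).Coprime p) (h1 : ∀ w ∈ U₁, x * w = w * x)
    (h2 : ∀ u ∈ U, cm x u ∈ U₁) {u : G} (hu : u ∈ U) : cm x u = 1 := by
  obtain ⟨m, hm⟩ := exists_pow_eq_self_of_coprime hx.symm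
  have hpow : ∀ n, cm (x ^ n) u = cm x u ^ n := fun n => by
    induction n with
    | zero => simp [cm]
    | succ n ih =>
      have hcomm : x ^ n * cm x u = cm x u * x ^ n :=
        ((show Commute x (cm x u) from h1 _ (h2 u hu)).pow_left n).eq
      rw [pow_succ x n, cm_mul_left hcomm, ih, pow_succ']
  rw [← hm, ← pow_mul, hpow, pow_mul, hU _ (hU₁ (h2 u hu)), one_pow]

/-- The section data. -/
structure Section (p : ℕ) (P U U₁ : Subgroup G) : Prop where
  comm : IsMulCommutative U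
  expo : ∀ u ∈ U, u ^ p = 1
  le : U₁ ≤ U
  norm : P ≤ Subgroup.normalizer (U : Set G)
  norm₁ : P ≤ Subgroup.normalizer (U₁ : Set G)
  coprime_fix : ∀ x ∈ P, (orderOf x).Coprime p → ∀ w ∈ U₁, x * w = w * x
  moved : ∃ x ∈ P, (orderOf x).Coprime p ∧ ∃ u ∈ U, cm x u ≠ 1
  simple : ∀ W : Subgroup G, U₁ ≤ W → W ≤ U → P ≤ Subgroup.normalizer (W : Set G) → W = U₁ ∨ W = U

theorem exists_section (hV : IsElementaryAbelian p V) (hPV : P ≤ Subgroup.normalizer (V : Set G))
    (hmoved : ∃ x ∈ P, (orderOf x).Coprime p ∧ ∃ u ∈ V, cm x u ≠ 1) :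
    ∃ U U₁ : Subgroup G, U ≤ V ∧ Section p P U U₁ := by
  haveI := hV.1
  obtain ⟨U, hUV, hU⟩ := (Set.toFinite {W : Subgroup G | W ≤ V ∧ P ≤ Subgroup.normalizer (W : Set G) ∧
    ∃ x ∈ P, (orderOf x).Coprime p ∧ ∃ u ∈ W, cm x u ≠ 1}).exists_le_minimal (a := V) ⟨le_rfl, hPV, hmoved⟩
  obtain ⟨-, hPU, hmv⟩ := hU.1
  haveI : IsMulCommutative U := ⟨⟨fun a b => Subtype.ext (setLike_mul_comm (hUV a.2) (hUV b.2))⟩⟩
  have hne : (⊥ : Subgroup G) ∈ {W : Subgroup G | W < U ∧ P ≤ Subgroup.normalizer (W : Set G)} := by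
    refine ⟨bot_lt_iff_ne_bot.2 ?_, fun x _ => ?_⟩
    · rintro rfl
      obtain ⟨x, -, -, u, hu, hxu⟩ := hmv
      rw [Subgroup.mem_bot] at hu
      exact hxu (by rw [hu]; simp [cm])
    · rw [Subgroup.normalizer_eq_top_iff.2 inferInstance]
      trivial
  obtain ⟨U₁, -, hU₁⟩ := (Set.toFinite _).exists_le_maximal hne
  obtain ⟨hlt, hP₁⟩ := hU₁.1
  refine ⟨U, U₁, hUV, inferInstance, fun u hu => hV.2 u (hUV hu), hlt.le, hPU, hP₁,
    fun x hx hxc w hw => ?_, hmv, fun W h1 h2 h3 => ?_⟩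
  · by_contra hne'
    have := hU.eq_of_le ⟨hlt.le.trans hUV, hP₁, x, hx, hxc, w, hw, fun e => hne' (cm_eq_one_iff.1 e)⟩ hlt.le
    exact hlt.ne this
  · rcases h2.lt_or_eq with h | h
    · exact Or.inl (hU₁.eq_of_ge ⟨h, h3⟩ h1)
    · exact Or.inr h

theorem fixed_points_moved (hV : IsElementaryAbelian p V) (hPV : P ≤ Subgroup.normalizer (V : Set G))
    (hfaith : P ⊓ Subgroup.centralizer (V : Set G) = ⊥) (hmin : IsPMinimal p ↥P)
    (hOp : Cfsg.pCore p ↥P = ⊥)
    (hoff : ∃ A : Subgroup G, A ≤ P ∧ ¬ A ≤ Subgroup.centralizer (V : Set G) ∧ IsBestOffenderOn p V A)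
    (S : Sylow p ↥P) :
    ⁅fix V ((S : Subgroup ↥P).map P.subtype), P⁆ ≠ ⊥ := by
  classical
  haveI := hV.1
  intro hZ
  set T := (S : Subgroup ↥P).map P.subtype with hT
  have hTp : IsPGroup p T := S.isPGroup'.map _
  have hTP : T ≤ P := Subgroup.map_subtype_le _
  obtain ⟨hnn, M₀, ⟨hM₀, hSM⟩, huniq⟩ := hmin S
  set M := M₀.map P.subtype with hM
  have hMP : M ≤ P := Subgroup.map_subtype_le _
  have hTM : T ≤ M := Subgroup.map_mono hSM
  have hPM : ¬ P ≤ M := fun hle => hM₀.1 (eq_top_iff.2 fun x _ => by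
    obtain ⟨y, hy, hyx⟩ := hle x.2
    rwa [← P.subtype_injective hyx])
  have hmax : ∀ K ≤ P, T ≤ K → ¬ K ≤ M → K = P := by
    intro K hKP hTK hKM
    rcases eq_top_or_exists_le_coatom (K.subgroupOf P) with h | ⟨M', hM', hle⟩
    · exact le_antisymm hKP (Subgroup.subgroupOf_eq_top.1 h)
    exfalso
    have e : M' = M₀ := huniq M' ⟨hM', fun x hx => hle (show (x : G) ∈ K from hTK ⟨x, hx, rfl⟩)⟩
    exact hKM fun x hx => ⟨⟨x, hKP hx⟩, e ▸ hle (show (⟨x, hKP hx⟩ : P) ∈ K.subgroupOf P from hx), rfl⟩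
  have hsyl : ∀ X ≤ P, IsPGroup p X → Nat.card X ≤ Nat.card T := by
    intro X hX hXp
    obtain ⟨S', hS'⟩ := (hXp.of_equiv (Subgroup.subgroupOfEquivOfLe hX).symm).exists_le_sylow
    rw [← Nat.card_congr (Subgroup.subgroupOfEquivOfLe hX).toEquiv,
      ← Nat.card_congr (S.1.equivMapOfInjective _ P.subtype_injective).toEquiv]
    exact (Subgroup.card_le_of_le hS').trans (le_of_eq (Nat.card_congr (Sylow.equiv S' S).toEquiv))
  have hmoved : ∃ x ∈ P, (orderOf x).Coprime p ∧ ∃ u ∈ V, cm x u ≠ 1 := by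
    by_contra hcon
    push Not at hcon
    have hP : IsPGroup p P := by
      intro x
      obtain ⟨k, m, hm, hk⟩ := Nat.exists_eq_pow_mul_and_not_dvd (orderOf_pos (x : G)).ne' p hp.1.ne_one
      refine ⟨k, Subtype.ext ?_⟩
      rw [Subgroup.coe_pow, Subgroup.coe_one]
      have hord : orderOf ((x : G) ^ p ^ k) = m := by
        rw [orderOf_pow_of_dvd (pow_ne_zero _ hp.1.ne_zero) (hk ▸ dvd_mul_right _ _), hk,
          Nat.mul_div_cancel_left _ (pow_pos hp.1.pos _)]
      have hxP : (x : G) ^ p ^ k ∈ P := P.pow_mem x.2 _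
      have : (x : G) ^ p ^ k ∈ P ⊓ Subgroup.centralizer (V : Set G) :=
        ⟨hxP, Subgroup.mem_centralizer_iff.2 fun v hv => (cm_eq_one_iff.1 (hcon _ hxP
          (hord ▸ ((hp.1.coprime_iff_not_dvd).2 hm).symm) v hv)).symm⟩
      rwa [hfaith, Subgroup.mem_bot] at this
    exact hPM ((Subgroup.eq_of_le_of_card_ge hTP (hsyl P le_rfl hP)).ge.trans hTM)
  obtain ⟨U, U₁, hUV, hsec⟩ := exists_section hV hPV hmoved
  haveI := hsec.comm
  haveI hn₁ : (U₁.subgroupOf U).Normal := Subgroup.normal_of_isMulCommutative _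
  letI : CommGroup U := { (inferInstance : Group U) with mul_comm := fun a b => mul_comm' a b }
  let Vb := ↥U ⧸ U₁.subgroupOf U
  -- the action of `P` on the section
  let act₀ : ∀ x : P, ↥U →* ↥U := fun x => MonoidHom.mk'
    (fun u => ⟨(x : G) * u * (x : G)⁻¹, (Subgroup.mem_normalizer_iff.1 (hsec.norm x.2) u).1 u.2⟩)
    fun u w => Subtype.ext (by simp)
  have hact₀ : ∀ x : P, U₁.subgroupOf U ≤ (U₁.subgroupOf U).comap (act₀ x) := fun x u hu =>
    (Subgroup.mem_normalizer_iff.1 (hsec.norm₁ x.2) (u : G)).1 hu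
  let act₁ : P → (Vb →* Vb) := fun x => QuotientGroup.map _ _ (act₀ x) (hact₀ x)
  have hact₁ : ∀ (x : P) (u : U), act₁ x (QuotientGroup.mk u) = QuotientGroup.mk (act₀ x u) :=
    fun _ _ => rfl
  have hmul : ∀ x y : P, ∀ q : Vb, act₁ (x * y) q = act₁ x (act₁ y q) := fun x y q => by
    induction q using QuotientGroup.induction_on with
    | H u => exact congrArg QuotientGroup.mk (Subtype.ext (by simp [act₀, mul_assoc]))
  have hone : ∀ q : Vb, act₁ 1 q = q := fun q => by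
    induction q using QuotientGroup.induction_on with
    | H u => exact congrArg QuotientGroup.mk (Subtype.ext (by simp [act₀]))
  let φ : P →* MulAut Vb :=
    { toFun := fun x =>
        { toFun := act₁ x
          invFun := act₁ x⁻¹
          left_inv := fun q => by rw [← hmul, inv_mul_cancel, hone]
          right_inv := fun q => by rw [← hmul, mul_inv_cancel, hone]
          map_mul' := map_mul (act₁ x) }
      map_one' := MulEquiv.ext hone
      map_mul' := fun x y => MulEquiv.ext (hmul x y) }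
  haveI : Finite (MulAut Vb) := Finite.of_injective (fun f : MulAut Vb => (f : Vb → Vb)) DFunLike.coe_injective
  let G' := Vb ⋊[MonoidHom.id (MulAut Vb)] MulAut Vb
  haveI : Finite G' := Finite.of_equiv _ SemidirectProduct.equivProd.symm
  let π : P →* G' := (SemidirectProduct.inr : MulAut Vb →* G').comp φ
  let ι : U →* G' := (SemidirectProduct.inl : Vb →* G').comp (QuotientGroup.mk' _)
  have hι1 : ∀ u : U, ι u = 1 ↔ (u : G) ∈ U₁ := fun u => by
    show SemidirectProduct.inl _ = 1 ↔ _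
    rw [← map_one (SemidirectProduct.inl : Vb →* G'), SemidirectProduct.inl_injective.eq_iff]
    exact (QuotientGroup.eq_one_iff u).trans Subgroup.mem_subgroupOf
  have hιconj : ∀ (x : P) (u : U), π x * ι u * (π x)⁻¹ = ι (act₀ x u) := fun x u => by
    show SemidirectProduct.inr (φ x) * SemidirectProduct.inl (QuotientGroup.mk u) *
      (SemidirectProduct.inr (φ x))⁻¹ = SemidirectProduct.inl (QuotientGroup.mk (act₀ x u))
    rw [← map_inv, ← SemidirectProduct.inl_aut]
    rfl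
  have hcmU : ∀ (x : P) (u : U), cm (x : G) u ∈ U := fun x u => U.mul_mem (act₀ x u).2 (U.inv_mem u.2)
  have hιcm : ∀ (x : P) (u : U), cm (π x) (ι u) = ι ⟨cm (x : G) u, hcmU x u⟩ := fun x u => by
    show π x * ι u * (π x)⁻¹ * (ι u)⁻¹ = _
    rw [hιconj, ← map_inv, ← map_mul]
    rfl
  set V' := ι.range with hV'
  set P' := π.range with hP'
  set T' := (T.subgroupOf P).map π with hT'
  set M' := (M.subgroupOf P).map π with hM'
  have hker : ∀ x : P, π x = 1 ↔ ∀ u ∈ U, cm (x : G) u ∈ U₁ := by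
    intro x
    constructor
    · intro h u hu
      have h1 := hιcm x ⟨u, hu⟩
      rw [h, cm_one_left] at h1
      exact (hι1 _).1 h1.symm
    · intro h
      show SemidirectProduct.inr (φ x) = 1
      rw [← map_one (SemidirectProduct.inr : MulAut Vb →* G'), SemidirectProduct.inr_injective.eq_iff]
      refine MulEquiv.ext fun q => ?_
      induction q using QuotientGroup.induction_on with
      | H u =>
        show act₁ x (QuotientGroup.mk u) = QuotientGroup.mk u
        rw [hact₁, QuotientGroup.eq, Subgroup.mem_subgroupOf]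
        have h1 := U₁.inv_mem (h u u.2)
        rw [cm, mul_inv_rev, inv_inv] at h1
        convert h1 using 1
        rw [Subgroup.coe_mul, Subgroup.coe_inv]
        exact setLike_mul_comm (S := Subgroup G) (s := U) (U.inv_mem (act₀ x u).2) u.2
  have hcop : ∀ x : P, (orderOf (x : G)).Coprime p → ∀ w ∈ U₁, (x : G) * w = w * x :=
    fun x hx => hsec.coprime_fix x x.2 hx
  have hcopfix : ∀ x : P, π x = 1 → (orderOf (x : G)).Coprime p → ∀ u ∈ U, cm (x : G) u = 1 :=
    fun x h1 h2 u hu => fix_of_coprime hsec.expo hsec.le h2 (hcop x h2) ((hker x).1 h1) hu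
  have hKerM : π.ker.map P.subtype ≤ M := by
    by_contra hne
    have he := hmax (T ⊔ π.ker.map P.subtype) (sup_le hTP (Subgroup.map_subtype_le _)) le_sup_left
      fun hle => hne (le_sup_right.trans hle)
    obtain ⟨x, hx, hxc, u, hu, hxu⟩ := hsec.moved
    have hP'T : P' ≤ T' := by
      rintro _ ⟨y, rfl⟩
      have hy : y ∈ (T.subgroupOf P) ⊔ π.ker := by
        have h1 : (y : G) ∈ ((T.subgroupOf P) ⊔ π.ker).map P.subtype := by
          rw [Subgroup.map_sup, Subgroup.map_subgroupOf_eq_of_le hTP]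
          exact he.ge y.2
        obtain ⟨z, hz, hzy⟩ := h1
        rwa [← P.subtype_injective hzy]
      have h2 := Subgroup.mem_map_of_mem π hy
      rwa [Subgroup.map_sup, (Subgroup.map_eq_bot_iff π.ker).2 le_rfl, sup_bot_eq] at h2
    have hT'p : IsPGroup p T' := (hTp.of_equiv (Subgroup.subgroupOfEquivOfLe hTP).symm).map π
    obtain ⟨k, hk⟩ := hT'p ⟨π ⟨x, hx⟩, hP'T ⟨_, rfl⟩⟩
    have hk' : π ⟨x, hx⟩ ^ p ^ k = 1 := congrArg Subtype.val hk
    have hd : orderOf (π ⟨x, hx⟩) ∣ orderOf x := by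
      rw [← Subgroup.orderOf_mk x hx]
      exact orderOf_map_dvd π _
    have hπx : π ⟨x, hx⟩ = 1 := by
      rw [← orderOf_eq_one_iff]
      exact Nat.eq_one_of_dvd_coprimes (hxc.pow_right k) hd (orderOf_dvd_of_pow_eq_one hk')
    exact hxu (hcopfix ⟨x, hx⟩ hπx hxc u hu)
  -- `T` meets the kernel trivially
  have hTker : ∀ x : P, (x : G) ∈ T → π x = 1 → x = 1 := by
    set N := π.ker.map P.subtype with hN
    set X := T ⊓ N
    have hPN : P ≤ Subgroup.normalizer (N : Set G) := le_normalizer_of_conj fun g hg y hy => by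
      obtain ⟨z, hz, rfl⟩ := hy
      refine ⟨⟨g, hg⟩ * z * ⟨g, hg⟩⁻¹, ?_, rfl⟩
      rw [SetLike.mem_coe, MonoidHom.mem_ker, map_mul, map_mul, map_inv, MonoidHom.mem_ker.1 hz,
        mul_one, mul_inv_cancel]
    have hTX : T ≤ Subgroup.normalizer (X : Set G) := le_normalizer_of_conj fun t ht y hy =>
      ⟨T.mul_mem (T.mul_mem ht hy.1) (T.inv_mem ht),
        (Subgroup.mem_normalizer_iff.1 (hPN (hTP ht)) y).1 hy.2⟩
    have hXP : X ≤ P := inf_le_left.trans hTP
    have he : P ⊓ Subgroup.normalizer (X : Set G) = P := by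
      refine hmax _ inf_le_left (le_inf hTP hTX) fun hle => hPM fun g hg => ?_
      obtain ⟨n, hn, hng⟩ := exists_frattini hTp (N := N) (fun Y hY hYp => by
        obtain ⟨S', hS'⟩ :=
          (hYp.of_equiv (Subgroup.subgroupOfEquivOfLe (hY.trans (Subgroup.map_subtype_le _))).symm).exists_le_sylow
        obtain ⟨y, hy⟩ := MulAction.exists_smul_eq P S' S
        refine ⟨y, hPN y.2, fun z hz => ?_⟩
        rw [mem_conjSub] at hz
        have h2 : MulAut.conj y • (⟨_, Subgroup.map_subtype_le _ (hY hz)⟩ : P) ∈ (S : Subgroup P) := by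
          rw [← hy, Sylow.coe_subgroup_smul]
          exact Subgroup.smul_mem_pointwise_smul _ _ _ (hS' hz)
        refine ⟨_, h2, ?_⟩
        simp [MulAut.smul_def, mul_assoc]) (hPN hg)
      have h1 : n⁻¹ * g ∈ M := hle ⟨P.mul_mem (P.inv_mem (Subgroup.map_subtype_le _ hn)) hg, hng⟩
      simpa using M.mul_mem (hKerM hn) h1
    have hn : (X.subgroupOf P).Normal := ⟨fun r hr g =>
      (Subgroup.mem_normalizer_iff.1 ((inf_eq_left.1 he) g.2) r).1 hr⟩
    have h1 := CfsgLib.LocalP.le_pCore hn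
      ((hTp.to_le inf_le_left).of_equiv (Subgroup.subgroupOfEquivOfLe hXP).symm)
    rw [hOp, le_bot_iff] at h1
    intro x hxT hx
    have : x ∈ X.subgroupOf P := ⟨hxT, x, MonoidHom.mem_ker.2 hx, rfl⟩
    rwa [h1, Subgroup.mem_bot] at this
  have hconjT : ∀ X ≤ P, IsPGroup p X → ∃ g ∈ P, conjSub g X ≤ T := by
    intro Y hY hYp
    obtain ⟨S', hS'⟩ := (hYp.of_equiv (Subgroup.subgroupOfEquivOfLe hY).symm).exists_le_sylow
    obtain ⟨y, hy⟩ := MulAction.exists_smul_eq P S' S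
    refine ⟨y, y.2, fun z hz => ?_⟩
    rw [mem_conjSub] at hz
    have h2 : MulAut.conj y • (⟨_, hY hz⟩ : P) ∈ (S : Subgroup P) := by
      rw [← hy, Sylow.coe_subgroup_smul]
      exact Subgroup.smul_mem_pointwise_smul _ _ _ (hS' hz)
    refine ⟨_, h2, ?_⟩
    simp [MulAut.smul_def, mul_assoc]
  -- the setting on the section
  have hV'el : IsElementaryAbelian p V' := by
    refine ⟨⟨⟨fun a b => Subtype.ext ?_⟩⟩, ?_⟩
    · obtain ⟨u, hu⟩ := a.2
      obtain ⟨w, hw⟩ := b.2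
      show (a : G') * b = b * a
      rw [← hu, ← hw, ← map_mul, ← map_mul, mul_comm]
    · rintro _ ⟨u, rfl⟩
      rw [← map_pow, hι1]
      rw [Subgroup.coe_pow, hsec.expo u u.2]
      exact one_mem _
  have hP'V' : P' ≤ Subgroup.normalizer (V' : Set G') := le_normalizer_of_conj fun y hy w hw => by
    obtain ⟨x, rfl⟩ := hy
    obtain ⟨u, rfl⟩ := hw
    exact ⟨_, (hιconj x u).symm⟩
  have hirr : ∀ W : Subgroup G', W ≤ V' → P' ≤ Subgroup.normalizer (W : Set G') → W = ⊥ ∨ W = V' := by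
    intro W hW hPW
    have hW' : U₁ ≤ (W.comap ι).map U.subtype := fun w hw =>
      ⟨⟨w, hsec.le hw⟩, show ι ⟨w, hsec.le hw⟩ ∈ W by rw [(hι1 _).2 hw]; exact one_mem _, rfl⟩
    rcases hsec.simple _ hW' (Subgroup.map_subtype_le _) (le_normalizer_of_conj fun x hx w hw => by
      obtain ⟨u, hu, rfl⟩ := hw
      refine ⟨act₀ ⟨x, hx⟩ u, ?_, rfl⟩
      show ι (act₀ ⟨x, hx⟩ u) ∈ W
      rw [← hιconj]
      exact (Subgroup.mem_normalizer_iff.1 (hPW ⟨_, rfl⟩) (ι u)).1 hu) with h | h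
    · refine Or.inl ((Subgroup.eq_bot_iff_forall W).2 fun w hw => ?_)
      obtain ⟨u, rfl⟩ := hW hw
      exact (hι1 u).2 (h.le ⟨u, hw, rfl⟩)
    · refine Or.inr (le_antisymm hW ?_)
      rintro _ ⟨u, rfl⟩
      obtain ⟨z, hz, hzu⟩ := h.ge u.2
      rwa [← U.subtype_injective hzu]
  have hfaith' : P' ⊓ Subgroup.centralizer (V' : Set G') = ⊥ := by
    rw [eq_bot_iff]
    rintro _ ⟨⟨x, rfl⟩, hx⟩
    rw [Subgroup.mem_bot, hker]
    intro u hu
    have h1 := (Subgroup.mem_centralizer_iff.1 hx (ι ⟨u, hu⟩) ⟨_, rfl⟩).symm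
    rw [← cm_eq_one_iff, hιcm, hι1] at h1
    exact h1
  have hT'p : IsPGroup p T' := (hTp.of_equiv (Subgroup.subgroupOfEquivOfLe hTP).symm).map π
  have hT'P : T' ≤ P' := Subgroup.map_le_range π _
  have hM'P : M' ≤ P' := Subgroup.map_le_range π _
  have hT'M : T' ≤ M' := Subgroup.map_mono fun x hx => hTM hx
  have hcard' : ∀ Y ≤ P', IsPGroup p Y → Nat.card Y ≤ Nat.card T' := by
    intro Y hY hYp
    obtain ⟨k, hk⟩ := IsPGroup.iff_card.1 hYp
    have hdvd : p ^ k ∣ Nat.card P := by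
      rw [← hk]
      exact (Subgroup.card_dvd_of_le hY).trans (Subgroup.card_range_dvd π)
    obtain ⟨X, hX⟩ := Sylow.exists_subgroup_card_pow_prime p hdvd
    have hT'card : Nat.card T' = Nat.card T := by
      rw [← Nat.card_congr (Subgroup.subgroupOfEquivOfLe hTP).toEquiv]
      refine (Nat.card_congr (Equiv.ofBijective (fun z : ↥(T.subgroupOf P) =>
        (⟨π z, Subgroup.mem_map_of_mem π z.2⟩ : T')) ⟨fun a b e => ?_, fun y => ?_⟩)).symm
      · have e' : π a = π b := congrArg Subtype.val e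
        have := hTker ((a : P) * (b : P)⁻¹) (T.mul_mem a.2 (T.inv_mem b.2))
          (by rw [map_mul, map_inv, e', mul_inv_cancel])
        exact Subtype.ext (mul_inv_eq_one.1 this)
      · obtain ⟨z, hz, hzy⟩ := y.2
        exact ⟨⟨z, hz⟩, Subtype.ext hzy⟩
    rw [hk, hT'card, ← hX, Nat.card_congr (X.equivMapOfInjective _ P.subtype_injective).toEquiv]
    exact hsyl _ (Subgroup.map_subtype_le _) ((IsPGroup.of_card hX).map _)
  have sylP' : ∀ Y ≤ P', IsPGroup p Y → ∃ g ∈ P', conjSub g Y ≤ T' := by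
    intro Y hY hYp
    obtain ⟨S₁, hS₁, hS₁p, hTS₁, hconj⟩ := exists_sylow_over hT'P hT'p
    exact Subgroup.eq_of_le_of_card_ge hTS₁ (hcard' S₁ hS₁ hS₁p) ▸ hconj Y hY hYp
  have sylM' : ∀ Y ≤ M', IsPGroup p Y → ∃ m ∈ M', conjSub m Y ≤ T' := by
    intro Y hY hYp
    obtain ⟨S₁, hS₁, hS₁p, hTS₁, hconj⟩ := exists_sylow_over hT'M hT'p
    exact Subgroup.eq_of_le_of_card_ge hTS₁ (hcard' S₁ (hS₁.trans hM'P) hS₁p) ▸ hconj Y hY hYp
  have hM'lt : ¬ P' ≤ M' := by
    intro hle
    refine hPM fun g hg => ?_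
    obtain ⟨m, hm, hmg⟩ := hle ⟨⟨g, hg⟩, rfl⟩
    have h1 : (⟨g, hg⟩ : P) * m⁻¹ ∈ π.ker := by
      rw [MonoidHom.mem_ker, map_mul, map_inv, hmg, mul_inv_cancel]
    have h2 := hKerM ⟨_, h1, rfl⟩
    have h3 := M.mul_mem h2 (show (m : G) ∈ M from hm)
    simpa using h3
  have hmax' : ∀ K ≤ P', T' ≤ K → ¬ K ≤ M' → K = P' := by
    intro K hK hTK hKM
    have he := hmax ((K.comap π).map P.subtype) (Subgroup.map_subtype_le _)
      (fun t ht => ⟨⟨t, hTP ht⟩, hTK (Subgroup.mem_map_of_mem π ht), rfl⟩)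
      fun hle => hKM fun y hy => by
        obtain ⟨x, rfl⟩ := hK hy
        exact Subgroup.mem_map_of_mem π (show (x : G) ∈ M from hle ⟨x, hy, rfl⟩)
    refine le_antisymm hK ?_
    rintro _ ⟨x, rfl⟩
    obtain ⟨z, hz, hzx⟩ := he.ge x.2
    rwa [← P.subtype_injective hzx]
  have hV'ne : V' ≠ ⊥ := by
    intro h0
    obtain ⟨x, hx, hxc, u, hu, hxu⟩ := hsec.moved
    have hall : ∀ w ∈ U, w ∈ U₁ := fun w hw => (hι1 ⟨w, hw⟩).1
      (Subgroup.mem_bot.1 (h0.le ⟨⟨w, hw⟩, rfl⟩))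
    exact hxu (cm_eq_one_iff.2 (hsec.coprime_fix x hx hxc u (hall u hu)))
  have hfixT' : ∀ X : Subgroup G', IsPGroup p X → X ≤ P' → fix V' X ≠ ⊥ := by
    intro X hX hXP h0
    obtain ⟨a, ha, ha1, hfix⟩ := exists_fixed (isPGroup_of_el hV'el) hV'ne hX (hXP.trans hP'V')
    have : a ∈ fix V' X := mem_inf_centralizer.2 ⟨ha, fun x hx => mul_inv_eq_iff_eq_mul.1 (hfix x hx)⟩
    rw [h0, Subgroup.mem_bot] at this
    exact ha1 this
  have hc : Ctx p P' V' M' T' :=
    { V_el := hV'el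
      P_norm := hP'V'
      faith := hfaith'
      T_le := hT'M
      M_le := hM'P
      M_lt := hM'lt
      T_p := hT'p
      sylP := sylP'
      sylM := sylM'
      NJ := fun X hX hX0 hTX => by
        by_contra hne
        have he := hmax' _ inf_le_left (le_inf hT'P hTX) hne
        have hXP := hX.trans hT'P
        rcases hirr (fix V' X) inf_le_left (le_normalizer_of_conj fun y hy w hw => by
          have h1 := fix_conjSub (A := X) (hP'V' hy)
          rw [mem_normalizer_iff_conjSub.1 ((inf_eq_left.1 he) hy)] at h1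
          rw [h1]
          exact conj_mem_conjSub hw) with h | h
        · exact hfixT' X (hT'p.to_le hX) hXP h
        · refine hX0 (le_bot_iff.1 ((le_inf hXP ?_).trans hfaith'.le))
          exact Subgroup.le_centralizer_iff.1 (h.ge.trans inf_le_right)
      moves := fun L hL hLM R _ _ _ _ Y hY hYp => by
        obtain ⟨m, hm, hle⟩ := sylM' Y hY hYp
        by_contra hcon
        push Not at hcon
        refine hLM fun x hx => ?_
        have hmP := hM'P hm
        have hCT : P' ⊓ Subgroup.centralizer ((fix V' T' : Subgroup G') : Set G') ≤ M' := by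
          by_contra hne
          have he := hmax' _ inf_le_left (le_inf hT'P (Subgroup.le_centralizer_iff.1 inf_le_right)) hne
          have hfix : fix V' T' ≤ Subgroup.centralizer (P' : Set G') :=
            Subgroup.le_centralizer_iff.1 (inf_eq_left.1 he)
          rcases hirr (fix V' T') inf_le_left (le_normalizer_of_conj fun y hy w hw => by
            rw [Subgroup.mem_centralizer_iff.1 (hfix hw) y hy, mul_inv_cancel_right]
            exact hw) with h | h
          · exact hfixT' T' hT'p hT'P h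
          · refine hM'lt (le_trans (le_trans (le_inf le_rfl ?_) hfaith'.le) bot_le)
            exact Subgroup.le_centralizer_iff.1 (h.ge.trans hfix)
        have h1 : m * x * m⁻¹ ∈ M' := by
          refine hCT ⟨P'.mul_mem (P'.mul_mem hmP (hL hx)) (P'.inv_mem hmP),
            Subgroup.mem_centralizer_iff.2 fun z hz => ?_⟩
          have hzV : m⁻¹ * z * m ∈ V' := (Subgroup.mem_normalizer_iff''.1 (hP'V' hmP) z).1 hz.1
          have h2 := hcon (m⁻¹ * z * m) hzV (fun y hy => ?_) x hx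
          · exact conj_commute_aux h2
          · exact conj_commute_aux' ((mem_inf_centralizer.1 hz).2 _ (hle (conj_mem_conjSub hy)))
        exact mem_of_conj_mem_aux hm h1 }
  -- a minimal offender on `U` in `T`
  obtain ⟨A, hAP, hAne, hbest, hAcomm, hApow⟩ := hoff
  have hone' : ∀ y ∈ A, y ∈ Subgroup.centralizer (V : Set G) → y = 1 := fun y hy hy' => by
    have : y ∈ P ⊓ Subgroup.centralizer (V : Set G) := ⟨hAP hy, hy'⟩
    rwa [hfaith, Subgroup.mem_bot] at this
  have hAel : IsElementaryAbelian p A := by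
    refine ⟨⟨⟨fun a b => Subtype.ext ?_⟩⟩, fun a ha => hone' _ (A.pow_mem ha p) (hApow a ha)⟩
    have h1 : (a : G) * b * (a : G)⁻¹ * (b : G)⁻¹ = 1 := hone' _
      (A.mul_mem (A.mul_mem (A.mul_mem a.2 b.2) (A.inv_mem a.2)) (A.inv_mem b.2))
      (hAcomm (Subgroup.commutator_mem_commutator a.2 b.2))
    rw [mul_inv_eq_one, mul_inv_eq_iff_eq_mul] at h1
    exact h1
  have hA0 : A ≠ ⊥ := fun h => hAne (h ▸ bot_le)
  have hAU : Nat.card U ≤ Nat.card A * Nat.card ↥(fix U A) := by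
    have h1 := hbest ⊥ bot_le
    have hle : V ≤ fix V (⊥ : Subgroup G) := fun v hv => mem_inf_centralizer.2 ⟨hv, fun a ha => by
      rw [Subgroup.mem_bot] at ha
      rw [ha, one_mul, mul_one]⟩
    rw [Subgroup.card_bot, one_mul] at h1
    have hVA := (Subgroup.card_le_of_le hle).trans h1
    have h2 := card_sup_mul_inf (normalizes_of_comm (V := V) (A := fix V A) (B := U) inf_le_left hUV)
    have h3 : fix V A ⊓ U ≤ fix U A := fun v hv => ⟨hv.2, hv.1.2⟩
    refine Nat.le_of_mul_le_mul_left ?_ (Nat.card_pos (α := ↥(fix V A)))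
    calc Nat.card ↥(fix V A) * Nat.card U
        = Nat.card ↥(fix V A ⊔ U) * Nat.card ↥(fix V A ⊓ U) := h2.symm
      _ ≤ Nat.card V * Nat.card ↥(fix U A) :=
          Nat.mul_le_mul (Subgroup.card_le_of_le (sup_le inf_le_left hUV)) (Subgroup.card_le_of_le h3)
      _ ≤ Nat.card A * Nat.card ↥(fix V A) * Nat.card ↥(fix U A) := Nat.mul_le_mul_right _ hVA
      _ = _ := by ring
  obtain ⟨g₀, hg₀, hg₀A⟩ := hconjT A hAP (isPGroup_of_el hAel)
  obtain ⟨K, hKA, hK⟩ := (Set.toFinite {X : Subgroup G | X ≤ conjSub g₀ A ∧ X ≠ ⊥ ∧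
    Nat.card U ≤ Nat.card X * Nat.card ↥(fix U X)}).exists_le_minimal (a := conjSub g₀ A)
    ⟨le_rfl, fun h => hA0 ((Subgroup.map_eq_bot_iff_of_injective (f := (MulAut.conj g₀).toMonoidHom) _
      (MulAut.conj g₀).injective).1 h), by
      rw [fix_conjSub (hsec.norm hg₀), card_conjSub, card_conjSub]
      exact hAU⟩
  have hKT : K ≤ T := hKA.trans hg₀A
  have hKP : K ≤ P := hKT.trans hTP
  have hKmin : IsMinOffender p U K :=
    ⟨⟨inferInstance, hsec.expo⟩, hKP.trans hsec.norm, el_mono (isElementaryAbelian_conjSub hAel) hKA,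
      hK.1.2.2, fun X hX hX0 hXK => lt_of_lt_of_le (not_le.1 fun hle =>
        hXK (hK.eq_of_le ⟨hX.trans hKA, hX0, hle⟩ hX)) hK.1.2.2⟩
  set K' := (K.subgroupOf P).map π with hK'
  have hK'T : K' ≤ T' := Subgroup.map_mono fun x hx => hKT hx
  have hKcard : Nat.card K' = Nat.card K := by
    rw [← Nat.card_congr (Subgroup.subgroupOfEquivOfLe hKP).toEquiv]
    refine (Nat.card_congr (Equiv.ofBijective (fun z : ↥(K.subgroupOf P) =>
      (⟨π z, Subgroup.mem_map_of_mem π z.2⟩ : K')) ⟨fun a b e => ?_, fun y => ?_⟩)).symm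
    · have e' : π a = π b := congrArg Subtype.val e
      have := hTker ((a : P) * (b : P)⁻¹) (T.mul_mem (hKT a.2) (T.inv_mem (hKT b.2)))
        (by rw [map_mul, map_inv, e', mul_inv_cancel])
      exact Subtype.ext (mul_inv_eq_one.1 this)
    · obtain ⟨z, hz, hzy⟩ := y.2
      exact ⟨⟨z, hz⟩, Subtype.ext hzy⟩
  have hK'el : IsElementaryAbelian p K' := by
    refine ⟨⟨⟨fun a b => Subtype.ext ?_⟩⟩, ?_⟩
    · obtain ⟨x, hx, hxa⟩ := a.2
      obtain ⟨y, hy, hyb⟩ := b.2
      show (a : G') * b = b * a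
      rw [← hxa, ← hyb, ← map_mul, ← map_mul]
      exact congrArg π (Subtype.ext (hKmin.A_comm hx hy))
    · rintro _ ⟨x, hx, rfl⟩
      rw [← map_pow, show x ^ p = 1 from Subtype.ext (hKmin.A_el.2 x hx), map_one]
  have hK'0 : K' ≠ ⊥ := fun h0 => by
    rw [h0, Subgroup.card_bot] at hKcard
    exact hK.1.2.1 (Subgroup.eq_bot_of_card_eq _ hKcard.symm)
  -- comparing the fixed points
  have hn := hc.no_over (hK'T.trans hT'P) hK'el hK'0
  let ρ : ↥(fix U K) →* ↥(fix V' K') := MonoidHom.mk' (fun u => ⟨ι ⟨u, u.2.1⟩, mem_fix_cm.2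
    ⟨⟨_, rfl⟩, by
      rintro _ ⟨x, hx, rfl⟩
      rw [hιcm, hι1]
      show cm (x : G) u ∈ U₁
      rw [(mem_fix_cm.1 u.2).2 x hx]
      exact one_mem _⟩⟩) fun u w => Subtype.ext (map_mul ι ⟨u, u.2.1⟩ ⟨w, w.2.1⟩)
  have hρker : Nat.card ρ.ker ≤ Nat.card ↥(fix U₁ K) :=
    Nat.card_le_card_of_injective (fun u => (⟨(u : ↥(fix U K)),
      (hι1 _).1 (congrArg Subtype.val u.2), (u : ↥(fix U K)).2.2⟩ : ↥(fix U₁ K)))
      fun a b e => Subtype.ext (Subtype.ext (congrArg Subtype.val e :))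
  have hUcard : Nat.card U = Nat.card U₁ * Nat.card V' := by
    have h1 := ι.ker.card_mul_index
    rw [Subgroup.index_ker] at h1
    have h2 : ι.ker = U₁.subgroupOf U := Subgroup.ext fun u => hι1 u
    rw [h2, Nat.card_congr (Subgroup.subgroupOfEquivOfLe hsec.le).toEquiv] at h1
    exact h1.symm
  have hchain : Nat.card U₁ * Nat.card V' ≤
      Nat.card K * Nat.card ↥(fix U₁ K) * Nat.card ↥(fix V' K') := by
    rw [← hUcard]
    refine hK.1.2.2.trans ?_
    have h1 := ρ.ker.card_mul_index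
    rw [Subgroup.index_ker] at h1
    rw [← h1, mul_assoc]
    exact Nat.mul_le_mul_left _ (Nat.mul_le_mul hρker (Subgroup.card_le_card_group _))
  rw [hKcard] at hn
  have hU₁K : U₁ ≤ fix U₁ K := by
    refine (Subgroup.eq_of_le_of_card_ge inf_le_left (Nat.le_of_mul_le_mul_right (hchain.trans ?_)
      (Nat.card_pos (α := ↥V')))).ge
    calc Nat.card K * Nat.card ↥(fix U₁ K) * Nat.card ↥(fix V' K')
        = Nat.card ↥(fix U₁ K) * (Nat.card K * Nat.card ↥(fix V' K')) := by ring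
      _ ≤ _ := Nat.mul_le_mul_left _ hn
  have hK'b : Nat.card V' ≤ Nat.card K' * Nat.card ↥(fix V' K') := by
    rw [hKcard]
    refine Nat.le_of_mul_le_mul_left (hchain.trans ?_) (Nat.card_pos (α := ↥U₁))
    calc Nat.card K * Nat.card ↥(fix U₁ K) * Nat.card ↥(fix V' K')
        = Nat.card ↥(fix U₁ K) * (Nat.card K * Nat.card ↥(fix V' K')) := by ring
      _ ≤ _ := Nat.mul_le_mul_right _ (Subgroup.card_le_of_le inf_le_left)
  obtain ⟨A', hA'K, hA'⟩ := hc.exists_minOff_le (hK'T.trans hT'P) hK'el hK'0 hK'b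
  have hA'T : A' ≤ T' := hA'K.trans hK'T
  obtain ⟨hQ, hcr, hL⟩ := hc.member_setup hA' hA'T
  set L := LT p P' V' T' A' with hLdef
  -- the part of `P` fixing `U₁`
  set C₁ := P ⊓ Subgroup.centralizer (U₁ : Set G) with hC₁
  set C' := (C₁.subgroupOf P).map π with hC'
  have hPC' : ∀ y ∈ P', conjSub y C' = C' := fun y hy => conjSub_eq_self fun z hz => by
    obtain ⟨x, rfl⟩ := hy
    obtain ⟨c, hc₀, rfl⟩ := hz
    refine ⟨x * c * x⁻¹, ⟨(x * c * x⁻¹).2, Subgroup.mem_centralizer_iff.2 fun w hw => ?_⟩, by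
      rw [map_mul, map_mul, map_inv]⟩
    have hw' := (Subgroup.mem_normalizer_iff''.1 (hsec.norm₁ x.2) w).1 hw
    have h2 : ((x : G)⁻¹ * w * x) * (c : G) = (c : G) * ((x : G)⁻¹ * w * x) :=
      Subgroup.mem_centralizer_iff.1 hc₀.2 _ hw'
    show w * ((x : G) * c * (x : G)⁻¹) = (x : G) * c * (x : G)⁻¹ * w
    calc w * ((x : G) * c * (x : G)⁻¹) = (x : G) * (((x : G)⁻¹ * w * x) * c) * (x : G)⁻¹ := by group
      _ = (x : G) * (c * ((x : G)⁻¹ * w * x)) * (x : G)⁻¹ := by rw [h2]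
      _ = _ := by group
  have hA'C : A' ≤ C' := hA'K.trans (Subgroup.map_mono fun x hx =>
    ⟨x.2, Subgroup.mem_centralizer_iff.2 fun w hw => ((mem_inf_centralizer.1 (hU₁K hw)).2 x hx).symm⟩)
  have hmemC : ∀ B, OffMin p P' V' B → B ≤ T' → B ≤ C' ∧ LT p P' V' T' B ≤ C' := by
    intro B hB hBT
    obtain ⟨t, ht, rfl⟩ := hc.member_transitive hA' hA'T hB hBT
    have hBC : conjSub t A' ≤ C' := (conjSub_mono hA'C).trans (hPC' t (hT'P ht)).le
    obtain ⟨-, -, hLB⟩ := hc.member_setup hB hBT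
    obtain ⟨g, hg, hgM⟩ := hLB.exists_g
    refine ⟨hBC, (hLB.gen hg hgM).ge.trans (sup_le hBC ((conjSub_mono hBC).trans (hPC' g (hLB.le hg)).le))⟩
  -- lifting `C_{V'}(A')`
  have hlift : ∀ a : P, (a : G) ∈ K → π a ∈ A' → ∀ w : U, ι w ∈ fix V' A' → cm (a : G) w = 1 := by
    intro a haK haA
    have hafix : ∀ w ∈ U₁, cm (a : G) w = 1 := fun w hw => (mem_fix_cm.1 (hU₁K hw)).2 a haK
    let Good : Subgroup G' :=
      { carrier := {v | ∃ w : U, ι w = v ∧ cm (a : G) w = 1}
        one_mem' := ⟨1, map_one _, by simp [cm]⟩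
        mul_mem' := by
          rintro _ _ ⟨u, rfl, hu⟩ ⟨w, rfl, hw⟩
          refine ⟨u * w, map_mul _ _ _, ?_⟩
          rw [Subgroup.coe_mul, cm_mul_right (V := U) u.2 w.2 (hcmU a w), hu, hw, one_mul]
        inv_mem' := by
          rintro _ ⟨u, rfl, hu⟩
          refine ⟨u⁻¹, map_inv _ _, ?_⟩
          rw [Subgroup.coe_inv, cm_inv_right (V := U) u.2 (hcmU a u⁻¹), hu, inv_one] }
    have hGood : ∀ w : U, ι w ∈ Good → cm (a : G) w = 1 := by
      rintro w ⟨u, hu, hau⟩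
      have h1 : ((u⁻¹ * w : U) : G) ∈ U₁ := (hι1 _).1 (by rw [map_mul, map_inv, hu, inv_mul_cancel])
      rw [show (w : G) = u * ((u⁻¹ * w : U) : G) by simp,
        cm_mul_right (V := U) u.2 (u⁻¹ * w).2 (hcmU a _), hau, hafix _ h1, one_mul]
    have hV'A : ⁅V', A'⁆ ≤ Good := commutator_le_of_cm fun b hb v hv => by
      obtain ⟨b', hb', rfl⟩ := hA'K hb
      obtain ⟨u, rfl⟩ := hv
      refine ⟨⟨cm (b' : G) u, hcmU b' u⟩, (hιcm b' u).symm, ?_⟩
      exact cm_eq_one_iff.2 (hKmin.quadratic hb' haK u.2)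
    have hV'L : ∀ B, OffMin p P' V' B → B ≤ T' → B ≠ A' → ⁅V', LT p P' V' T' B⁆ ≤ Good := by
      intro B hB hBT hne
      obtain ⟨-, -, hLB⟩ := hc.member_setup hB hBT
      obtain ⟨hcen, -, hLW⟩ := hc.comm_LT_member hB hBT hA' hA'T hne.symm
      haveI := hc.comm
      refine commutator_le_of_cm fun k hk v hv => ?_
      obtain ⟨s, hs, c, hcfix, rfl⟩ := exists_mul_of_mem_sup hLB.comm_le inf_le_left (hLB.comm_sup.ge hv)
      rw [cm_mul_right (V := V') (hLB.comm_le hs) hcfix.1 (hc.cm_memV (hLB.le hk) hcfix.1),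
        (mem_fix_cm.1 hcfix).2 k hk, mul_one]
      obtain ⟨w, rfl⟩ := hLB.comm_le hs
      obtain ⟨k', hk', rfl⟩ := (hmemC B hB hBT).2 hk
      refine ⟨⟨cm (k' : G) w, hcmU k' w⟩, (hιcm k' w).symm, ?_⟩
      have hawU : cm (a : G) w ∈ U₁ := by
        have h1 := (mem_fix_cm.1 (hLW hs)).2 _ haA
        rw [hιcm, hι1] at h1
        exact h1
      set n : P := a⁻¹ * k'⁻¹ * a * k' with hn'
      have hnker : π n = 1 := by
        have hcomm := hcen _ hk _ haA
        rw [hn', map_mul, map_mul, map_mul, map_inv, map_inv, mul_assoc, ← hcomm, ← mul_assoc,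
          inv_mul_cancel_right, inv_mul_cancel]
      have hfix₁ : ∀ z ∈ U₁, (n : G) * z = z * n := by
        intro z hz
        have hk₁ : Commute (k' : G) z := (Subgroup.mem_centralizer_iff.1 hk'.2 z hz).symm
        have ha₁ : Commute (a : G) z := (mem_inf_centralizer.1 (hU₁K hz)).2 a haK
        exact (((ha₁.inv_left.mul_left hk₁.inv_left).mul_left ha₁).mul_left hk₁).eq
      have hnfix : ∀ u ∈ U, cm (n : G) u = 1 := by
        intro u hu
        -- the `p`-part of `n` is trivial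
        obtain ⟨j, m, hm, hj⟩ := Nat.exists_eq_pow_mul_and_not_dvd (orderOf_pos (n : G)).ne' p hp.1.ne_one
        have hcp : (orderOf ((n : G) ^ p ^ j)).Coprime p := by
          rw [orderOf_pow_of_dvd (pow_ne_zero _ hp.1.ne_zero) (hj ▸ dvd_mul_right _ _), hj,
            Nat.mul_div_cancel_left _ (pow_pos hp.1.pos _)]
          exact (hp.1.coprime_iff_not_dvd.2 hm).symm
        have hpm : IsPGroup p ↥(Subgroup.zpowers (n ^ m)) := by
          obtain ⟨i, -, hi⟩ := (Nat.dvd_prime_pow hp.1).1 (show orderOf (n ^ m) ∣ p ^ j from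
            orderOf_dvd_of_pow_eq_one (by
              rw [← pow_mul, mul_comm, ← hj, Subgroup.orderOf_coe, pow_orderOf_eq_one]))
          exact IsPGroup.of_card (n := i) (by rw [Nat.card_zpowers, hi])
        obtain ⟨y, hy, hle⟩ := hconjT ((Subgroup.zpowers (n ^ m)).map P.subtype)
          (Subgroup.map_subtype_le _) (hpm.map _)
        have hm1 : n ^ m = 1 := by
          have h2 : π (⟨y, hy⟩ * n ^ m * ⟨y, hy⟩⁻¹) = 1 := by
            rw [map_mul, map_mul, map_inv, map_pow, hnker, one_pow, mul_one, mul_inv_cancel]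
          have h3 := hTker _ (hle (conj_mem_conjSub (x := y) (show ((n ^ m : P) : G) ∈ (Subgroup.zpowers (n ^ m)).map P.subtype from
              ⟨_, Subgroup.mem_zpowers _, rfl⟩))) h2
          rwa [mul_inv_eq_one, mul_eq_left] at h3
        have hn_cop : (orderOf (n : G)).Coprime p := by
          have hd : orderOf (n : G) ∣ m := orderOf_dvd_of_pow_eq_one (by
            rw [← Subgroup.coe_pow, hm1, Subgroup.coe_one])
          exact Nat.Coprime.coprime_dvd_left hd (hp.1.coprime_iff_not_dvd.2 hm).symm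
        exact fix_of_coprime hsec.expo hsec.le hn_cop hfix₁ ((hker n).1 hnker) hu
      have hkw : (k' : G) * w * (k' : G)⁻¹ ∈ U := (act₀ k' w).2
      have hconj : cm (a : G) ((k' : G) * w * (k' : G)⁻¹) = cm (a : G) w := by
        have e1 : cm ((k' : G)⁻¹ * a * k') w = cm (a : G) w := by
          have en : cm (n : G) w = 1 := hnfix w w.2
          rw [show (k' : G)⁻¹ * a * k' = a * (n : G) by simp [hn', mul_assoc],
            cm_mul_left (by rw [en, mul_one, one_mul]), en, one_mul]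
        calc cm (a : G) ((k' : G) * w * (k' : G)⁻¹)
            = (k' : G) * cm ((k' : G)⁻¹ * a * k') w * (k' : G)⁻¹ := by simp only [cm]; group
          _ = (k' : G) * cm (a : G) w * (k' : G)⁻¹ := by rw [e1]
          _ = cm (a : G) w := by
            have hk₁ : cm (a : G) w * (k' : G) = (k' : G) * cm (a : G) w :=
              Subgroup.mem_centralizer_iff.1 hk'.2 _ hawU
            rw [← hk₁, mul_inv_cancel_right]
      show cm (a : G) (cm (k' : G) w) = 1
      rw [show cm (k' : G) w = (k' : G) * w * (k' : G)⁻¹ * (w : G)⁻¹ from rfl,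
        cm_mul_right (V := U) hkw (U.inv_mem w.2) (hcmU a w⁻¹),
        cm_inv_right (V := U) w.2 (hcmU a w⁻¹), hconj, mul_inv_cancel]
    intro w hw
    apply hGood
    haveI := hc.comm
    set Y := sSup {X | ∃ B, OffMin p P' V' B ∧ B ≤ T' ∧ B ≠ A' ∧ X = ⁅V', LT p P' V' T' B⁆}
    have hY : Y ≤ fix V' A' ⊓ Good := sSup_le (by
      rintro _ ⟨B, hB, hBT, hne, rfl⟩
      exact le_inf (hc.comm_LT_member hB hBT hA' hA'T hne.symm).2.2 (hV'L B hB hBT hne))
    set X := ⁅V', L⁆ ⊔ Y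
    have hXV : X ≤ V' := sup_le hL.comm_le (hY.trans (inf_le_left.trans inf_le_left))
    have hXall : ∀ B, OffMin p P' V' B → B ≤ T' → ⁅V', LT p P' V' T' B⁆ ≤ X := by
      intro B hB hBT
      by_cases hne : B = A'
      · exact hne ▸ le_sup_left
      · exact le_trans (le_sSup (show ⁅V', LT p P' V' T' B⁆ ∈ {X | ∃ B, OffMin p P' V' B ∧ B ≤ T' ∧ B ≠ A' ∧
          X = ⁅V', LT p P' V' T' B⁆} from ⟨B, hB, hBT, hne, rfl⟩)) le_sup_right
    have hXN : P' ≤ Subgroup.normalizer (X : Set G') := by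
      have hTX : T' ≤ Subgroup.normalizer (X : Set G') := fun t ht => by
        have hmapped : ∀ B, OffMin p P' V' B → B ≤ T' → conjSub t ⁅V', LT p P' V' T' B⁆ ≤ X := by
          intro B hB hBT
          show (⁅V', LT p P' V' T' B⁆).map (MulAut.conj t).toMonoidHom ≤ X
          rw [Subgroup.map_commutator, ← conjSub, ← conjSub,
            mem_normalizer_iff_conjSub.1 (hP'V' (hT'P ht)), hc.LT_conj hB hBT ht]
          exact hXall _ (hc.family.conj t (hT'P ht) B hB) (conjSub_le_of_mem ht hBT)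
        refine mem_normalizer_iff_conjSub.2 (Subgroup.eq_of_le_of_card_ge ?_ (card_conjSub t X).ge)
        rw [conjSub_le_iff]
        refine sup_le ?_ (sSup_le ?_)
        · rw [← conjSub_le_iff]; exact hmapped A' hA' hA'T
        · rintro _ ⟨B, hB, hBT, -, rfl⟩
          rw [← conjSub_le_iff]
          exact hmapped B hB hBT
      have hLX : L ≤ Subgroup.normalizer (X : Set G') := le_normalizer_of_conj fun k hk u hu =>
        conj_mem_of_cm hu (le_sup_left (b := Y) (cm_mem_commutator hk (hXV hu)))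
      have he := hmax' (P' ⊓ Subgroup.normalizer (X : Set G')) inf_le_left (le_inf hT'P hTX)
        fun hle => hL.nle ((le_inf hL.le hLX).trans hle)
      exact inf_eq_left.1 he
    have hXeq : X = V' := (hirr X hXV hXN).resolve_left fun h0 => by
      obtain ⟨b, hb, hb1⟩ := A'.bot_or_exists_ne_one.resolve_left hL.min.A_ne
      obtain ⟨v, hv, hvW⟩ := hL.exists_notMem_W
      have := (le_sup_left : ⁅V', L⁆ ≤ X).trans h0.le (cm_mem_commutator (hL.A_le hb) hv)
      exact hvW (hL.inj hb hb1 hv (by rw [Subgroup.mem_bot.1 this]; exact one_mem _))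
    obtain ⟨x, hx, y, hy, hxy⟩ :=
      exists_mul_of_mem_sup hL.comm_le (hY.trans (inf_le_left.trans inf_le_left)) (hXeq.ge ⟨w, rfl⟩)
    rw [hxy]
    refine mul_mem (hV'A (hL.comm_inter hc hA' ⟨hx, ?_⟩)) (hY hy).2
    have h1 := mul_mem hw (inv_mem (hY hy).1)
    rwa [hxy, mul_inv_cancel_right] at h1
  -- a fixed point of the stabiliser
  set N := T' ⊓ Subgroup.normalizer (A' : Set G') with hNdef
  obtain ⟨a', ha', ha'1, ha'fix⟩ :=
    exists_fixed (isPGroup_of_el hA'.2.1) hA'.2.2.1 (hT'p.to_le inf_le_left) (inf_le_right : N ≤ _)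
  obtain ⟨a, haK, rfl⟩ := hA'K ha'
  haveI := hc.comm
  obtain ⟨v', hv', hv'W, hv'fix⟩ := exists_fixed_mod (V := V') (W := fix V' A')
    (isPGroup_of_el hc.V_el) inf_le_left
    (fun hle => by
      obtain ⟨u, hu, huW⟩ := hL.exists_notMem_W
      exact huW (hle hu))
    (hT'p.to_le (inf_le_left : N ≤ T')) ((inf_le_left.trans hT'P).trans hP'V')
    fun y hy => by
      rw [mem_normalizer_iff_conjSub, ← fix_conjSub (hP'V' (hT'P hy.1)),
        mem_normalizer_iff_conjSub.1 hy.2]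
  obtain ⟨v, rfl⟩ := hv'
  set r : U := ⟨cm (a : G) v, hcmU a v⟩ with hr
  have hrfix : ∀ s : P, (s : G) ∈ T → π s ∈ Subgroup.normalizer (A' : Set G') → act₀ s r = r := by
    intro s hs hsN
    have hsT' : π s ∈ N := ⟨Subgroup.mem_map_of_mem π (show s ∈ T.subgroupOf P from hs), hsN⟩
    have hsa : (s : G) * a * (s : G)⁻¹ = a := by
      have h1 : π (s * a * s⁻¹ * a⁻¹) = 1 := by
        rw [map_mul, map_mul, map_mul, map_inv, map_inv, ha'fix _ hsT', mul_inv_cancel]
      have h2 := hTker (s * a * s⁻¹ * a⁻¹)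
        (T.mul_mem (T.mul_mem (T.mul_mem hs (hKT haK)) (T.inv_mem hs)) (T.inv_mem (hKT haK))) h1
      exact mul_inv_eq_one.1 (congrArg Subtype.val h2)
    refine Subtype.ext ?_
    show (s : G) * cm (a : G) v * (s : G)⁻¹ = cm (a : G) v
    rw [← cm_conj, hsa, ← cm_self (x := (s : G)) (v := (v : G)),
      cm_mul_right (V := U) (hcmU s v) v.2 (hcmU a v)]
    have h3 := hlift a haK ha' ⟨_, hcmU s v⟩ (by rw [← hιcm]; exact hv'fix _ hsT')
    rw [h3, one_mul]
  have hrout : ι r ∉ fix V' L := fun h0 =>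
    hv'W (hL.inj ha' ha'1 ⟨v, rfl⟩ (by rw [hιcm]; exact h0))
  have hrA : ι r ∈ ⁅V', A'⁆ := by
    rw [hr, ← hιcm]
    exact cm_mem_commutator ha' ⟨v, rfl⟩
  haveI := Fintype.ofFinite (Idx p P' V' T')
  have hti : ∀ i : Idx p P' V' T', ∃ t : P, (t : G) ∈ T ∧ conjSub (π t) A' = i.1 := fun i => by
    obtain ⟨t, ht, he⟩ := hc.member_transitive hA' hA'T i.2.1 i.2.2
    obtain ⟨t₀, ht₀, rfl⟩ := ht
    exact ⟨t₀, ht₀, he⟩
  choose t htT htA using hti
  let R : Idx p P' V' T' → U := fun i => act₀ (t i) r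
  have hRind : ∀ (i : Idx p P' V' T') (s : P), (s : G) ∈ T → conjSub (π s) A' = i.1 →
      act₀ s r = R i := by
    intro i s hs he
    have h1 := hrfix ((t i)⁻¹ * s) (T.mul_mem (T.inv_mem (htT i)) hs) (by
      rw [mem_normalizer_iff_conjSub, map_mul, map_inv, ← conjSub_conjSub, he, ← htA i, conjSub_conjSub,
        inv_mul_cancel, conjSub_one])
    calc act₀ s r = act₀ (t i) (act₀ ((t i)⁻¹ * s) r) := Subtype.ext (by simp [act₀, mul_assoc])
      _ = R i := by rw [h1]
  set z : U := ∏ i, R i with hz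
  have hzT : ∀ s : P, (s : G) ∈ T → act₀ s z = z := by
    intro s hs
    have hsT : π s ∈ T' := Subgroup.mem_map_of_mem π (show s ∈ T.subgroupOf P from hs)
    let σ : Idx p P' V' T' → Idx p P' V' T' := fun i =>
      ⟨conjSub (π s) i.1, hc.family.conj _ (hT'P hsT) i.1 i.2.1, conjSub_le_of_mem hsT i.2.2⟩
    have hσ : Function.Bijective σ := by
      refine Finite.injective_iff_bijective.1 fun i j e => Subtype.ext ?_
      exact Subgroup.map_injective (f := (MulAut.conj (π s)).toMonoidHom) (MulAut.conj (π s)).injective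
        (congrArg Subtype.val e)
    rw [hz, map_prod]
    refine Fintype.prod_bijective σ hσ _ _ fun i => ?_
    rw [← hRind (σ i) (s * t i) (T.mul_mem hs (htT i))
      (by rw [map_mul, ← conjSub_conjSub, htA i])]
    exact Subtype.ext (by simp [R, act₀, mul_assoc])
  have hzP : ∀ x ∈ P, x * (z : G) = (z : G) * x := by
    intro x hx
    have hzfix : (z : G) ∈ fix V T := mem_inf_centralizer.2 ⟨hUV z.2, fun s hs => by
      have h1 := congrArg Subtype.val (hzT ⟨s, hTP hs⟩ hs)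
      exact mul_inv_eq_iff_eq_mul.1 h1⟩
    exact Subgroup.mem_centralizer_iff.1
      ((Subgroup.commutator_eq_bot_iff_le_centralizer.1 hZ) hzfix) x hx
  have hzL : ι z ∈ fix V' L := mem_fix_cm.2 ⟨⟨z, rfl⟩, fun y hy => by
    obtain ⟨x, rfl⟩ := hL.le hy
    rw [hιcm, hι1]
    show cm (x : G) z ∈ U₁
    rw [cm_eq_one_iff.2 (hzP x x.2)]
    exact one_mem _⟩
  set i₀ : Idx p P' V' T' := ⟨A', hA', hA'T⟩
  have hrest : ι (∏ i ∈ Finset.univ.erase i₀, R i) ∈ fix V' L := by
    have hmem : (∏ i ∈ Finset.univ.erase i₀, R i) ∈ (fix V' L).comap ι := by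
      refine Subgroup.prod_mem _ fun i hi => ?_
      show ι (R i) ∈ fix V' L
      have hne : i.1 ≠ A' := fun e => Finset.ne_of_mem_erase hi (Subtype.ext e)
      refine (hc.comm_LT_member hA' hA'T i.2.1 i.2.2 hne).2.1 ?_
      show ι (act₀ (t i) r) ∈ ⁅V', i.1⁆
      rw [← hιconj, ← htA i]
      have h1 := conj_mem_conjSub (x := π (t i)) hrA
      have h2 : conjSub (π (t i)) ⁅V', A'⁆ = ⁅V', conjSub (π (t i)) A'⁆ := by
        show (⁅V', A'⁆).map (MulAut.conj (π (t i))).toMonoidHom = _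
        rw [Subgroup.map_commutator, ← conjSub, ← conjSub,
          mem_normalizer_iff_conjSub.1 (hP'V' ⟨_, rfl⟩)]
      exact h2.le h1
    exact hmem
  have hR₀ : R i₀ = r :=
    (hRind i₀ 1 T.one_mem (by rw [map_one, conjSub_one])).symm.trans (Subtype.ext (by simp [act₀]))
  apply hrout
  have hsplit : z = r * ∏ i ∈ Finset.univ.erase i₀, R i := by
    rw [hz, ← hR₀, Finset.mul_prod_erase _ _ (Finset.mem_univ i₀)]
  rw [hsplit, map_mul] at hzL
  have h1 := mul_mem hzL (inv_mem hrest)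
  rwa [mul_inv_cancel_right] at h1

end CfsgLib.MinParFF
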