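import Cfsg.Agent.MinParFF.Crossing

/-!
All minimal offenders in a Sylow `p`-subgroup `T` are crossing members, they are conjugate under `T`.
-/

set_option autoImplicit false
set_option linter.style.haveILetI false
set_option linter.unusedSectionVars false

open Cfsg
open scoped commutatorElement

namespace CfsgLib.MinParFF

variable {G : Type*} [Group G] [Finite G] {p : ℕ} [hp : Fact p.Prime] {P V M T : Subgroup G}

/-- A `p`-group acting on a nontrivial `p`-group fixes a nontrivial element. -/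
theorem exists_fixed {A X : Subgroup G} (hA : IsPGroup p A) (hA0 : A ≠ ⊥) (hX : IsPGroup p X)
    (hN : X ≤ Subgroup.normalizer (A : Set G)) : ∃ a ∈ A, a ≠ 1 ∧ ∀ x ∈ X, x * a * x⁻¹ = a := by
  letI : MulAction X A :=
    { smul := fun x a => ⟨x * a * (x : G)⁻¹, (Subgroup.mem_normalizer_iff.1 (hN x.2) a).1 a.2⟩
      one_smul := fun a => Subtype.ext (by show (1 : G) * a * (1 : G)⁻¹ = a; group)
      mul_smul := fun x y a => Subtype.ext (by
        show ((x : G) * y) * a * ((x : G) * y)⁻¹ = (x : G) * ((y : G) * a * (y : G)⁻¹) * (x : G)⁻¹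
        group) }
  have h1 : (1 : A) ∈ MulAction.fixedPoints X A := fun x => Subtype.ext (by
    show (x : G) * 1 * (x : G)⁻¹ = 1
    group)
  have hd : p ∣ Nat.card A := by
    obtain ⟨n, hn⟩ := IsPGroup.iff_card.1 hA
    rcases n with _ | n
    · exact absurd (Subgroup.eq_bot_of_card_eq _ (by simpa using hn)) hA0
    · exact hn ▸ dvd_pow_self p n.succ_ne_zero
  obtain ⟨b, hb, hb1⟩ := hX.exists_fixed_point_of_prime_dvd_card_of_fixed_point A hd h1
  exact ⟨b, b.2, fun h => hb1 (Subtype.ext h.symm), fun x hx => congrArg Subtype.val (hb ⟨x, hx⟩)⟩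

/-- A `p`-group acting on `V / W` fixes a nontrivial element. -/
theorem exists_fixed_mod {W X : Subgroup G} [IsMulCommutative V] (hV : IsPGroup p V) (hWV : W ≤ V)
    (hne : ¬ V ≤ W) (hX : IsPGroup p X) (hXV : X ≤ Subgroup.normalizer (V : Set G))
    (hXW : X ≤ Subgroup.normalizer (W : Set G)) : ∃ v ∈ V, v ∉ W ∧ ∀ x ∈ X, cm x v ∈ W := by
  haveI : (W.subgroupOf V).Normal := Subgroup.normal_of_isMulCommutative _
  let f : X → ↥V ⧸ W.subgroupOf V → ↥V ⧸ W.subgroupOf V := fun x =>
    Quotient.map' (fun v => ⟨x * v * (x : G)⁻¹, (Subgroup.mem_normalizer_iff.1 (hXV x.2) v).1 v.2⟩)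
      fun u v huv => by
        rw [QuotientGroup.leftRel_apply, Subgroup.mem_subgroupOf] at huv ⊢
        have := (Subgroup.mem_normalizer_iff.1 (hXW x.2) _).1 huv
        convert this using 1
        push_cast
        group
  letI : MulAction X (↥V ⧸ W.subgroupOf V) :=
    { smul := f
      one_smul := fun q => by
        induction q using QuotientGroup.induction_on with
        | H v =>
          show QuotientGroup.mk (s := W.subgroupOf V) _ = _
          exact congrArg _ (Subtype.ext (by simp))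
      mul_smul := fun x y q => by
        induction q using QuotientGroup.induction_on with
        | H v =>
          show QuotientGroup.mk (s := W.subgroupOf V) _ = QuotientGroup.mk (s := W.subgroupOf V) _
          exact congrArg _ (Subtype.ext (by push_cast; group)) }
  have h1 : (1 : ↥V ⧸ W.subgroupOf V) ∈ MulAction.fixedPoints X (↥V ⧸ W.subgroupOf V) := fun x => by
    show QuotientGroup.mk (s := W.subgroupOf V) _ = QuotientGroup.mk 1
    exact congrArg _ (Subtype.ext (by simp))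
  have hd : p ∣ Nat.card (↥V ⧸ W.subgroupOf V) := by
    obtain ⟨n, hn⟩ := IsPGroup.iff_card.1 (hV.to_quotient (W.subgroupOf V))
    rcases n with _ | n
    · refine absurd ?_ hne
      have h2 : (W.subgroupOf V).index = 1 := by rw [Subgroup.index_eq_card, hn, pow_zero]
      rw [Subgroup.index_eq_one, Subgroup.subgroupOf_eq_top] at h2
      exact h2
    · exact hn ▸ dvd_pow_self p n.succ_ne_zero
  obtain ⟨q, hq, hq1⟩ :=
    hX.exists_fixed_point_of_prime_dvd_card_of_fixed_point (↥V ⧸ W.subgroupOf V) hd h1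
  induction q using QuotientGroup.induction_on with
  | H v =>
    refine ⟨v, v.2, fun hv => hq1 ((QuotientGroup.eq_one_iff (N := W.subgroupOf V) v).2 hv).symm, fun x hx => ?_⟩
    have e := QuotientGroup.eq.1 (hq ⟨x, hx⟩ : QuotientGroup.mk (s := W.subgroupOf V) _ = _)
    rw [Subgroup.mem_subgroupOf] at e
    push_cast at e
    have e' := W.inv_mem e
    have hxv : x * v * x⁻¹ ∈ V := (Subgroup.mem_normalizer_iff.1 (hXV hx) v).1 v.2
    rw [mul_inv_rev, inv_inv, setLike_mul_comm (V.inv_mem v.2) hxv] at e'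
    exact e'

theorem QMax.conj {Q : Subgroup G} (hc : Ctx p P V M T) {m : G} (hm : m ∈ M)
    (hQ : QMax p P M (OffMin p P V) Q) : QMax p P M (OffMin p P V) (conjSub m Q) := by
  have hN : ∀ X : Subgroup G, ∀ x ∈ M, ¬ P ⊓ Subgroup.normalizer (X : Set G) ≤ M →
      ¬ P ⊓ Subgroup.normalizer ((conjSub x X : Subgroup G) : Set G) ≤ M := by
    intro X x hx hne hle
    refine hne fun y hy => ?_
    have h1 : x * y * x⁻¹ ∈ M := hle ⟨P.mul_mem (P.mul_mem (hc.M_le hx) hy.1) (P.inv_mem (hc.M_le hx)),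
      mem_normalizer_iff_conjSub.2 (by
        rw [conjSub_conjSub, show x * y * x⁻¹ * x = x * y by group, ← conjSub_conjSub,
          mem_normalizer_iff_conjSub.1 hy.2])⟩
    simpa [mul_assoc] using M.mul_mem (M.mul_mem (M.inv_mem hx) h1) hx
  refine ⟨conjSub_le_of_mem hm hQ.le, isPGroup_conjSub hQ.isP, ?_, hN Q m hm hQ.nle,
    fun Y hY hYp hYs hQY hYn => ?_⟩
  · rw [← hc.family.conj_span (hc.M_le hm), hQ.span]
  · have e := hQ.max (conjSub m⁻¹ Y) (conjSub_le_of_mem (M.inv_mem hm) hY) (isPGroup_conjSub hYp)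
      (by rw [← hc.family.conj_span (P.inv_mem (hc.M_le hm)), hYs])
      (by rw [← conjSub_le_iff]; exact hQY) (hN Y _ (M.inv_mem hm) hYn)
    rw [← e, conjSub_conjSub, mul_inv_cancel, conjSub_one]

theorem Cross.conj {Q A : Subgroup G} (hc : Ctx p P V M T) {m : G} (hm : m ∈ M)
    (hA : Cross M (OffMin p P V) Q A) : Cross M (OffMin p P V) (conjSub m Q) (conjSub m A) := by
  refine ⟨hc.family.conj m (hc.M_le hm) A hA.mem, conjSub_le_of_mem hm hA.le, fun y hy => ?_,
    fun hle => hA.nle fun y hy => ?_⟩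
  · rw [mem_conjSub] at hy
    rw [mem_normalizer_iff_conjSub, conjSub_conjSub, show y * m = m * (m⁻¹ * y * m) by group,
      ← conjSub_conjSub, mem_normalizer_iff_conjSub.1 (hA.norm hy)]
  · have h1 := hle (conj_mem_conjSub (x := m) hy)
    rw [mem_conjSub] at h1
    simpa [mul_assoc] using h1

/-- The subgroup generated by the members of `T` other than `A`. -/
def Qof (p : ℕ) (P V T A : Subgroup G) : Subgroup G :=
  sSup {X | OffMin p P V X ∧ X ≤ T ∧ X ≠ A}

namespace Ctx

variable {Q A : Subgroup G}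

/-- The members of `T` are the crossing member and those inside `Q`. -/
theorem member_cases (hc : Ctx p P V M T) (hQ : QMax p P M (OffMin p P V) Q)
    (hA : Cross M (OffMin p P V) Q A) (hQT : Q ≤ T) (hAT : A ≤ T) {X : Subgroup G}
    (hX : OffMin p P V X) (hXT : X ≤ T) : X ≤ Q ∨ X = A := by
  haveI := hc.comm
  set J := Q ⊔ A
  have hJT : J ≤ T := sup_le hQT hAT
  have hcase : ∀ Y, OffMin p P V Y → Y ≤ T → Y ≤ Subgroup.normalizer (Q : Set G) → Y ≤ Q ∨ Y = A :=
    fun Y hY hYT hYN => or_iff_not_imp_left.2 fun hne =>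
      hc.cross_eq hQ hA ⟨hY, hYT.trans hc.T_le, hYN, hne⟩
  have hJN : J ≤ Subgroup.normalizer (Q : Set G) := sup_le Subgroup.le_normalizer hA.norm
  have hJ : span' (OffMin p P V) J = J := by
    refine le_antisymm (span'_le _) (sup_le ?_ (le_span' hA.mem le_sup_right))
    conv_lhs => rw [← hQ.span]
    exact span'_mono le_sup_left
  have hspan : span' (OffMin p P V) T = J := by
    refine hc.family.span_eq_of_normalizing hc.T_p (hc.T_le.trans hc.M_le) hJ hJT
      fun G₁ hG₁ hG₁T hG₁N => ?_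
    by_contra hne
    have hG₁Q : ¬ G₁ ≤ Subgroup.normalizer (Q : Set G) := by
      intro hN
      rcases hcase G₁ hG₁ hG₁T hN with h | h
      · exact hne (h.trans le_sup_left)
      · exact hne (h.le.trans le_sup_right)
    have hPG : G₁ ≤ P := hG₁.1
    have hfixA : ∀ g ∈ G₁, conjSub g A = A → g ∈ Subgroup.normalizer (Q : Set G) := by
      intro g hg hgA
      refine mem_normalizer_iff_conjSub.2 (Subgroup.eq_of_le_of_card_ge ?_ (card_conjSub g Q).ge)
      rw [conjSub_le_iff, ← hQ.span]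
      refine sSup_le fun B hB => ?_
      rw [← conjSub_le_iff, hQ.span]
      have hgB : conjSub g B ≤ J :=
        (conjSub_mono (hB.2.trans le_sup_left)).trans (mem_normalizer_iff_conjSub.1 (hG₁N hg)).le
      refine (hcase _ (hc.family.conj g (hPG hg) B hB.1) (hgB.trans hJT) (hgB.trans hJN)).resolve_right
        fun h => hA.nle ?_
      rw [← Subgroup.map_injective (MulAut.conj g).injective (h.trans hgA.symm)]
      exact hB.2
    set G₂ := G₁ ⊓ Subgroup.normalizer (A : Set G)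
    have hG₂Q : G₂ ≤ Subgroup.normalizer (Q : Set G) :=
      fun g hg => hfixA g hg.1 (mem_normalizer_iff_conjSub.1 hg.2)
    obtain ⟨g₀, hg₀, hg₀₂⟩ : ∃ g ∈ G₁, g ∉ G₂ :=
      SetLike.not_le_iff_exists.1 fun hle => hG₁Q (hle.trans hG₂Q)
    have hout : ∀ g ∈ G₁, g ∉ G₂ → conjSub g A ≤ Q := by
      intro g hg hg₂
      have hgA : conjSub g A ≤ J :=
        (conjSub_mono le_sup_right).trans (mem_normalizer_iff_conjSub.1 (hG₁N hg)).le
      exact (hcase _ (hc.family.conj g (hPG hg) A hA.mem) (hgA.trans hJT)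
        (hgA.trans hJN)).resolve_right fun h => hg₂ ⟨hg, mem_normalizer_iff_conjSub.2 h⟩
    obtain ⟨L, hL⟩ := hc.exists_natl_norm hc.family hQ hA
    have hG₂p : IsPGroup p G₂ := (isPGroup_of_el hG₁.2.1).to_le inf_le_left
    obtain ⟨a, ha, ha1, haG⟩ := exists_fixed (isPGroup_of_el hA.mem.2.1) hA.mem.2.2.1 hG₂p inf_le_right
    have hG₂W : G₂ ≤ Subgroup.normalizer (fix V A : Set G) := fun g hg => by
      rw [mem_normalizer_iff_conjSub, ← fix_conjSub (hc.P_norm (hPG hg.1)),
        mem_normalizer_iff_conjSub.1 hg.2]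
    obtain ⟨v, hv, hvW, hvG⟩ := exists_fixed_mod (V := V) (W := fix V A) (isPGroup_of_el hc.V_el)
      inf_le_left (fun hle => by
        obtain ⟨u, hu, huW⟩ := hL.exists_notMem_W
        exact huW (hle hu)) hG₂p ((inf_le_left.trans hPG).trans hc.P_norm) hG₂W
    set r := cm a v with hr
    have hrW : r ∈ fix V A := hc.cm_mem_fix hA.mem ha hv
    have hr₀ : r ∉ fix V L := fun h => hvW (hL.inj ha ha1 hv h)
    have hrG : ∀ g ∈ G₂, g * r * g⁻¹ = r := by
      intro g hg
      have h1 := cm_conj g a v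
      rw [haG g hg, ← cm_self (x := g) (v := v)] at h1
      rw [← hr] at h1
      rw [← h1, cm_mul_right (V := V) (hvG g hg).1 hv (hc.cm_memV (hA.mem.1 ha) hv),
        (mem_fix_cm.1 (hvG g hg)).2 a ha, one_mul]
    have hrout : ∀ g ∈ G₁, g ∉ G₂ → g * r * g⁻¹ ∈ fix V L := by
      intro g hg hg₂
      rw [hr, ← cm_conj]
      exact hL.cm_Q_mem hc hQ (hout g hg hg₂ (conj_mem_conjSub ha)) (hc.conj_memV (hPG hg) hv)
    have hidx : ∀ g ∈ G₁, g ∉ G₂ → ∀ g' ∈ G₁, g' ∉ G₂ → g' * g ∈ G₂ := by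
      intro g hg hg₂ g' hg' hg'₂
      by_contra hgg
      have h1 := hrout _ (G₁.mul_mem hg' hg) hgg
      have h2 := hrout g' hg' hg'₂
      have h3 : g' * cm g r * g'⁻¹ = cm g r := by
        rw [(hc.isMinOffender hG₁).quadratic hg hg' hrW.1, mul_inv_cancel_right]
      have h4 : g' * cm g r * g'⁻¹ = (g' * g * r * (g' * g)⁻¹) * (g' * r * g'⁻¹)⁻¹ := by
        simp only [cm]; group
      have h5 : cm g r ∈ fix V L := by
        rw [← h3, h4]
        exact mul_mem h1 (inv_mem h2)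
      apply hr₀
      have h6 := mul_mem (inv_mem h5) (hrout g hg hg₂)
      rwa [show (cm g r)⁻¹ * (g * r * g⁻¹) = r by simp only [cm]; group] at h6
    have hcard : Nat.card G₁ ≤ 2 * Nat.card G₂ := by
      classical
      let f : G₁ → Bool × G₂ := fun x =>
        if hx : (x : G) ∈ G₂ then (false, ⟨x, hx⟩)
        else (true, ⟨(x : G) * g₀, hidx g₀ hg₀ hg₀₂ x x.2 hx⟩)
      have hf : Function.Injective f := by
        intro x y hxy
        simp only [f] at hxy
        split_ifs at hxy with hx hy hy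
        · exact Subtype.ext (congrArg (fun z : Bool × G₂ => ((z.2 : G₂) : G)) hxy)
        · exact Bool.noConfusion (congrArg Prod.fst hxy)
        · exact Bool.noConfusion (congrArg Prod.fst hxy)
        · exact Subtype.ext
            (mul_right_cancel (congrArg (fun z : Bool × G₂ => ((z.2 : G₂) : G)) hxy))
      have := Nat.card_le_card_of_injective f hf
      rwa [Nat.card_prod, Nat.card_eq_fintype_card (α := Bool), Fintype.card_bool] at this
    have hrC : r ∈ fix V G₂ := mem_inf_centralizer.2 ⟨hrW.1, fun g hg =>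
      mul_inv_eq_iff_eq_mul.1 (hrG g hg)⟩
    have hgr : g₀ * r * g₀⁻¹ ≠ r := fun e => hr₀ (e ▸ hrout g₀ hg₀ hg₀₂)
    by_cases hG₂0 : G₂ = ⊥
    · rw [hG₂0, Subgroup.card_bot, mul_one] at hcard
      let φ : ↥V →* ↥V := MonoidHom.mk' (fun u => ⟨cm g₀ u, hc.cm_memV (hPG hg₀) u.2⟩) fun u w =>
        Subtype.ext (cm_mul_right (V := V) u.2 w.2 (hc.cm_memV (hPG hg₀) w.2))
      have hker : Nat.card ↥(fix V G₁) ≤ Nat.card φ.ker :=
        Nat.card_le_card_of_injective (fun u => (⟨⟨u, u.2.1⟩, Subtype.ext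
          ((mem_fix_cm.1 u.2).2 g₀ hg₀)⟩ : φ.ker)) fun u w e => Subtype.ext
            (congrArg (fun z : φ.ker => ((z : ↥V) : G)) e)
      have hrange : Nat.card φ.range ≤ 2 := by
        have h1 := φ.ker.card_mul_index
        rw [Subgroup.index_ker] at h1
        refine Nat.le_of_mul_le_mul_left ?_ (Nat.card_pos (α := φ.ker))
        calc Nat.card φ.ker * Nat.card φ.range = Nat.card V := h1
          _ ≤ Nat.card G₁ * Nat.card ↥(fix V G₁) := hG₁.2.2.2.1.ge
          _ ≤ _ := by rw [mul_comm (Nat.card φ.ker) 2]; exact Nat.mul_le_mul hcard hker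
      have hone : ∀ u ∈ V, cm g₀ u = 1 ∨ cm g₀ u = cm g₀ r := by
        classical
        intro u hu
        by_contra hcon
        push Not at hcon
        have h3 : (({1, φ ⟨u, hu⟩, φ ⟨r, hrW.1⟩} : Finset V) : Set V) ⊆ φ.range := by
          intro x hx
          simp only [Finset.coe_insert, Finset.coe_singleton, Set.mem_insert_iff,
            Set.mem_singleton_iff] at hx
          rcases hx with rfl | rfl | rfl
          exacts [one_mem _, ⟨_, rfl⟩, ⟨_, rfl⟩]
        have hr1 : φ ⟨r, hrW.1⟩ ≠ 1 := fun e => hgr (mul_inv_eq_one.1 (congrArg Subtype.val e))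
        have hu1 : φ ⟨u, hu⟩ ≠ 1 := fun e => hcon.1 (congrArg Subtype.val e)
        have hur : φ ⟨u, hu⟩ ≠ φ ⟨r, hrW.1⟩ := fun e => hcon.2 (congrArg Subtype.val e)
        have h4 := Set.ncard_le_ncard h3 (Set.toFinite _)
        have h5 : ((φ.range : Set V)).ncard = Nat.card φ.range := (Nat.card_coe_set_eq _).symm
        rw [Set.ncard_coe_finset, Finset.card_insert_of_notMem (by simp [Ne.symm hu1, Ne.symm hr1]),
          Finset.card_pair hur, h5] at h4
        omega
      have hgW : conjSub g₀ (fix V A) = fix V A := by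
        refine conjSub_eq_self fun u hu => ?_
        rw [← cm_self]
        refine mul_mem ?_ hu
        rcases hone u hu.1 with h | h
        · rw [h]; exact one_mem _
        · rw [h]
          exact mul_mem (hL.V0_le (hrout g₀ hg₀ hg₀₂)) (inv_mem hrW)
      have heq : conjSub g₀ A = A := hc.sameW (hc.family.conj g₀ (hPG hg₀) A hA.mem) hA.mem
        (by rw [fix_conjSub (hc.P_norm (hPG hg₀)), hgW])
      exact hA.nle (heq.ge.trans (hout g₀ hg₀ hg₀₂))
    · have hs := hG₁.2.2.2.2 G₂ inf_le_left hG₂0 fun e => hg₀₂ (e ▸ hg₀)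
      have hC : fix V G₁ ≤ fix V G₂ := fix_anti inf_le_left
      have hC2 : fix V G₁ = fix V G₂ := by
        refine Subgroup.eq_of_le_of_card_ge hC ?_
        obtain ⟨k, hk⟩ := Subgroup.card_dvd_of_le hC
        have hlt : Nat.card G₂ * Nat.card ↥(fix V G₂) < Nat.card G₂ * (2 * Nat.card ↥(fix V G₁)) := by
          refine hs.trans_le ?_
          calc Nat.card V = Nat.card G₁ * Nat.card ↥(fix V G₁) := hG₁.2.2.2.1.symm
            _ ≤ 2 * Nat.card G₂ * Nat.card ↥(fix V G₁) := Nat.mul_le_mul_right _ hcard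
            _ = _ := by ring
        have h1 := Nat.lt_of_mul_lt_mul_left hlt
        rw [hk, mul_comm] at h1
        have h2 := Nat.lt_of_mul_lt_mul_right h1
        rw [hk]
        exact (Nat.mul_le_mul_left _ (Nat.le_of_lt_succ h2)).trans (mul_one _).le
      rw [← hC2] at hrC
      exact hgr (conj_eq_of_fix hrC hg₀)
  exact hcase X hX hXT ((le_span' hX hXT).trans (hspan.le.trans hJN))

theorem eq_Qof (hc : Ctx p P V M T) (hQ : QMax p P M (OffMin p P V) Q)
    (hA : Cross M (OffMin p P V) Q A) (hQT : Q ≤ T) (hAT : A ≤ T) : Q = Qof p P V T A := by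
  refine le_antisymm ?_ (sSup_le fun X hX => (hc.member_cases hQ hA hQT hAT hX.1 hX.2.1).resolve_right hX.2.2)
  conv_lhs => rw [← hQ.span]
  exact sSup_le fun X hX => le_sSup ⟨hX.1, hX.2.trans hQT, fun e => hA.nle (e ▸ hX.2)⟩

theorem natl_le_normalizer_span (hc : Ctx p P V M T) (hQ : QMax p P M (OffMin p P V) Q)
    {L : Subgroup G} (hL : Natl p P V M Q A L) {S : Set (Subgroup G)} (hS : ∀ X ∈ S, X ≤ Q) :
    L ≤ Subgroup.normalizer ((sSup S : Subgroup G) : Set G) := by
  have h1 : sSup S ≤ Subgroup.centralizer (L : Set G) :=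
    (sSup_le hS).trans (hL.Q_centralized hc hQ)
  refine le_normalizer_of_conj fun x hx y hy => ?_
  rw [Subgroup.mem_centralizer_iff.1 (h1 hy) x hx, mul_inv_cancel_right]
  exact hy

theorem conj_members_invariant (hc : Ctx p P V M T) {C : Subgroup G → Prop}
    (hC : ∀ t ∈ T, ∀ X, OffMin p P V X → X ≤ T → C X → C (conjSub t X)) :
    T ≤ Subgroup.normalizer ((sSup {X | OffMin p P V X ∧ X ≤ T ∧ C X} : Subgroup G) : Set G) := by
  intro t ht
  refine mem_normalizer_iff_conjSub.2 (Subgroup.eq_of_le_of_card_ge ?_ (card_conjSub _ _).ge)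
  rw [conjSub_le_iff]
  refine sSup_le ?_
  rintro X ⟨hX, hXT, hXC⟩
  rw [← conjSub_le_iff]
  exact le_sSup ⟨hc.family.conj t (hc.M_le (hc.T_le ht)) X hX, conjSub_le_of_mem ht hXT,
    hC t ht X hX hXT hXC⟩

/-- Every member of `T` is crossing. -/
theorem member_setup (hc : Ctx p P V M T) {A : Subgroup G} (hA : OffMin p P V A) (hAT : A ≤ T) :
    QMax p P M (OffMin p P V) (Qof p P V T A) ∧ Cross M (OffMin p P V) (Qof p P V T A) A ∧
      Natl p P V M (Qof p P V T A) A (Lof p P V (Qof p P V T A)) := by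
  let Good : Subgroup G → Prop := fun X =>
    ∃ Q, QMax p P M (OffMin p P V) Q ∧ Cross M (OffMin p P V) Q X ∧ Q ≤ T
  have hgood : ∀ X, OffMin p P V X → X ≤ T → Good X := by
    intro X hX hXT
    by_contra hne
    obtain ⟨Q₀, A₀, -, hQ₀, hA₀, -⟩ := hc.exists_all hc.family hX
    obtain ⟨m, hm, hle⟩ := hc.sylM (A₀ ⊔ Q₀) (sup_le hA₀.le hQ₀.le)
      ((isPGroup_of_el hA₀.mem.2.1).to_sup_of_normal_right' hQ₀.isP hA₀.norm)
    have hQ := hQ₀.conj hc hm
    have hA' := hA₀.conj hc hm
    have hQT : conjSub m Q₀ ≤ T := (conjSub_mono le_sup_right).trans hle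
    have hAT' : conjSub m A₀ ≤ T := (conjSub_mono le_sup_left).trans hle
    obtain ⟨L, hL⟩ := hc.exists_natl_norm hc.family hQ hA'
    set N := sSup {Y | OffMin p P V Y ∧ Y ≤ T ∧ ¬ Good Y}
    have hNT : N ≤ T := sSup_le fun Y hY => hY.2.1
    have hTN : T ≤ Subgroup.normalizer (N : Set G) := hc.conj_members_invariant
      fun t ht Y hY hYT hYne hg => hYne (by
        obtain ⟨Q, hQ', hY', hQT'⟩ := hg
        have ht' := T.inv_mem ht
        refine ⟨conjSub t⁻¹ Q, hQ'.conj hc (hc.T_le ht'), ?_, conjSub_le_of_mem ht' hQT'⟩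
        have := hY'.conj hc (hc.T_le ht')
        rwa [conjSub_conjSub, inv_mul_cancel, conjSub_one] at this)
    have hN0 : N ≠ ⊥ := fun h0 => hX.2.2.1 (le_bot_iff.1 ((le_sSup (show X ∈ {Y | OffMin p P V Y ∧ Y ≤ T ∧ ¬ Good Y} from ⟨hX, hXT, hne⟩)).trans h0.le))
    refine hL.nle ((le_inf hL.le ?_).trans (hc.NJ N hNT hN0 hTN))
    refine hc.natl_le_normalizer_span hQ hL fun Y hY => ?_
    exact (hc.member_cases hQ hA' hQT hAT' hY.1 hY.2.1).resolve_right fun e =>
      hY.2.2 (e ▸ (⟨_, hQ, hA', hQT⟩ : Good (conjSub m A₀)))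
  obtain ⟨Q, hQ, hA', hQT⟩ := hgood A hA hAT
  obtain ⟨L, hL⟩ := hc.exists_natl_norm hc.family hQ hA'
  rw [← hc.eq_Qof hQ hA' hQT hAT]
  exact ⟨hQ, hA', hc.eq_Lof hQ hA' hL ▸ hL⟩

/-- The members of `T` are conjugate under `T`. -/
theorem member_transitive (hc : Ctx p P V M T) {A B : Subgroup G} (hA : OffMin p P V A) (hAT : A ≤ T)
    (hB : OffMin p P V B) (hBT : B ≤ T) : ∃ t ∈ T, conjSub t A = B := by
  by_contra hne
  set N := sSup {Y | OffMin p P V Y ∧ Y ≤ T ∧ ¬ ∃ t ∈ T, conjSub t A = Y}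
  have hNT : N ≤ T := sSup_le fun Y hY => hY.2.1
  have hTN : T ≤ Subgroup.normalizer (N : Set G) := hc.conj_members_invariant
    fun t ht Y hY hYT hYne hg => hYne (by
      obtain ⟨s, hs, he⟩ := hg
      exact ⟨t⁻¹ * s, T.mul_mem (T.inv_mem ht) hs, by
        rw [← conjSub_conjSub, he, conjSub_conjSub, inv_mul_cancel, conjSub_one]⟩)
  have hN0 : N ≠ ⊥ := fun h0 => hB.2.2.1 (le_bot_iff.1 ((le_sSup (show B ∈ {Y | OffMin p P V Y ∧ Y ≤ T ∧ ¬ ∃ t ∈ T, conjSub t A = Y} from ⟨hB, hBT, hne⟩)).trans h0.le))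
  obtain ⟨hQ, -, hL⟩ := hc.member_setup hA hAT
  refine hL.nle ((le_inf hL.le ?_).trans (hc.NJ N hNT hN0 hTN))
  exact hc.natl_le_normalizer_span hQ hL fun Y hY =>
    le_sSup ⟨hY.1, hY.2.1, fun e => hY.2.2 (show ∃ t ∈ T, conjSub t A = Y from ⟨1, T.one_mem, by rw [conjSub_one, e]⟩)⟩

end Ctx

end CfsgLib.MinParFF
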