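import Cfsg.Agent.MinParFF.Global

/-!
For fields with more than two elements the natural `SL₂`s over different members of `T` act on
independent summands.
-/

set_option autoImplicit false
set_option linter.style.haveILetI false
set_option linter.unusedSectionVars false

open Cfsg
open Matrix

namespace CfsgLib.MinParFF

variable {G : Type*} [Group G] [Finite G] {p : ℕ} [hp : Fact p.Prime] {P V M T : Subgroup G}

/-- The members of `T`. -/
abbrev Idx (p : ℕ) (P V T : Subgroup G) := {A : Subgroup G // OffMin p P V A ∧ A ≤ T}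

/-- The `SL₂` over a member of `T`. -/
abbrev LT (p : ℕ) (P V T A : Subgroup G) : Subgroup G := Lof p P V (Qof p P V T A)

namespace Natl

variable {Q A L : Subgroup G}

theorem comm_le (h : Natl p P V M Q A L) : ⁅V, L⁆ ≤ V :=
  commutator_le_of_cm fun _ hx _ hv => h.min.cm_mem hx hv

theorem le_normalizer_comm (h : Natl p P V M Q A L) : L ≤ Subgroup.normalizer ((⁅V, L⁆ : Subgroup G) : Set G) :=
  le_normalizer_of_conj fun _ hx _ hu => conj_mem_of_cm hu (cm_mem_commutator hx (h.comm_le hu))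

theorem comm_sup (h : Natl p P V M Q A L) : ⁅V, L⁆ ⊔ fix V L = V := by
  refine h.sup_fix_eq h.comm_le h.le_normalizer_comm fun hle => ?_
  obtain ⟨v, hv, hvW⟩ := h.exists_notMem_W
  obtain ⟨a, ha, ha1⟩ := A.bot_or_exists_ne_one.resolve_left h.min.A_ne
  exact hvW (h.inj ha ha1 hv (hle (cm_mem_commutator (h.A_le ha) hv)))

theorem model_comm (h : Natl p P V M Q A L) :
    ∃ n : ℕ, 1 ≤ n ∧ Nat.card A = p ^ n ∧ ∃ (F : Type) (_ : Field F) (_ : Fintype F),
      Fintype.card F = p ^ n ∧ Nonempty (↥L ≃* Matrix.SpecialLinearGroup (Fin 2) F) ∧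
      ActsAsSL2OnSection F ⊤ L ⁅V, L⁆ (⁅V, L⁆ ⊓ Subgroup.centralizer (L : Set G)) := by
  haveI := h.min.V_el.1
  obtain ⟨n, hn⟩ := IsPGroup.iff_card.1 (isPGroup_of_el h.min.A_el)
  have hn1 : 1 ≤ n := Nat.one_le_iff_ne_zero.2 fun h0 => h.min.A_ne
    (Subgroup.eq_bot_of_card_eq _ (by rw [hn, h0, pow_zero]))
  obtain ⟨F, i1, i2, hF, hiso, -, hact⟩ := h.min.natural h.moved
  refine ⟨n, hn1, hn, F, i1, i2, hF.trans hn, hiso, h.le_normalizer_comm, inf_le_left, ?_⟩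
  obtain ⟨-, -, ρ, ψ, hρ, hψ, hker, hact⟩ := hact
  refine ⟨ρ, ψ.comp (Subgroup.inclusion h.comm_le), hρ, fun f => ?_, fun u => ?_, fun e u => ?_⟩
  · obtain ⟨v, hv⟩ := hψ f
    obtain ⟨u, hu, c, hc, huc⟩ := exists_mul_of_mem_sup h.comm_le inf_le_left (h.comm_sup.ge v.2)
    refine ⟨⟨u, hu⟩, ?_⟩
    have e : v = Subgroup.inclusion h.comm_le ⟨u, hu⟩ * ⟨c, hc.1⟩ := Subtype.ext huc
    rw [← hv, e, map_mul, (hker ⟨c, hc.1⟩).2 hc, mul_one]
    rfl
  · rw [MonoidHom.comp_apply, hker]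
    exact ⟨fun hu => ⟨u.2, hu.2⟩, fun hu => ⟨h.comm_le u.2, hu.2⟩⟩
  · obtain ⟨w, hw, hwe⟩ := hact e (Subgroup.inclusion h.comm_le u)
    refine ⟨⟨w, ?_⟩, hw, hwe⟩
    rw [hw]
    exact (Subgroup.mem_normalizer_iff.1 (h.le_normalizer_comm e.2) _).1 u.2

/-- A torus element normalising `A` and `Aᵍ` and moving all of `[V, Aᵍ]` modulo `C_V(L)`. -/
theorem exists_torus (hc : Ctx p P V M T) (hA : OffMin p P V A) (h : Natl p P V M Q A L)
    (hq : 2 < Nat.card A) : ∃ g ∈ L, g ∉ M ∧ ∃ k ∈ L, conjSub k A = A ∧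
      conjSub k (conjSub g A) = conjSub g A ∧
      ∀ u ∈ conjSub g (fix V A), cm k u ∈ fix V L → u ∈ fix V L := by
  classical
  haveI := h.min.V_el.1
  obtain ⟨g, hg, hgM⟩ := h.exists_g
  obtain ⟨F, i1, i2, hF, -, -, hact⟩ := h.min.natural h.moved
  obtain ⟨-, -, ρ, ψ, hρ, hψ, hker, hact⟩ := hact
  let f : V → Fin 2 → F := fun v => Multiplicative.toAdd (ψ v)
  have hconj : ∀ (x : L) (v : V) (h' : (x : G) * v * (x : G)⁻¹ ∈ V),
      f ⟨_, h'⟩ = (ρ x : Matrix (Fin 2) (Fin 2) F) *ᵥ f v := by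
    intro x v h'
    obtain ⟨w, hw, hwe⟩ := hact x v
    rw [← hwe]
    exact congrArg f (Subtype.ext hw.symm)
  have hcm : ∀ (x : L) (v : V),
      (ρ x : Matrix (Fin 2) (Fin 2) F) *ᵥ f v = f v ↔ cm (x : G) (v : G) ∈ fix V L := by
    intro x v
    rw [← hconj x v (h.min.conj_mem x.2 v.2)]
    constructor
    · intro e
      refine (hker ⟨_, h.min.cm_mem x.2 v.2⟩).1 ?_
      rw [show (⟨_, h.min.cm_mem x.2 v.2⟩ : V) = ⟨_, h.min.conj_mem x.2 v.2⟩ * v⁻¹ from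
        Subtype.ext rfl, map_mul, map_inv, mul_inv_eq_one]
      exact Multiplicative.toAdd.injective e
    · intro e
      have h1 := (hker ⟨_, h.min.cm_mem x.2 v.2⟩).2 e
      rw [show (⟨_, h.min.cm_mem x.2 v.2⟩ : V) = ⟨_, h.min.conj_mem x.2 v.2⟩ * v⁻¹ from
        Subtype.ext rfl, map_mul, map_inv, mul_inv_eq_one] at h1
      exact congrArg Multiplicative.toAdd h1
  have hmemW : ∀ (v : V) (a : L), (a : G) ∈ A → a ≠ 1 →
      (ρ a : Matrix (Fin 2) (Fin 2) F) *ᵥ f v = f v → (v : G) ∈ fix V A := fun v a ha ha1 e =>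
    h.inj ha (fun e' => ha1 (Subtype.ext e')) v.2 ((hcm a v).1 e)
  obtain ⟨a₀, ha₀, ha₀1⟩ := A.bot_or_exists_ne_one.resolve_left h.min.A_ne
  set a : L := ⟨a₀, h.A_le ha₀⟩ with ha
  have ha1 : a ≠ 1 := fun e => ha₀1 (congrArg Subtype.val e)
  obtain ⟨w₁, hw₁, hw₁V⟩ := SetLike.not_le_iff_exists.1 h.W_not_le
  set g' : L := ⟨g, hg⟩
  set e₁ := f ⟨w₁, hw₁.1⟩ with he₁
  have hgw : g * w₁ * g⁻¹ ∈ V := h.min.conj_mem hg hw₁.1
  set e₂ := f ⟨_, hgw⟩ with he₂
  have he₂' : e₂ = (ρ g' : Matrix (Fin 2) (Fin 2) F) *ᵥ e₁ := hconj g' ⟨w₁, hw₁.1⟩ hgw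
  have hfixA : ∀ (v : V), (v : G) ∈ fix V A → (ρ a : Matrix (Fin 2) (Fin 2) F) *ᵥ f v = f v := by
    intro v hv
    rw [hcm a v, (mem_fix_cm.1 hv).2 a₀ ha₀]
    exact one_mem _
  have he₁0 : e₁ ≠ 0 := fun e =>
    hw₁V ((hker ⟨w₁, hw₁.1⟩).1 (Multiplicative.toAdd.injective e))
  have hdep : ∀ x y : Fin 2 → F, x ≠ 0 → x 0 * y 1 - x 1 * y 0 = 0 → ∃ c : F, y = c • x := by
    intro x y hx hd
    by_cases h0 : x 0 = 0
    · have h1 : x 1 ≠ 0 := fun h1 => hx (by funext i; fin_cases i <;> assumption)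
      have hy0 : y 0 = 0 := by
        rw [h0, zero_mul, zero_sub, neg_eq_zero] at hd
        exact (mul_eq_zero.1 hd).resolve_left h1
      refine ⟨y 1 / x 1, ?_⟩
      funext i
      fin_cases i
      · simp [hy0, h0]
      · simp [div_mul_cancel₀ _ h1]
    · refine ⟨y 0 / x 0, ?_⟩
      funext i
      fin_cases i
      · simp [div_mul_cancel₀ _ h0]
      · have hd' : x 1 * y 0 = x 0 * y 1 := (sub_eq_zero.1 hd).symm
        show y 1 = y 0 / x 0 * x 1
        rw [div_mul_eq_mul_div, eq_div_iff h0, mul_comm (y 1), ← hd', mul_comm]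
  have hρa : (ρ a : Matrix (Fin 2) (Fin 2) F) ≠ 1 := by
    intro e
    obtain ⟨v, hv, hvW⟩ := h.exists_notMem_W
    exact hvW (hmemW ⟨v, hv⟩ a ha₀ ha1 (by rw [e, Matrix.one_mulVec]))
  have hline : ∀ y : Fin 2 → F, (ρ a : Matrix (Fin 2) (Fin 2) F) *ᵥ y = y → ∃ c : F, y = c • e₁ := by
    intro y hy
    refine hdep e₁ y he₁0 ?_
    by_contra hd
    set B : Matrix (Fin 2) (Fin 2) F := !![e₁ 0, y 0; e₁ 1, y 1]
    have hB : IsUnit B.det := by
      refine isUnit_iff_ne_zero.2 ?_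
      rw [Matrix.det_fin_two_of, mul_comm (y 0)]
      exact hd
    have he : (ρ a : Matrix (Fin 2) (Fin 2) F) * B = B := by
      have h1 := hfixA ⟨w₁, hw₁.1⟩ hw₁
      rw [← he₁] at h1
      ext i j
      fin_cases j
      · have := congrFun h1 i
        simp only [Matrix.mulVec, dotProduct, Fin.sum_univ_two] at this
        fin_cases i <;> simpa [B, Matrix.mul_apply, Fin.sum_univ_two] using this
      · have := congrFun hy i
        simp only [Matrix.mulVec, dotProduct, Fin.sum_univ_two] at this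
        fin_cases i <;> simpa [B, Matrix.mul_apply, Fin.sum_univ_two] using this
    apply hρa
    calc (ρ a : Matrix (Fin 2) (Fin 2) F) = (ρ a : Matrix (Fin 2) (Fin 2) F) * B * B⁻¹ := by
          rw [Matrix.mul_nonsing_inv_cancel_right _ _ hB]
      _ = 1 := by rw [he, Matrix.mul_nonsing_inv _ hB]
  have hd12 : e₁ 0 * e₂ 1 - e₁ 1 * e₂ 0 ≠ 0 := by
    intro hd
    obtain ⟨c, hc'⟩ := hdep e₁ e₂ he₁0 hd
    have hfixe2 : (ρ a : Matrix (Fin 2) (Fin 2) F) *ᵥ e₂ = e₂ := by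
      rw [hc', Matrix.mulVec_smul, he₁, hfixA ⟨w₁, hw₁.1⟩ hw₁]
    have h1 := hmemW ⟨_, hgw⟩ a ha₀ ha1 hfixe2
    have h2 : g * w₁ * g⁻¹ ∈ fix V L := (h.fix_inter hg hgM).le ⟨h1, conj_mem_conjSub hw₁⟩
    apply hw₁V
    rw [show w₁ = g⁻¹ * (g * w₁ * g⁻¹) * g⁻¹⁻¹ by group, h.conj_fix (L.inv_mem hg) h2]
    exact h2
  obtain ⟨t, ht0, ht1⟩ : ∃ t : F, t ≠ 0 ∧ t ≠ 1 := by
    by_contra hcon
    push Not at hcon
    have h1 : (Finset.univ : Finset F) ⊆ {0, 1} := fun t _ => by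
      rw [Finset.mem_insert, Finset.mem_singleton]
      exact (em (t = 0)).imp_right (hcon t)
    have h2 := (Finset.card_le_card h1).trans Finset.card_le_two
    rw [Finset.card_univ, hF] at h2
    omega
  set B : Matrix (Fin 2) (Fin 2) F := !![e₁ 0, e₂ 0; e₁ 1, e₂ 1] with hBdef
  have hB : IsUnit B.det := by
    refine isUnit_iff_ne_zero.2 ?_
    rw [Matrix.det_fin_two_of, mul_comm (e₂ 0)]
    exact hd12
  set X := B * !![t, 0; 0, t⁻¹] * B⁻¹ with hX
  have hXdet : X.det = 1 := by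
    rw [hX, Matrix.det_mul, Matrix.det_mul, mul_comm B.det, mul_assoc, ← Matrix.det_mul,
      Matrix.mul_nonsing_inv _ hB, Matrix.det_one, mul_one, Matrix.det_fin_two_of]
    simp [mul_inv_cancel₀ ht0]
  obtain ⟨k, hk⟩ := MonoidHom.range_eq_top.1 hρ ⟨X, hXdet⟩
  have hk' : (ρ k : Matrix (Fin 2) (Fin 2) F) = X := by rw [hk]
  have hcol : B⁻¹ *ᵥ e₁ = Pi.single 0 1 ∧ B⁻¹ *ᵥ e₂ = Pi.single 1 1 := by
    have h1 : B *ᵥ Pi.single 0 1 = e₁ ∧ B *ᵥ Pi.single 1 1 = e₂ := by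
      constructor <;> funext i <;> fin_cases i <;> simp [hBdef]
    constructor
    · rw [← h1.1, Matrix.mulVec_mulVec, Matrix.nonsing_inv_mul _ hB, Matrix.one_mulVec]
    · rw [← h1.2, Matrix.mulVec_mulVec, Matrix.nonsing_inv_mul _ hB, Matrix.one_mulVec]
  have hXe₁ : X *ᵥ e₁ = t • e₁ := by
    rw [hX, ← Matrix.mulVec_mulVec, ← Matrix.mulVec_mulVec, hcol.1]
    funext i
    fin_cases i <;> simp [hBdef, Matrix.mulVec, dotProduct, Fin.sum_univ_two, mul_comm]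
  have hXe₂ : X *ᵥ e₂ = t⁻¹ • e₂ := by
    rw [hX, ← Matrix.mulVec_mulVec, ← Matrix.mulVec_mulVec, hcol.2]
    funext i
    fin_cases i <;> simp [hBdef, Matrix.mulVec, dotProduct, Fin.sum_univ_two, mul_comm]
  have hW : conjSub (k : G) (fix V A) = fix V A := conjSub_eq_self fun w hw => by
    have hmem := h.min.conj_mem k.2 hw.1
    refine hmemW ⟨_, hmem⟩ a ha₀ ha1 ?_
    obtain ⟨c, hc'⟩ := hline _ (hfixA ⟨w, hw.1⟩ hw)
    rw [hconj k ⟨w, hw.1⟩ hmem, hc', hk', Matrix.mulVec_smul, hXe₁, smul_comm, Matrix.mulVec_smul,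
      Matrix.mulVec_smul, he₁, hfixA ⟨w₁, hw₁.1⟩ hw₁]
  have hgu : ∀ u ∈ conjSub g (fix V A), ∃ (hu : u ∈ V) (c : F), f ⟨u, hu⟩ = c • e₂ := by
    intro u hu
    rw [mem_conjSub] at hu
    obtain ⟨c, hc'⟩ := hline _ (hfixA ⟨_, hu.1⟩ hu)
    have hu' : g * (g⁻¹ * u * g) * g⁻¹ ∈ V := h.min.conj_mem hg hu.1
    have e : g * (g⁻¹ * u * g) * g⁻¹ = u := by group
    refine ⟨e ▸ hu', c, ?_⟩
    rw [show (⟨u, e ▸ hu'⟩ : V) = ⟨_, hu'⟩ from Subtype.ext e.symm, hconj g' ⟨_, hu.1⟩ hu', hc',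
      Matrix.mulVec_smul, he₂']
  have hgW : conjSub (k : G) (conjSub g (fix V A)) = conjSub g (fix V A) := by
    refine conjSub_eq_self fun u hu => ?_
    obtain ⟨huV, c, hc'⟩ := hgu u hu
    rw [mem_conjSub]
    have h1 := h.min.conj_mem k.2 huV
    have h2 := h.min.conj_mem (L.inv_mem hg) h1
    rw [inv_inv] at h2
    refine hmemW ⟨_, h2⟩ a ha₀ ha1 ?_
    have h3 : f ⟨g⁻¹ * ((k : G) * u * (k : G)⁻¹) * g, h2⟩ =
        (ρ g'⁻¹ : Matrix (Fin 2) (Fin 2) F) *ᵥ f ⟨_, h1⟩ := by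
      rw [← hconj g'⁻¹ ⟨_, h1⟩ (h.min.conj_mem g'⁻¹.2 h1)]
      exact congrArg f (Subtype.ext (by simp [g']))
    have h4 : (ρ g'⁻¹ : Matrix (Fin 2) (Fin 2) F) *ᵥ e₂ = e₁ := by
      rw [he₂', Matrix.mulVec_mulVec, ← Matrix.SpecialLinearGroup.coe_mul, ← map_mul,
        inv_mul_cancel, map_one, Matrix.SpecialLinearGroup.coe_one, Matrix.one_mulVec]
    have h5 : f ⟨g⁻¹ * ((k : G) * u * (k : G)⁻¹) * g, h2⟩ = (c * t⁻¹) • e₁ := by
      rw [h3, hconj k ⟨u, huV⟩ h1, hc', hk', Matrix.mulVec_smul, hXe₂, smul_smul, Matrix.mulVec_smul, h4]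
    rw [h5, Matrix.mulVec_smul, he₁, hfixA ⟨w₁, hw₁.1⟩ hw₁]
  have hAk : conjSub (k : G) A = A := hc.sameW (hc.family.conj _ (h.le k.2) A hA) hA
    (by rw [h.fix_conj k.2, hW])
  refine ⟨g, hg, hgM, k, k.2, hAk, ?_, ?_⟩
  · refine hc.sameW (hc.family.conj _ (h.le k.2) _ (hc.family.conj g (h.le hg) A hA))
      (hc.family.conj g (h.le hg) A hA) ?_
    rw [conjSub_conjSub, h.fix_conj (L.mul_mem k.2 hg), ← conjSub_conjSub, hgW, ← h.fix_conj hg]
  · intro u hu hku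
    obtain ⟨huV, c, hc'⟩ := hgu u hu
    have h1 := (hcm k ⟨u, huV⟩).2 hku
    rw [hk', hc', Matrix.mulVec_smul, hXe₂, smul_smul] at h1
    have ht : t⁻¹ ≠ 1 := fun e => ht1 (inv_eq_one.1 e)
    have he₂0 : e₂ ≠ 0 := fun e => hd12 (by simp [e])
    have hcc : c * t⁻¹ = c := smul_left_injective F he₂0 h1
    have hc0 : c = 0 := by
      by_contra h0
      exact ht (mul_left_cancel₀ h0 (hcc.trans (mul_one c).symm))
    refine (hker ⟨u, huV⟩).1 (Multiplicative.toAdd.injective ?_)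
    show f ⟨u, huV⟩ = 0
    rw [hc', hc0, zero_smul]

end Natl

namespace Ctx

theorem LT_conj (hc : Ctx p P V M T) {A : Subgroup G} (_hA : OffMin p P V A) (_hAT : A ≤ T) {t : G}
    (ht : t ∈ T) : conjSub t (LT p P V T A) = LT p P V T (conjSub t A) := by
  have htP := hc.M_le (hc.T_le ht)
  have hle : ∀ x ∈ T, ∀ B : Subgroup G, conjSub x (Qof p P V T B) ≤ Qof p P V T (conjSub x B) := by
    intro x hx B
    rw [conjSub_le_iff]
    refine sSup_le fun X hX => ?_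
    rw [← conjSub_le_iff]
    exact le_sSup ⟨hc.family.conj x (hc.M_le (hc.T_le hx)) X hX.1, conjSub_le_of_mem hx hX.2.1,
      fun e => hX.2.2 (Subgroup.map_injective (MulAut.conj x).injective e)⟩
  have hQ : conjSub t (Qof p P V T A) = Qof p P V T (conjSub t A) := by
    refine le_antisymm (hle t ht A) ?_
    have h1 := hle t⁻¹ (T.inv_mem ht) (conjSub t A)
    rw [conjSub_conjSub, inv_mul_cancel, conjSub_one, conjSub_le_iff, inv_inv] at h1
    exact h1
  rw [LT, hc.conj_Lof htP, hQ]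

theorem le_Qof {A B : Subgroup G} (hB : OffMin p P V B) (hBT : B ≤ T) (hne : B ≠ A) :
    B ≤ Qof p P V T A := le_sSup ⟨hB, hBT, hne⟩

theorem comm_LT_member (hc : Ctx p P V M T) {A B : Subgroup G} (hA : OffMin p P V A) (hAT : A ≤ T)
    (hB : OffMin p P V B) (hBT : B ≤ T) (hne : B ≠ A) :
    (∀ x ∈ LT p P V T A, ∀ b ∈ B, x * b = b * x) ∧
      ⁅V, B⁆ ≤ fix V (LT p P V T A) ∧ ⁅V, LT p P V T A⁆ ≤ fix V B := by
  obtain ⟨hQ, -, hL⟩ := hc.member_setup hA hAT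
  have hBQ := le_Qof hB hBT hne
  refine ⟨fun x hx b hb => ?_, commutator_le_of_cm fun b hb v hv => hL.cm_Q_mem hc hQ (hBQ hb) hv,
    commutator_le_of_cm fun x hx v hv => fix_anti hBQ (hL.cm_L_mem hc hQ hx hv)⟩
  exact Subgroup.mem_centralizer_iff.1 (hL.Q_centralized hc hQ (hBQ hb)) x hx

/-- For `|A| > 2` the natural modules over different members of `T` are independent. -/
theorem large_fix (hc : Ctx p P V M T) {A B : Subgroup G} (hA : OffMin p P V A) (hAT : A ≤ T)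
    (hB : OffMin p P V B) (hBT : B ≤ T) (hne : A ≠ B) (hq : 2 < Nat.card A) :
    ⁅V, LT p P V T A⁆ ≤ fix V (LT p P V T B) := by
  haveI := hc.comm
  obtain ⟨hQ, hcr, hL⟩ := hc.member_setup hA hAT
  obtain ⟨hQ', hcr', hL'⟩ := hc.member_setup hB hBT
  obtain ⟨hcen, hBfix, hLW⟩ := hc.comm_LT_member hA hAT hB hBT hne.symm
  obtain ⟨-, hAfix, -⟩ := hc.comm_LT_member hB hBT hA hAT hne
  obtain ⟨g, hg, hgM, k, hk, hkA, hkB, hkfix⟩ := hL.exists_torus hc hA hq
  set L := LT p P V T A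
  set L' := LT p P V T B
  have hkQ' : k ∈ Subgroup.normalizer (Qof p P V T B : Set G) := by
    refine mem_normalizer_iff_conjSub.2 (Subgroup.eq_of_le_of_card_ge ?_ (card_conjSub _ _).ge)
    rw [conjSub_le_iff]
    refine sSup_le fun X hX => ?_
    rw [← conjSub_le_iff]
    refine le_of_eq_of_le ?_ (le_sSup hX)
    by_cases hXA : X = A
    · rw [hXA, hkA]
    · refine conjSub_eq_self fun x hx => ?_
      rw [(hc.comm_LT_member hA hAT hX.1 hX.2.1 hXA).1 k hk x hx, mul_inv_cancel_right]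
      exact hx
  have hkfix' : ∀ c ∈ fix V L', k * c * k⁻¹ ∈ fix V L' := by
    intro c hc'
    have h1 := fix_conjSub (A := L') (hc.P_norm (hL.le hk))
    rw [mem_normalizer_iff_conjSub.1 (hc.normalizer_Lof (hL.le hk) hkQ')] at h1
    rw [h1]
    exact conj_mem_conjSub hc'
  set B₁ := conjSub g A with hB₁
  set N := ⁅V, B₁⁆
  have hB₁L : B₁ ≤ L := conjSub_le_of_mem hg hL.A_le
  have hNL : N ≤ ⁅V, L⁆ := Subgroup.commutator_mono le_rfl hB₁L
  have hNV : N ≤ V := hNL.trans hL.comm_le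
  have hcmW : ∀ u ∈ N, u ∈ conjSub g (fix V A) := by
    refine commutator_le_of_cm fun b hb v hv => ?_
    rw [hB₁, mem_conjSub] at hb
    have h1 := hc.cm_mem_fix hA hb (hc.conj_memV' (hL.le hg) hv)
    rw [mem_conjSub, show g⁻¹ * cm b v * g = cm (g⁻¹ * b * g) (g⁻¹ * v * g) by simp only [cm]; group]
    exact h1
  have hkN : ∀ u ∈ N, k * u * k⁻¹ ∈ N := by
    intro u hu
    have h1 : conjSub k N ≤ N := by
      show N.map (MulAut.conj k).toMonoidHom ≤ N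
      rw [Subgroup.map_commutator]
      refine Subgroup.commutator_mono ?_ (le_of_eq hkB)
      intro v hv
      rw [← conjSub, mem_conjSub] at hv
      have := hc.conj_memV (hL.le hk) hv
      rwa [show k * (k⁻¹ * v * k) * k⁻¹ = v by group] at this
    exact h1 (conj_mem_conjSub hu)
  have hkN' : ∀ u ∈ N, cm k u ∈ fix V L' := by
    intro u hu
    have huW : u ∈ fix V B := hLW (hNL hu)
    rw [hL'.W_eq] at huW
    obtain ⟨t, ht, c, hc', rfl⟩ :=
      exists_mul_of_mem_sup ((commutator_le_of_cm fun b hb v hv => hc.cm_memV (hB.1 hb) hv :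
        ⁅V, B⁆ ≤ V)) inf_le_left huW
    have htfix := hBfix ht
    rw [cm_mul_right (V := V) htfix.1 hc'.1 (hc.cm_memV (hL.le hk) hc'.1),
      (mem_fix_cm.1 htfix).2 k hk, one_mul]
    exact mul_mem (hkfix' c hc') (inv_mem hc')
  have hNfix : N ≤ fix V L' := by
    let φ : ↥N →* ↥N := MonoidHom.mk' (fun u => ⟨cm k u, mul_mem (hkN u u.2) (inv_mem u.2)⟩) fun u w =>
      Subtype.ext (cm_mul_right (V := V) (hNV u.2) (hNV w.2) (hc.cm_memV (hL.le hk) (hNV w.2)))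
    set I := φ.range.map N.subtype
    have hIV : I ≤ V := (Subgroup.map_subtype_le _).trans hNV
    have hIfix : I ≤ fix V L' := by
      rintro _ ⟨_, ⟨u, rfl⟩, rfl⟩
      exact hkN' u u.2
    set Φ := N ⊓ fix V L
    have hIΦ : I ⊓ Φ = ⊥ := by
      rw [eq_bot_iff]
      rintro x ⟨⟨y, ⟨u, rfl⟩, rfl⟩, -, hx⟩
      rw [Subgroup.mem_bot]
      show cm k (u : G) = 1
      exact (mem_fix_cm.1 (hkfix u (hcmW u u.2) hx)).2 k hk
    have hker : Nat.card φ.ker ≤ Nat.card Φ :=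
      Nat.card_le_card_of_injective (fun u => (⟨(u : ↥N), (u : ↥N).2, hkfix _ (hcmW _ (u : ↥N).2)
        (by rw [show cm k ((u : ↥N) : G) = 1 from congrArg Subtype.val u.2]; exact one_mem _)⟩ : Φ))
        fun u w e => Subtype.ext (Subtype.ext (congrArg Subtype.val e :))
    have h1 := φ.ker.card_mul_index
    rw [Subgroup.index_ker] at h1
    have hIcard : Nat.card I = Nat.card φ.range :=
      (Nat.card_congr (φ.range.equivMapOfInjective _ N.subtype_injective).toEquiv).symm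
    have hsup : I ⊔ Φ = N := by
      refine Subgroup.eq_of_le_of_card_ge (sup_le (Subgroup.map_subtype_le _) inf_le_left) ?_
      have h2 := card_sup_mul_inf (normalizes_of_comm (V := V) (A := I) (B := Φ) hIV
        (inf_le_right.trans inf_le_left))
      rw [hIΦ, Subgroup.card_bot, mul_one, hIcard] at h2
      rw [h2, ← h1, mul_comm (Nat.card φ.range)]
      exact Nat.mul_le_mul_right _ hker
    have hΦ : Φ ≤ fix V L' := by
      intro u hu
      refine hAfix ?_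
      have h2 : g⁻¹ * u * g⁻¹⁻¹ = u := hL.conj_fix (L.inv_mem hg) hu.2
      rw [inv_inv] at h2
      have h3 : conjSub g⁻¹ N ≤ ⁅V, A⁆ := by
        show N.map (MulAut.conj g⁻¹).toMonoidHom ≤ _
        rw [Subgroup.map_commutator]
        refine Subgroup.commutator_mono ?_ ?_
        · intro v hv
          rw [← conjSub, mem_conjSub, inv_inv] at hv
          have := hc.conj_memV' (hL.le hg) hv
          rwa [show g⁻¹ * (g * v * g⁻¹) * g = v by group] at this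
        · rw [← conjSub, hB₁, conjSub_conjSub, inv_mul_cancel, conjSub_one]
      have h4 := h3 (conj_mem_conjSub (x := g⁻¹) hu.1)
      rwa [inv_inv, h2] at h4
    rw [← hsup]
    exact sup_le hIfix hΦ
  refine commutator_le_of_cm fun x hx v hv => ?_
  have hx' : x ∈ A ⊔ conjSub g A := (hL.gen hg hgM).ge hx
  refine cm_mem_of_mem_sup (fun a ha u hu => ?_) (fun b hb u hu => ?_)
    (fun a ha => hAfix (cm_mem_commutator ha hv)) (fun b hb => hNfix (cm_mem_commutator hb hv)) hx'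
  · exact conj_mem_of_cm hu (hAfix (cm_mem_commutator ha hu.1))
  · exact conj_mem_of_cm hu (hNfix (cm_mem_commutator hb hu.1))

end Ctx

end CfsgLib.MinParFF
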