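import Cfsg.Agent.MinParFF.Tools
import Cfsg.Agent.Eq.Def_BaumannBlocks

/-!
Passing statements about a normal subgroup `V` of `G` and the group `G / C_G(V)` acting on it back to `G`.
-/

set_option autoImplicit false
set_option linter.style.haveILetI false
set_option linter.unusedSectionVars false

open Cfsg
open scoped commutatorElement

namespace CfsgLib.MinParFF

variable {G X : Type*} [Group G] [Finite G] [Group X] (V : Subgroup G) (ι : ↥V →* X) (π : G →* X)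

/-- The pair `(ι, π)` is compatible with conjugation. -/
structure Compat : Prop where
  inj : Function.Injective ι
  conj : ∀ (g : G) (v : ↥V), ∃ w : ↥V, (w : G) = g * v * g⁻¹ ∧ π g * ι v * (π g)⁻¹ = ι w

namespace Compat

variable {V ι π} (h : Compat V ι π)
include h

theorem conj_eq (g : G) {v w : ↥V} (hw : (w : G) = g * v * g⁻¹) :
    π g * ι v * (π g)⁻¹ = ι w := by
  obtain ⟨w', hw', h1⟩ := h.conj g v
  rwa [Subtype.ext (hw.trans hw'.symm)]

theorem conj_mem {g x : G} (hx : x ∈ V) : g * x * g⁻¹ ∈ V := by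
  obtain ⟨w, hw, -⟩ := h.conj g ⟨x, hx⟩
  exact hw ▸ w.2

theorem commute_iff (g : G) (v : ↥V) : π g * ι v = ι v * π g ↔ g * (v : G) = (v : G) * g := by
  obtain ⟨w, hw, h1⟩ := h.conj g v
  rw [← mul_inv_eq_iff_eq_mul, h1, h.inj.eq_iff, ← mul_inv_eq_iff_eq_mul, ← hw]
  exact ⟨congrArg Subtype.val, Subtype.ext⟩

theorem mem_centralizer_iff (v : ↥V) {H : Subgroup X} (hH : H ≤ π.range) :
    ι v ∈ Subgroup.centralizer (H : Set X) ↔
      (v : G) ∈ Subgroup.centralizer ((H.comap π : Subgroup G) : Set G) := by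
  simp only [Subgroup.mem_centralizer_iff, SetLike.mem_coe]
  constructor
  · exact fun h1 g hg => (h.commute_iff g v).1 (h1 _ hg)
  · intro h1 y hy
    obtain ⟨g, rfl⟩ := hH hy
    exact (h.commute_iff g v).2 (h1 g hy)

theorem comm_le {H : Subgroup X} : ⁅V, H.comap π⁆ ≤ V := by
  rw [Subgroup.commutator_le]
  intro v hv g _
  rw [commutatorElement_def, show v * g * v⁻¹ * g⁻¹ = v * (g * v⁻¹ * g⁻¹) by group]
  exact V.mul_mem hv (h.conj_mem (V.inv_mem hv))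

theorem comm_map (H : Subgroup X) (hH : H ≤ π.range) :
    ⁅ι.range, H⁆ = ((⁅V, H.comap π⁆).subgroupOf V).map ι := by
  have key : ∀ (v : ↥V) (g : G), ∃ w : ↥V, (w : G) = ⁅(v : G), g⁆ ∧ ι w = ⁅ι v, π g⁆ := by
    intro v g
    obtain ⟨w, hw, h1⟩ := h.conj g v⁻¹
    refine ⟨v * w, ?_, ?_⟩
    · rw [commutatorElement_def, Subgroup.coe_mul, hw, Subgroup.coe_inv]; group
    · rw [map_mul, ← h1, map_inv, commutatorElement_def]; group
  refine le_antisymm ?_ ?_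
  · rw [Subgroup.commutator_le]
    rintro _ ⟨v, rfl⟩ y hy
    obtain ⟨g, rfl⟩ := hH hy
    obtain ⟨w, hw, h1⟩ := key v g
    exact ⟨w, by
      rw [SetLike.mem_coe, Subgroup.mem_subgroupOf, hw]
      exact Subgroup.commutator_mem_commutator v.2 hy, h1⟩
  · have hle : ⁅V, H.comap π⁆ ≤ ((⁅ι.range, H⁆).comap ι).map V.subtype := by
      rw [Subgroup.commutator_le]
      intro v hv g hg
      obtain ⟨w, hw, h1⟩ := key ⟨v, hv⟩ g
      refine ⟨w, ?_, hw⟩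
      rw [SetLike.mem_coe, Subgroup.mem_comap, h1]
      exact Subgroup.commutator_mem_commutator ⟨_, rfl⟩ hg
    rintro _ ⟨u, hu, rfl⟩
    obtain ⟨w, hw, hwu⟩ := hle hu
    rwa [← Subtype.ext hwu]

theorem mem_comm_iff {H : Subgroup X} (hH : H ≤ π.range) (v : ↥V) :
    ι v ∈ ⁅ι.range, H⁆ ↔ (v : G) ∈ ⁅V, H.comap π⁆ := by
  rw [h.comm_map H hH, Subgroup.mem_map_iff_mem h.inj, Subgroup.mem_subgroupOf]

theorem actsSL2 {F : Type*} [Field F] {H : Subgroup X} (hH : H ≤ π.range)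
    (hact : ActsAsSL2OnSection F ⊤ H ⁅ι.range, H⁆
      (⁅ι.range, H⁆ ⊓ Subgroup.centralizer (H : Set X))) :
    ActsAsSL2OnSection F ⊤ (H.comap π) ⁅V, H.comap π⁆
      (⁅V, H.comap π⁆ ⊓ Subgroup.centralizer ((H.comap π : Subgroup G) : Set G)) := by
  obtain ⟨hN, -, ρ, ψ, hρ, hψ, hker, heq⟩ := hact
  set U := ⁅V, H.comap π⁆ with hU
  let j : ↥U →* ↥(⁅ι.range, H⁆) := (ι.comp (Subgroup.inclusion h.comm_le)).codRestrict _
    fun u => (h.mem_comm_iff hH _).2 u.2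
  let k : ↥(H.comap π) →* ↥H := (π.comp (H.comap π).subtype).codRestrict H fun g => g.2
  have hconj : ∀ g ∈ H.comap π, ∀ u : G, u ∈ U → g * u * g⁻¹ ∈ U := by
    intro g hg u hu
    obtain ⟨w, hw, h1⟩ := h.conj g ⟨u, h.comm_le hu⟩
    rw [← hw, hU, ← h.mem_comm_iff hH, ← h1]
    exact (Subgroup.mem_normalizer_iff.1 (hN hg) _).1 ((h.mem_comm_iff hH _).2 hu)
  refine ⟨le_normalizer_of_conj fun g hg u hu => hconj g hg u hu, inf_le_left, ρ.comp k, ψ.comp j, ?_, ?_, fun u => ?_,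
    fun g u => ?_⟩
  · rw [MonoidHom.range_eq_top]
    refine (MonoidHom.range_eq_top.1 hρ).comp fun y => ?_
    obtain ⟨g, hg⟩ := hH y.2
    exact ⟨⟨g, show π g ∈ H from hg ▸ y.2⟩, Subtype.ext hg⟩
  · refine hψ.comp fun y => ?_
    obtain ⟨v, hv⟩ : ∃ v : ↥V, ι v = y := by
      have h1 := y.2
      simp only [h.comm_map H hH] at h1
      obtain ⟨v, -, hv⟩ := h1
      exact ⟨v, hv⟩
    exact ⟨⟨v, (h.mem_comm_iff hH v).1 (hv ▸ y.2)⟩, Subtype.ext hv⟩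
  · show ψ (j u) = 1 ↔ _
    rw [hker]
    exact ⟨fun h1 => ⟨u.2, (h.mem_centralizer_iff _ hH).1 h1.2⟩,
      fun h1 => ⟨(j u).2, (h.mem_centralizer_iff _ hH).2 h1.2⟩⟩
  · obtain ⟨w, hw, h1⟩ := heq (k g) (j u)
    refine ⟨⟨(g : G) * u * (g : G)⁻¹, hconj g g.2 u u.2⟩, rfl, ?_⟩
    have hjw : j ⟨(g : G) * u * (g : G)⁻¹, hconj g g.2 u u.2⟩ = w := Subtype.ext <|
      (h.conj_eq (g : G) (v := Subgroup.inclusion h.comm_le u)
        (w := Subgroup.inclusion h.comm_le ⟨(g : G) * u * (g : G)⁻¹, hconj g g.2 u u.2⟩) rfl).symm.trans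
        hw.symm
    show Multiplicative.toAdd (ψ (j _)) = _
    rw [hjw]
    exact h1

theorem actsPerm {n : ℕ} {H : Subgroup X} (hH : H ≤ π.range)
    (hact : ActsAsOddPermModuleOnSection n ⊤ H ⁅ι.range, H⁆
      (⁅ι.range, H⁆ ⊓ Subgroup.centralizer (H : Set X))) :
    ActsAsOddPermModuleOnSection n ⊤ (H.comap π) ⁅V, H.comap π⁆
      (⁅V, H.comap π⁆ ⊓ Subgroup.centralizer ((H.comap π : Subgroup G) : Set G)) := by
  obtain ⟨hN, -, ρ, ψ, hρ, hsum, hsurj, hker, heq⟩ := hact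
  set U := ⁅V, H.comap π⁆ with hU
  let j : ↥U →* ↥(⁅ι.range, H⁆) := (ι.comp (Subgroup.inclusion h.comm_le)).codRestrict _
    fun u => (h.mem_comm_iff hH _).2 u.2
  let k : ↥(H.comap π) →* ↥H := (π.comp (H.comap π).subtype).codRestrict H fun g => g.2
  have hconj : ∀ g ∈ H.comap π, ∀ u : G, u ∈ U → g * u * g⁻¹ ∈ U := by
    intro g hg u hu
    obtain ⟨w, hw, h1⟩ := h.conj g ⟨u, h.comm_le hu⟩
    rw [← hw, hU, ← h.mem_comm_iff hH, ← h1]
    exact (Subgroup.mem_normalizer_iff.1 (hN hg) _).1 ((h.mem_comm_iff hH _).2 hu)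
  refine ⟨le_normalizer_of_conj fun g hg u hu => hconj g hg u hu, inf_le_left, ρ.comp k, ψ.comp j,
    ?_, fun u => hsum (j u), fun v hv => ?_, fun u => ?_, fun g u => ?_⟩
  · rw [MonoidHom.range_eq_top]
    refine (MonoidHom.range_eq_top.1 hρ).comp fun y => ?_
    obtain ⟨g, hg⟩ := hH y.2
    exact ⟨⟨g, show π g ∈ H from hg ▸ y.2⟩, Subtype.ext hg⟩
  · obtain ⟨y, hy⟩ := hsurj v hv
    obtain ⟨x, hx⟩ : ∃ x : ↥V, ι x = y := by
      have h1 := y.2
      simp only [h.comm_map H hH] at h1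
      obtain ⟨x, -, hx⟩ := h1
      exact ⟨x, hx⟩
    refine ⟨⟨x, (h.mem_comm_iff hH x).1 (hx ▸ y.2)⟩, ?_⟩
    show Multiplicative.toAdd (ψ (j _)) = v
    rw [show j ⟨x, (h.mem_comm_iff hH x).1 (hx ▸ y.2)⟩ = y from Subtype.ext hx]
    exact hy
  · show ψ (j u) = 1 ↔ _
    rw [hker]
    exact ⟨fun h1 => ⟨u.2, (h.mem_centralizer_iff _ hH).1 h1.2⟩,
      fun h1 => ⟨(j u).2, (h.mem_centralizer_iff _ hH).2 h1.2⟩⟩
  · obtain ⟨w, hw, h1⟩ := heq (k g) (j u)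
    refine ⟨⟨(g : G) * u * (g : G)⁻¹, hconj g g.2 u u.2⟩, rfl, ?_⟩
    have hjw : j ⟨(g : G) * u * (g : G)⁻¹, hconj g g.2 u u.2⟩ = w := Subtype.ext <|
      (h.conj_eq (g : G) (v := Subgroup.inclusion h.comm_le u)
        (w := Subgroup.inclusion h.comm_le ⟨(g : G) * u * (g : G)⁻¹, hconj g g.2 u u.2⟩) rfl).symm.trans
        hw.symm
    intro i
    show Multiplicative.toAdd (ψ (j _)) i = _
    rw [hjw]
    exact h1 i

end Compat

end CfsgLib.MinParFF
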