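import Cfsg.Agent.MinParFF.OffenderSpan
import Cfsg.Agent.MinParFF.Transfer
import Cfsg.Agent.MinParFF.Setup
import Cfsg.Agent.Constrained.Basic
import Cfsg.Agent.PGroup.Omega
import Cfsg.Agent.Eq.Def_BaumannBlocks
import Mathlib.GroupTheory.SemidirectProduct

/-!
The local `C**(G,T)`-theorem for minimal parabolic groups.
-/

set_option autoImplicit false
set_option linter.style.haveILetI false
set_option linter.unusedSectionVars false

open Cfsg
open scoped commutatorElement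

namespace CfsgLib.MinParFF

variable {G : Type*} [Group G] [Finite G] {p : ℕ} [hp : Fact p.Prime]

theorem map_coatom {H : Type*} [Group H] (f : G →* H) (hf : Function.Surjective f) {M : Subgroup G}
    (hM : IsCoatom M) (hker : f.ker ≤ M) : IsCoatom (M.map f) := by
  refine ⟨fun h => hM.1 ?_, fun K hK => ?_⟩
  · rw [← Subgroup.comap_map_eq_self hker, h, Subgroup.comap_top]
  · have h1 : M < K.comap f := by
      rw [← Subgroup.comap_map_eq_self hker]
      exact (Subgroup.comap_lt_comap_of_surjective hf).2 hK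
    exact Subgroup.comap_injective hf ((hM.2 _ h1).trans (Subgroup.comap_top f).symm)

theorem omegaOneCenter_normal (X : Subgroup G) [X.Normal] : (omegaOneCenter p X).Normal := by
  haveI : (Subgroup.centralizer (X : Set G)).Normal := inferInstance
  haveI : (X ⊓ Subgroup.centralizer (X : Set G)).Normal := inferInstance
  exact CfsgLib.PGroup.omegaOne_normal

theorem mem_omegaOneCenter_iff {X : Subgroup G} {z : G} :
    z ∈ omegaOneCenter p X ↔ (z ∈ X ∧ z ∈ Subgroup.centralizer (X : Set G)) ∧ z ^ p = 1 := by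
  refine ⟨fun h => ?_, fun h => CfsgLib.PGroup.mem_omegaOne ⟨h.1.1, h.1.2⟩ h.2⟩
  induction h using Subgroup.closure_induction with
  | mem x hx => exact hx
  | one => exact ⟨⟨one_mem _, one_mem _⟩, one_pow p⟩
  | mul a b _ _ ha hb =>
    refine ⟨⟨mul_mem ha.1.1 hb.1.1, mul_mem ha.1.2 hb.1.2⟩, ?_⟩
    have hab : Commute a b := Subgroup.mem_centralizer_iff.1 hb.1.2 a ha.1.1
    rw [hab.mul_pow, ha.2, hb.2, one_mul]
  | inv a _ ha => exact ⟨⟨inv_mem ha.1.1, inv_mem ha.1.2⟩, by rw [inv_pow, ha.2, inv_one]⟩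

/-- The local `C**(G,T)`-theorem for minimal parabolic groups. -/
theorem local_cStarStar (hmin : Cfsg.IsPMinimal p G)
    (hG : Subgroup.centralizer (Cfsg.pCore p G : Set G) ≤ Cfsg.pCore p G) (T : Sylow p G)
    (hne : Cfsg.cStarStarOf p (T : Subgroup G) ≠ ⊤) :
    ∃ (r : ℕ) (E : Fin r → Subgroup G),
      (∀ i, Subgroup.centralizer (Cfsg.omegaOneCenter p (Cfsg.pCore p G) : Set G) ≤ E i) ∧
      Cfsg.thompsonSubgroup p G ⊔ (T : Subgroup G) ⊔
        Subgroup.centralizer (Cfsg.omegaOneCenter p (Cfsg.pCore p G) : Set G) = ⊤ ∧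
      (⨆ i, E i) = Cfsg.thompsonSubgroup p G ⊔
        Subgroup.centralizer (Cfsg.omegaOneCenter p (Cfsg.pCore p G) : Set G) ∧
      (∀ i j, i ≠ j → ⁅E i, E j⁆ ≤ Subgroup.centralizer (Cfsg.omegaOneCenter p (Cfsg.pCore p G) : Set G)) ∧
      (∀ i, E i ⊓ (⨆ j ∈ {j | j ≠ i}, E j) ≤
        Subgroup.centralizer (Cfsg.omegaOneCenter p (Cfsg.pCore p G) : Set G)) ∧
      (∀ i j, ∃ t ∈ (T : Subgroup G), (E i).map (MulAut.conj t).toMonoidHom = E j) ∧
      (Cfsg.omegaOneCenter p (Cfsg.pCore p G) ⊓ Subgroup.centralizer ((⨆ i, E i : Subgroup G) : Set G)) ⊔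
        (⨆ i, ⁅Cfsg.omegaOneCenter p (Cfsg.pCore p G), E i⁆) = Cfsg.omegaOneCenter p (Cfsg.pCore p G) ∧
      (∀ i j, i ≠ j → ⁅⁅Cfsg.omegaOneCenter p (Cfsg.pCore p G), E i⁆, E j⁆ = ⊥) ∧
      ∀ i, ∃ n : ℕ, 1 ≤ n ∧
        ((∃ (F : Type) (_ : Field F) (_ : Fintype F), Fintype.card F = p ^ n ∧
          (∃ _ : ((Subgroup.centralizer (Cfsg.omegaOneCenter p (Cfsg.pCore p G) : Set G)).subgroupOf (E i)).Normal,
            Nonempty (↥(E i) ⧸ (Subgroup.centralizer (Cfsg.omegaOneCenter p (Cfsg.pCore p G) : Set G)).subgroupOf (E i)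
              ≃* Matrix.SpecialLinearGroup (Fin 2) F)) ∧
          Cfsg.ActsAsSL2OnSection F ⊤ (E i) ⁅Cfsg.omegaOneCenter p (Cfsg.pCore p G), E i⁆
            (⁅Cfsg.omegaOneCenter p (Cfsg.pCore p G), E i⁆ ⊓ Subgroup.centralizer ((E i : Subgroup G) : Set G))) ∨
        (p = 2 ∧
          (∃ _ : ((Subgroup.centralizer (Cfsg.omegaOneCenter p (Cfsg.pCore p G) : Set G)).subgroupOf (E i)).Normal,
            Nonempty (↥(E i) ⧸ (Subgroup.centralizer (Cfsg.omegaOneCenter p (Cfsg.pCore p G) : Set G)).subgroupOf (E i)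
              ≃* Equiv.Perm (Fin (2 ^ n + 1)))) ∧
          Cfsg.ActsAsOddPermModuleOnSection (2 ^ n + 1) ⊤ (E i) ⁅Cfsg.omegaOneCenter p (Cfsg.pCore p G), E i⁆
            (⁅Cfsg.omegaOneCenter p (Cfsg.pCore p G), E i⁆ ⊓ Subgroup.centralizer ((E i : Subgroup G) : Set G)))) := by
  classical
  haveI : (pCore p G).Normal := CfsgLib.Constrained.instNormalPCore p
  haveI hVn : (omegaOneCenter p (pCore p G)).Normal := omegaOneCenter_normal _
  set V := omegaOneCenter p (pCore p G) with hV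
  haveI hCn : (Subgroup.centralizer (V : Set G)).Normal := inferInstance
  set C := Subgroup.centralizer (V : Set G) with hC
  have hOT : pCore p G ≤ (T : Subgroup G) := pCore_le_sylow T
  have hVO : V ≤ pCore p G := fun v hv => (mem_omegaOneCenter_iff.1 hv).1.1
  have hOC : pCore p G ≤ C := fun x hx => Subgroup.mem_centralizer_iff.2 fun v hv =>
    (Subgroup.mem_centralizer_iff.1 (mem_omegaOneCenter_iff.1 hv).1.2 x hx).symm
  have hVel : IsElementaryAbelian p V := CfsgLib.LocalP.isElementaryAbelian_iff.2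
    ⟨fun x hx y hy => Subgroup.mem_centralizer_iff.1 (mem_omegaOneCenter_iff.1 hy).1.2 x (hVO hx),
      fun a ha => (mem_omegaOneCenter_iff.1 ha).2⟩
  have hZV : omegaOneCenter p (T : Subgroup G) ≤ V := by
    intro z hz
    obtain ⟨⟨-, hzc⟩, hzp⟩ := mem_omegaOneCenter_iff.1 hz
    have hzc' : z ∈ Subgroup.centralizer (pCore p G : Set G) := Subgroup.centralizer_le hOT hzc
    exact mem_omegaOneCenter_iff.2 ⟨⟨hG hzc', hzc'⟩, hzp⟩
  -- the maximal subgroup over `T`
  obtain ⟨M, ⟨hM, hTM⟩, hMuniq⟩ := (hmin T).2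
  have hup : ∀ K : Subgroup G, (T : Subgroup G) ≤ K → K ≠ ⊤ → K ≤ M := fun K hTK hK => by
    obtain ⟨M', hM', hle⟩ := (eq_top_or_exists_le_coatom K).resolve_left hK
    rwa [← hMuniq M' ⟨hM', hTK.trans hle⟩]
  have hTN : (T : Subgroup G) ≤ Subgroup.normalizer (thompsonSubgroupOf p (T : Subgroup G) : Set G) :=
    Subgroup.le_normalizer.trans (CfsgLib.LocalP.le_normalizer_thompsonSubgroupOf _)
  have hCS : cStarStarOf p (T : Subgroup G) ≤ M := hup _ (hTN.trans le_sup_right) hne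
  have hCM : C ≤ M := le_trans (le_trans (Subgroup.centralizer_le hZV) le_sup_left) hCS
  have hJC : ¬ thompsonSubgroupOf p (T : Subgroup G) ≤ C := by
    intro hle
    obtain ⟨S₀, hS₀⟩ := CfsgLib.NormalCent.sylow_inf_normal T C
    have h1 := Sylow.normalizer_sup_eq_top S₀
    rw [hS₀] at h1
    refine hM.1 (top_le_iff.1 (h1.ge.trans (sup_le ?_ hCM)))
    refine (CfsgLib.LocalP.le_normalizer_thompsonSubgroupOf (p := p) _).trans ?_
    rw [CfsgLib.LocalP.thompsonSubgroupOf_eq_of_le inf_le_left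
      (le_inf (CfsgLib.LocalP.thompsonSubgroupOf_le _) hle)]
    exact le_sup_right.trans hCS
  -- the group acting on `V`
  have hkerC : ∀ g : G, g ∈ C ↔ (MulAut.conjNormal g : MulAut ↥V) = 1 := fun g => by
    rw [hC, Subgroup.mem_centralizer_iff, MulEquiv.ext_iff]
    constructor
    · intro h1 v
      refine Subtype.ext ?_
      rw [MulAut.conjNormal_apply, MulAut.one_apply, mul_inv_eq_iff_eq_mul]
      exact (h1 v v.2).symm
    · intro h1 v hv
      have h2 := congrArg Subtype.val (h1 ⟨v, hv⟩)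
      rw [MulAut.conjNormal_apply, MulAut.one_apply, mul_inv_eq_iff_eq_mul] at h2
      exact h2.symm
  let φ : G ⧸ C →* MulAut ↥V := QuotientGroup.lift C MulAut.conjNormal
    (fun g hg => MonoidHom.mem_ker.2 ((hkerC g).1 hg))
  haveI : Finite (↥V ⋊[φ] (G ⧸ C)) := Finite.of_equiv _ SemidirectProduct.equivProd.symm
  let ι : ↥V →* ↥V ⋊[φ] (G ⧸ C) := SemidirectProduct.inl
  let π : G →* ↥V ⋊[φ] (G ⧸ C) := SemidirectProduct.inr.comp (QuotientGroup.mk' C)
  have hι : Function.Injective ι := SemidirectProduct.inl_injective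
  have hπ : π.ker = C := by
    ext g
    show SemidirectProduct.inr (QuotientGroup.mk' C g) = 1 ↔ g ∈ C
    rw [map_eq_one_iff _ SemidirectProduct.inr_injective, QuotientGroup.mk'_apply,
      QuotientGroup.eq_one_iff]
  have hmemC : ∀ g : G, g ∈ C ↔ π g = 1 := fun g => by
    rw [← MonoidHom.mem_ker]
    exact (SetLike.ext_iff.1 hπ g).symm
  have hc : Compat V ι π := ⟨hι, fun g v => ⟨MulAut.conjNormal g v, MulAut.conjNormal_apply g v, by
    show SemidirectProduct.inr (QuotientGroup.mk' C g) * SemidirectProduct.inl v *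
      (SemidirectProduct.inr (QuotientGroup.mk' C g))⁻¹ = SemidirectProduct.inl (MulAut.conjNormal g v)
    rw [← map_inv, ← SemidirectProduct.inl_aut]
    rfl⟩⟩
  set V' := ι.range with hV'
  set P := π.range with hP
  have hV'el : IsElementaryAbelian p V' := by
    have h1 := CfsgLib.LocalP.isElementaryAbelian_map ι (p := p) (A := (⊤ : Subgroup ↥V))
      (CfsgLib.LocalP.isElementaryAbelian_iff.2
        ⟨fun x _ y _ => Subtype.ext ((CfsgLib.LocalP.isElementaryAbelian_iff.1 hVel).1 _ x.2 _ y.2),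
          fun a _ => Subtype.ext (by simpa using hVel.2 a a.2)⟩)
    rwa [← MonoidHom.range_eq_map] at h1
  have hPV : P ≤ Subgroup.normalizer (V' : Set (↥V ⋊[φ] (G ⧸ C))) := by
    refine le_normalizer_of_conj ?_
    rintro _ ⟨g, rfl⟩ _ ⟨v, rfl⟩
    obtain ⟨w, -, h1⟩ := hc.conj g v
    exact ⟨w, h1.symm⟩
  have hfaith : P ⊓ Subgroup.centralizer (V' : Set (↥V ⋊[φ] (G ⧸ C))) = ⊥ := by
    rw [eq_bot_iff]
    rintro _ ⟨⟨g, rfl⟩, hy⟩
    have hg : g ∈ C := Subgroup.mem_centralizer_iff.2 fun v hv =>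
      ((hc.commute_iff g ⟨v, hv⟩).1 (Subgroup.mem_centralizer_iff.1 hy _ ⟨_, rfl⟩).symm).symm
    rw [← hπ, MonoidHom.mem_ker] at hg
    exact Subgroup.mem_bot.2 hg
  -- the image is a minimal parabolic
  let f : G →* ↥P := π.rangeRestrict
  have hf : Function.Surjective f := π.rangeRestrict_surjective
  have hfk : f.ker = C := by rw [MonoidHom.ker_rangeRestrict, hπ]
  have hTnn : ¬ ((T.mapSurjective hf : Sylow p ↥P) : Subgroup ↥P).Normal := by
    rw [Sylow.coe_mapSurjective]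
    intro hn
    haveI : ((T : Subgroup G) ⊔ C).Normal := by
      have h1 := hn.comap f
      rwa [Subgroup.comap_map_eq, hfk] at h1
    have h2 := Sylow.normalizer_sup_eq_top' (N := (T : Subgroup G) ⊔ C) T le_sup_left
    refine hne (top_le_iff.1 (h2.ge.trans (sup_le ?_ (sup_le (hTN.trans le_sup_right) ?_))))
    · exact (CfsgLib.LocalP.le_normalizer_thompsonSubgroupOf _).trans le_sup_right
    · exact (Subgroup.centralizer_le hZV).trans le_sup_left
  have hmin' : IsPMinimal p ↥P := by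
    intro S
    obtain ⟨S₀, rfl⟩ := Sylow.mapSurjective_surjective hf p S
    have hnn : ¬ ((S₀.mapSurjective hf : Sylow p ↥P) : Subgroup ↥P).Normal := by
      intro hn
      haveI := Sylow.unique_of_normal (S₀.mapSurjective hf) hn
      exact hTnn (Subsingleton.elim (T.mapSurjective hf) (S₀.mapSurjective hf) ▸ hn)
    refine ⟨hnn, ?_⟩
    obtain ⟨M₀, ⟨hM₀, hSM₀⟩, hu⟩ := (hmin S₀).2
    rw [Sylow.coe_mapSurjective] at hnn ⊢
    have hCM₀ : f.ker ≤ M₀ := by
      have hne' : (S₀ : Subgroup G) ⊔ f.ker ≠ ⊤ := fun h0 => hnn (by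
        rw [Subgroup.map_eq_map_iff.2 (show (S₀ : Subgroup G) ⊔ f.ker = ⊤ ⊔ f.ker by
          rw [h0, top_sup_eq]), Subgroup.map_top_of_surjective f hf]
        infer_instance)
      obtain ⟨M', hM', hle⟩ := (eq_top_or_exists_le_coatom _).resolve_left hne'
      rw [← hu M' ⟨hM', le_sup_left.trans hle⟩]
      exact le_sup_right.trans hle
    refine ⟨M₀.map f, ⟨map_coatom f hf hM₀ hCM₀, Subgroup.map_mono hSM₀⟩, ?_⟩
    rintro K ⟨hK, hSK⟩
    have hne' : K.comap f ≠ ⊤ := fun h0 => hK.1 (Subgroup.comap_injective hf (h0.trans (Subgroup.comap_top f).symm))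
    obtain ⟨M', hM', hle⟩ := (eq_top_or_exists_le_coatom _).resolve_left hne'
    have hM'₀ := hu M' ⟨hM', (Subgroup.map_le_iff_le_comap.1 hSK).trans hle⟩
    rw [hM'₀] at hle
    have hKle : K ≤ M₀.map f := by
      rw [← Subgroup.map_comap_eq_self_of_surjective hf K]
      exact Subgroup.map_mono hle
    exact ((hK.le_iff.1 hKle).resolve_left (map_coatom f hf hM₀ hCM₀).1).symm
  set T' := T.mapSurjective hf with hT'
  set T₀ := ((T' : Sylow p ↥P) : Subgroup ↥P).map P.subtype with hT₀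
  have hT₀eq : T₀ = (T : Subgroup G).map π := by
    rw [hT₀, hT', Sylow.coe_mapSurjective, Subgroup.map_map]
    rfl
  have hMc : IsCoatom (M.map f) := map_coatom f hf hM (hfk.le.trans hCM)
  have hTM' : ((T' : Sylow p ↥P) : Subgroup ↥P) ≤ M.map f := by
    rw [hT', Sylow.coe_mapSurjective]; exact Subgroup.map_mono hTM
  have hOp : pCore p ↥P = ⊥ := by
    set Y := pCore p ↥P with hY
    haveI : Y.Normal := CfsgLib.Constrained.instNormalPCore p
    haveI : (Y.comap f).Normal := inferInstance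
    have hYT : Y ≤ (T : Subgroup G).map f := by
      rw [← Sylow.coe_mapSurjective hf T]; exact pCore_le_sylow _
    obtain ⟨S₀, hS₀⟩ := CfsgLib.NormalCent.sylow_inf_normal T (Y.comap f)
    have h1 := Sylow.normalizer_sup_eq_top S₀
    rw [hS₀] at h1
    set D := (T : Subgroup G) ⊓ Y.comap f with hD
    have hXle : Y.comap f ≤ C ⊔ D := by
      intro x hx
      obtain ⟨t, ht, htx⟩ := hYT hx
      have htD : t ∈ D := ⟨ht, show f t ∈ Y by rw [htx]; exact hx⟩
      have hcx : x * t⁻¹ ∈ C := by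
        rw [← hfk, MonoidHom.mem_ker, map_mul, map_inv, htx, mul_inv_cancel]
      simpa using Subgroup.mul_mem_sup hcx htD
    have hnM : ¬ Subgroup.normalizer (D : Set G) ≤ M := fun hle => hM.1 (top_le_iff.1
      (h1.ge.trans (sup_le hle (hXle.trans (sup_le hCM (inf_le_left.trans hTM))))))
    have hTD : (T : Subgroup G) ≤ Subgroup.normalizer (D : Set G) :=
      le_normalizer_of_conj fun t ht d hd =>
        ⟨(T : Subgroup G).mul_mem ((T : Subgroup G).mul_mem ht hd.1) ((T : Subgroup G).inv_mem ht),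
          (inferInstance : (Y.comap f).Normal).conj_mem d hd.2 t⟩
    have htop : Subgroup.normalizer (D : Set G) = ⊤ :=
      by_contra fun h => hnM (hup _ hTD h)
    haveI : D.Normal := Subgroup.normalizer_eq_top_iff.1 htop
    have hDC : D ≤ C :=
      (CfsgLib.Constrained.le_pCore inferInstance (T.isPGroup'.to_le inf_le_left)).trans hOC
    rw [eq_bot_iff]
    intro y hy
    obtain ⟨x, rfl⟩ := hf y
    have hx : x ∈ C := (hXle.trans (sup_le le_rfl hDC)) hy
    rw [← hfk, MonoidHom.mem_ker] at hx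
    exact Subgroup.mem_bot.2 hx
  have hCT : P ⊓ Subgroup.centralizer ((fix V' T₀ : Subgroup _) : Set (↥V ⋊[φ] (G ⧸ C))) ≤
      (M.map f).map P.subtype := by
    rintro _ ⟨⟨g, rfl⟩, hy⟩
    refine ⟨f g, Subgroup.mem_map_of_mem f (hCS ((le_sup_left : _ ≤ cStarStarOf p (T : Subgroup G))
      (Subgroup.mem_centralizer_iff.2 fun z hz => ?_))), rfl⟩
    have hzfix : ι ⟨z, hZV hz⟩ ∈ fix V' T₀ := by
      refine mem_inf_centralizer.2 ⟨⟨_, rfl⟩, ?_⟩
      rw [hT₀eq]
      rintro _ ⟨t, ht, rfl⟩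
      exact (hc.commute_iff t ⟨z, hZV hz⟩).2
        (Subgroup.mem_centralizer_iff.1 (mem_omegaOneCenter_iff.1 hz).1.2 t ht)
    exact ((hc.commute_iff g ⟨z, hZV hz⟩).1 (Subgroup.mem_centralizer_iff.1 hy _ hzfix).symm).symm
  obtain ⟨hctx, hmax⟩ := ctx_of_pMinimal V' P hV'el hPV hfaith hmin' T' (M.map f) hMc hTM' hOp hCT
  -- elementary abelian subgroups of largest order give offenders
  have hoff : ∀ A ∈ maxElementaryAbelianSubgroups p G,
      IsElementaryAbelian p (A.map π) ∧ A.map π ≤ P ∧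
        Nat.card V' ≤ Nat.card ↥(A.map π) * Nat.card ↥(fix V' (A.map π)) := by
    intro A hA
    refine ⟨CfsgLib.LocalP.isElementaryAbelian_map π hA.1, Subgroup.map_le_range π A, ?_⟩
    have hcV : ∀ x ∈ A ⊓ C, ∀ v ∈ V, x * v = v * x := fun x hx v hv =>
      (Subgroup.mem_centralizer_iff.1 hx.2 v hv).symm
    have h1 : Nat.card ↥((A ⊓ C) ⊔ V) ≤ Nat.card A := hA.2 _
      (CfsgLib.LocalP.isElementaryAbelian_sup
        (CfsgLib.LocalP.isElementaryAbelian_mono hA.1 inf_le_left) hVel hcV)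
    have h2 := CfsgLib.LocalP.card_mul_le_card_sup_mul_card_inf (A ⊓ C) V
    let j : ↥(A ⊓ C ⊓ V) → ↥(fix V' (A.map π)) := fun v => ⟨ι ⟨v, v.2.2⟩,
      mem_inf_centralizer.2 ⟨⟨_, rfl⟩, by
        rintro _ ⟨a, ha, rfl⟩
        exact (hc.commute_iff a ⟨v, v.2.2⟩).2
          ((CfsgLib.LocalP.isElementaryAbelian_iff.1 hA.1).1 a ha v v.2.1.1)⟩⟩
    have hj : Function.Injective j := fun a b hab =>
      Subtype.ext (congrArg (fun w : ↥V => (w : G)) (hι (congrArg Subtype.val hab)) :)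
    have h4 : Nat.card A = Nat.card ↥(A.map π) * Nat.card ↥(A ⊓ C) := by
      have e1 : (π.subgroupMap A).ker = C.subgroupOf A := by
        ext x
        rw [MonoidHom.mem_ker, Subgroup.mem_subgroupOf, hmemC, Subtype.ext_iff]
        rfl
      have e3 : Nat.card ↥(C.subgroupOf A) = Nat.card ↥(A ⊓ C) := by
        rw [← Subgroup.card_map_of_injective (f := A.subtype) A.subtype_injective,
          Subgroup.subgroupOf_map_subtype, inf_comm]
      have e2 := (π.subgroupMap A).ker.card_mul_index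
      rw [Subgroup.index_ker, MonoidHom.range_eq_top.2 (π.subgroupMap_surjective A),
        Subgroup.card_top, e1, e3] at e2
      rw [← e2, mul_comm]
    have hV'card : Nat.card V' = Nat.card V :=
      (Nat.card_congr (MonoidHom.ofInjective hι).toEquiv).symm
    rw [hV'card]
    refine Nat.le_of_mul_le_mul_left ?_ (Nat.card_pos (α := ↥(A ⊓ C)))
    calc Nat.card ↥(A ⊓ C) * Nat.card V
        ≤ Nat.card ↥((A ⊓ C) ⊔ V) * Nat.card ↥(A ⊓ C ⊓ V) := h2
      _ ≤ Nat.card A * Nat.card ↥(fix V' (A.map π)) :=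
          Nat.mul_le_mul h1 (Nat.card_le_card_of_injective j hj)
      _ = _ := by rw [h4]; ring
  obtain ⟨A₀, hA₀, hA₀C⟩ : ∃ A ∈ maxElementaryAbelianSubgroups p G, ¬ A ≤ C := by
    rw [CfsgLib.LocalP.thompsonSubgroupOf_eq_sSup, sSup_le_iff] at hJC
    push Not at hJC
    obtain ⟨A, hA, hAC⟩ := hJC
    refine ⟨A, ⟨hA.2.1, fun B hB => ?_⟩, hAC⟩
    obtain ⟨S', hS'⟩ := (CfsgLib.LocalP.isPGroup_of_isElementaryAbelian hB).exists_le_sylow
    obtain ⟨g, hg⟩ := MulAction.exists_smul_eq G S' T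
    rw [← card_conjSub g B]
    refine hA.2.2 _ ?_ (isElementaryAbelian_conjSub hB)
    rw [← hg, Sylow.coe_subgroup_smul]
    intro x hx
    rw [mem_conjSub] at hx
    rw [Subgroup.mem_pointwise_smul_iff_inv_smul_mem]
    simpa [MulAut.smul_def] using hS' hx
  have hA₀ne : A₀.map π ≠ ⊥ := fun h0 => hA₀C (hπ ▸ (Subgroup.map_eq_bot_iff A₀).1 h0)
  obtain ⟨hA₀el, hA₀P, hA₀b⟩ := hoff A₀ hA₀
  obtain ⟨D, hDA, hD⟩ := hctx.exists_minOff_le hA₀P hA₀el hA₀ne hA₀b
  obtain ⟨g₀, hg₀, hg₀D⟩ := hctx.sylP D hD.1 (isPGroup_of_el hD.2.1)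
  obtain ⟨r, E, hr, hEP, hspan, hcomm, hdisj, hgen, hconjE, hVdec, hVE, hmod⟩ :=
    hctx.structure_offSpan hmax (hctx.family.conj g₀ hg₀ D hD) hg₀D
  -- the image of `J(G)`
  have hJmap : (thompsonSubgroup p G).map π = offSpan p P V' := by
    refine le_antisymm ?_ (hctx.offSpan_le ?_ hD
      (hDA.trans (Subgroup.map_mono (CfsgLib.LocalP.le_thompsonSubgroup hA₀))))
    · rw [thompsonSubgroup, Subgroup.map_le_iff_le_comap, sSup_le_iff]
      intro A hA
      obtain ⟨h1, h2, h3⟩ := hoff A hA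
      exact Subgroup.map_le_iff_le_comap.1 (hctx.offender_le_offSpan h2 h1 h3)
    · haveI := CfsgLib.LocalP.thompsonSubgroup_characteristic (p := p) (G := G)
      refine le_normalizer_of_conj ?_
      rintro _ ⟨g, rfl⟩ _ ⟨x, hx, rfl⟩
      exact ⟨g * x * g⁻¹, (inferInstance : (thompsonSubgroup p G).Normal).conj_mem x hx g, by simp⟩
  have heq : ∀ {H K : Subgroup G}, C ≤ H → C ≤ K → H.map π = K.map π → H = K := by
    intro H K hH hK he
    rw [← Subgroup.comap_map_eq_self (hπ.le.trans hH), he, Subgroup.comap_map_eq_self (hπ.le.trans hK)]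
  have hCmap : C.map π = ⊥ := (Subgroup.map_eq_bot_iff C).2 hπ.ge
  set E' : Fin r → Subgroup G := fun i => (E i).comap π with hE'
  have hCE : ∀ i, C ≤ E' i := fun i x hx => by
    show π x ∈ E i
    rw [(hmemC x).1 hx]
    exact one_mem _
  have hmapE : ∀ i, (E' i).map π = E i := fun i => Subgroup.map_comap_eq_self (hEP i)
  haveI : Nonempty (Fin r) := ⟨⟨0, hr⟩⟩
  have hsupmap : (⨆ i, E' i).map π = ⨆ i, E i := by simp_rw [Subgroup.map_iSup, hmapE]
  have hsupC : C ≤ ⨆ i, E' i := (hCE ⟨0, hr⟩).trans (le_iSup E' _)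
  have hsupP : (⨆ i, E i) ≤ P := iSup_le hEP
  have hsupeq : (⨆ i, E' i) = (⨆ i, E i).comap π := heq hsupC
    (fun x hx => by
      rw [Subgroup.mem_comap, (hmemC x).1 hx]; exact one_mem _)
    (by rw [hsupmap, Subgroup.map_comap_eq_self hsupP])
  refine ⟨r, E', hCE, ?_, ?_, fun i j hij => ?_, fun i => ?_, fun i j => ?_, ?_, fun i j hij => ?_,
    fun i => ?_⟩
  · refine heq le_sup_right le_top ?_
    rw [Subgroup.map_sup, Subgroup.map_sup, hJmap, ← hspan, ← hT₀eq, hCmap, sup_bot_eq, hgen,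
      ← MonoidHom.range_eq_map]
  · refine heq hsupC le_sup_right ?_
    rw [hsupmap, Subgroup.map_sup, hJmap, hCmap, sup_bot_eq, hspan]
  · rw [← hπ, ← Subgroup.map_eq_bot_iff, Subgroup.map_commutator, hmapE, hmapE]
    exact hcomm i j hij
  · rw [← hπ, ← Subgroup.map_eq_bot_iff, eq_bot_iff]
    refine (Subgroup.map_inf_le _ _ _).trans ?_
    simp_rw [Subgroup.map_iSup, hmapE]
    exact (hdisj i).le
  · obtain ⟨t', ht', he⟩ := hconjE i j
    rw [← hT₀, hT₀eq] at ht'
    obtain ⟨t, ht, rfl⟩ := ht'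
    refine ⟨t, ht, heq ?_ (hCE j) ?_⟩
    · intro x hx
      exact ⟨t⁻¹ * x * t, hCE i (by simpa using hCn.conj_mem x hx t⁻¹), by simp [mul_assoc]⟩
    · rw [hmapE, ← he, Subgroup.map_map, ← hmapE i, Subgroup.map_map]
      congr 1
      refine MonoidHom.ext fun x => ?_
      show π (t * x * t⁻¹) = π t * π x * (π t)⁻¹
      rw [map_mul, map_mul, map_inv]
  · refine le_antisymm (sup_le inf_le_left (iSup_le fun i => hc.comm_le)) fun v hv => ?_
    set W := (V ⊓ Subgroup.centralizer ((⨆ i, E' i : Subgroup G) : Set G)) ⊔ ⨆ i, ⁅V, E' i⁆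
    have hle : (V' ⊓ Subgroup.centralizer ((⨆ i, E i : Subgroup _) : Set (↥V ⋊[φ] (G ⧸ C)))) ⊔
        (⨆ i, ⁅V', E i⁆) ≤ (W.subgroupOf V).map ι := by
      refine sup_le ?_ (iSup_le fun i => ?_)
      · rintro _ ⟨⟨u, rfl⟩, hu⟩
        refine Subgroup.mem_map_of_mem ι ?_
        rw [Subgroup.mem_subgroupOf]
        refine Subgroup.mem_sup_left ⟨u.2, ?_⟩
        rw [hsupeq]
        exact (hc.mem_centralizer_iff u hsupP).1 hu
      · rw [hc.comm_map _ (hEP i)]
        refine Subgroup.map_mono fun u hu => ?_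
        rw [Subgroup.mem_subgroupOf] at hu ⊢
        exact Subgroup.mem_sup_right (le_iSup (fun k => ⁅V, E' k⁆) i hu)
    have h1 : ι ⟨v, hv⟩ ∈ (W.subgroupOf V).map ι := hle (hVdec.ge ⟨⟨v, hv⟩, rfl⟩)
    rwa [Subgroup.mem_map_iff_mem hι, Subgroup.mem_subgroupOf] at h1
  · rw [Subgroup.commutator_eq_bot_iff_le_centralizer]
    intro u hu
    have hui := (hc.mem_comm_iff (hEP i) ⟨u, hc.comm_le hu⟩).2 hu
    exact (hc.mem_centralizer_iff _ (hEP j)).1
      ((Subgroup.commutator_eq_bot_iff_le_centralizer.1 (hVE i j hij)) hui)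
  · obtain ⟨n, hn, hor⟩ := hmod i
    haveI hnor : (C.subgroupOf (E' i)).Normal := inferInstance
    have hq : Nonempty (↥(E' i) ⧸ C.subgroupOf (E' i) ≃* ↥(E i)) := by
      let k : ↥(E' i) →* ↥(E i) := (π.comp (E' i).subtype).codRestrict (E i) fun g => g.2
      have hk : Function.Surjective k := fun y => by
        obtain ⟨g, hg⟩ := hEP i y.2
        exact ⟨⟨g, show π g ∈ E i from hg ▸ y.2⟩, Subtype.ext hg⟩
      have hkk : k.ker = C.subgroupOf (E' i) := by
        ext x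
        rw [MonoidHom.mem_ker, Subgroup.mem_subgroupOf, hmemC, Subtype.ext_iff]
        rfl
      exact ⟨(QuotientGroup.quotientMulEquivOfEq hkk.symm).trans
        (QuotientGroup.quotientKerEquivOfSurjective k hk)⟩
    obtain ⟨e⟩ := hq
    refine ⟨n, hn, ?_⟩
    rcases hor with ⟨F, i1, i2, hcard, ⟨e'⟩, hact⟩ | ⟨hp2, ⟨e'⟩, hact⟩
    · exact Or.inl ⟨F, i1, i2, hcard, ⟨hnor, ⟨e.trans e'⟩⟩, hc.actsSL2 (hEP i) hact⟩
    · exact Or.inr ⟨hp2, ⟨hnor, ⟨e.trans e'⟩⟩, hc.actsPerm (hEP i) hact⟩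

end CfsgLib.MinParFF
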