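import Cfsg.Agent.MinParFF.Blocks
import Cfsg.Agent.MinParFF.Setup
import Cfsg.Agent.Eq.Def_PLocal
import Cfsg.Prelude.Def_PLocal

/-!
`p`-minimal groups with offenders.
-/

set_option autoImplicit false
set_option linter.style.haveILetI false
set_option linter.unusedSectionVars false

open Cfsg

namespace CfsgLib.MinParFF

variable {G : Type*} [Group G] [Finite G] {p : ℕ} [hp : Fact p.Prime]

theorem ctx_of_pMinimal (V P : Subgroup G) (hV : IsElementaryAbelian p V)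
    (hPV : P ≤ Subgroup.normalizer (V : Set G)) (hfaith : P ⊓ Subgroup.centralizer (V : Set G) = ⊥)
    (hmin : IsPMinimal p ↥P) (T : Sylow p ↥P) (M : Subgroup ↥P) (hM : IsCoatom M)
    (hTM : (T : Subgroup ↥P) ≤ M) (hOp : Cfsg.pCore p ↥P = ⊥)
    (hCT : P ⊓ Subgroup.centralizer
      ((fix V ((T : Subgroup ↥P).map P.subtype) : Subgroup G) : Set G) ≤ M.map P.subtype) :
    Ctx p P V (M.map P.subtype) ((T : Subgroup ↥P).map P.subtype) ∧
      ∀ K ≤ P, (T : Subgroup ↥P).map P.subtype ≤ K → ¬ K ≤ M.map P.subtype → K = P := by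
  set T₀ := (T : Subgroup ↥P).map P.subtype with hT₀
  set M₀ := M.map P.subtype with hM₀
  have hTp : IsPGroup p T₀ := T.isPGroup'.map _
  have hTP : T₀ ≤ P := Subgroup.map_subtype_le _
  have hMP : M₀ ≤ P := Subgroup.map_subtype_le _
  have hTM₀ : T₀ ≤ M₀ := Subgroup.map_mono hTM
  have hmax : ∀ K ≤ P, T₀ ≤ K → ¬ K ≤ M₀ → K = P := by
    intro K hKP hTK hKM
    rcases eq_top_or_exists_le_coatom (K.subgroupOf P) with h | ⟨M', hM', hle⟩
    · exact le_antisymm hKP (Subgroup.subgroupOf_eq_top.1 h)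
    exfalso
    have hTM' : (T : Subgroup ↥P) ≤ M' := fun x hx => hle (show (x : G) ∈ K from hTK ⟨x, hx, rfl⟩)
    obtain ⟨M₁, -, huniq⟩ := (hmin T).2
    have e : M' = M := (huniq M' ⟨hM', hTM'⟩).trans (huniq M ⟨hM, hTM⟩).symm
    exact hKM fun x hx => ⟨⟨x, hKP hx⟩, e ▸ hle (show (⟨x, hKP hx⟩ : P) ∈ K.subgroupOf P from hx), rfl⟩
  have sylP : ∀ Y ≤ P, IsPGroup p Y → ∃ g ∈ P, conjSub g Y ≤ T₀ := by
    intro Y hY hYp
    obtain ⟨S', hS'⟩ := (hYp.of_equiv (Subgroup.subgroupOfEquivOfLe hY).symm).exists_le_sylow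
    obtain ⟨y, hy⟩ := MulAction.exists_smul_eq P S' T
    refine ⟨y, y.2, fun z hz => ?_⟩
    rw [mem_conjSub] at hz
    have h2 : MulAut.conj y • (⟨_, hY hz⟩ : P) ∈ (T : Subgroup P) := by
      rw [← hy, Sylow.coe_subgroup_smul]
      exact Subgroup.smul_mem_pointwise_smul _ _ _ (hS' hz)
    refine ⟨_, h2, ?_⟩
    simp [MulAut.smul_def, mul_assoc]
  have sylM : ∀ Y ≤ M₀, IsPGroup p Y → ∃ m ∈ M₀, conjSub m Y ≤ T₀ := by
    intro Y hY hYp
    obtain ⟨S₁, hS₁, hS₁p, hTS₁, hconj⟩ := exists_sylow_over hTM₀ hTp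
    obtain ⟨g, -, hg⟩ := sylP S₁ (hS₁.trans hMP) hS₁p
    have e : T₀ = S₁ := Subgroup.eq_of_le_of_card_ge hTS₁
      (by rw [← card_conjSub g S₁]; exact Subgroup.card_le_of_le hg)
    exact e ▸ hconj Y hY hYp
  refine ⟨{ V_el := hV
            P_norm := hPV
            faith := hfaith
            T_le := hTM₀
            M_le := hMP
            M_lt := fun hle => hM.1 (eq_top_iff.2 fun x _ => ?_)
            T_p := hTp
            sylP := sylP
            sylM := sylM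
            NJ := fun X hX hX0 hTX => ?_
            moves := fun L hL hLM R _ _ _ _ Y hY hYp => ?_ }, hmax⟩
  · obtain ⟨y, hy, hyx⟩ := hle x.2
    rwa [← P.subtype_injective hyx]
  · by_contra hne
    have he := hmax _ inf_le_left (le_inf hTP hTX) hne
    have hXP : X ≤ P := hX.trans hTP
    have hn : (X.subgroupOf P).Normal := ⟨fun r hr g =>
      (Subgroup.mem_normalizer_iff.1 ((inf_eq_left.1 he) g.2) r).1 hr⟩
    have h1 := CfsgLib.LocalP.le_pCore hn
      ((hTp.to_le hX).of_equiv (Subgroup.subgroupOfEquivOfLe hXP).symm)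
    rw [hOp, le_bot_iff, Subgroup.subgroupOf_eq_bot, disjoint_iff, inf_eq_left.2 hXP] at h1
    exact hX0 h1
  · obtain ⟨m, hm, hle⟩ := sylM Y hY hYp
    by_contra hcon
    push Not at hcon
    refine hLM fun x hx => ?_
    have hmP := hMP hm
    have h1 : m * x * m⁻¹ ∈ M₀ := by
      refine hCT ⟨P.mul_mem (P.mul_mem hmP (hL hx)) (P.inv_mem hmP),
        Subgroup.mem_centralizer_iff.2 fun z hz => ?_⟩
      have hzV : m⁻¹ * z * m ∈ V := (Subgroup.mem_normalizer_iff''.1 (hPV hmP) z).1 hz.1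
      have h2 := hcon (m⁻¹ * z * m) hzV (fun y hy => ?_) x hx
      · calc z * (m * x * m⁻¹) = m * ((m⁻¹ * z * m) * x) * m⁻¹ := by group
          _ = m * (x * (m⁻¹ * z * m)) * m⁻¹ := by rw [h2]
          _ = m * x * m⁻¹ * z := by group
      · have h3 := (mem_inf_centralizer.1 hz).2 _ (hle (conj_mem_conjSub hy))
        calc y * (m⁻¹ * z * m) = m⁻¹ * ((m * y * m⁻¹) * z) * m := by group
          _ = m⁻¹ * (z * (m * y * m⁻¹)) * m := by rw [h3]
          _ = _ := by group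
    simpa [mul_assoc] using M₀.mul_mem (M₀.mul_mem (M₀.inv_mem hm) h1) hm

/-- A best offender gives an inclusion-minimal one in `T`. -/
theorem exists_member {V P M T : Subgroup G} (hc : Ctx p P V M T)
    (hoff : ∃ A : Subgroup G, A ≤ P ∧ ¬ A ≤ Subgroup.centralizer (V : Set G) ∧ IsBestOffenderOn p V A) :
    ∃ A, OffMin p P V A ∧ A ≤ T := by
  obtain ⟨A, hAP, hAne, hbest, hcomm, hpow⟩ := hoff
  have hone : ∀ y ∈ A, y ∈ Subgroup.centralizer (V : Set G) → y = 1 := fun y hy hy' => by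
    have : y ∈ P ⊓ Subgroup.centralizer (V : Set G) := ⟨hAP hy, hy'⟩
    rwa [hc.faith, Subgroup.mem_bot] at this
  have hAel : IsElementaryAbelian p A := by
    refine ⟨⟨⟨fun a b => Subtype.ext ?_⟩⟩, fun a ha => hone _ (A.pow_mem ha p) (hpow a ha)⟩
    have h1 : (a : G) * b * (a : G)⁻¹ * (b : G)⁻¹ = 1 := hone _
      (A.mul_mem (A.mul_mem (A.mul_mem a.2 b.2) (A.inv_mem a.2)) (A.inv_mem b.2))
      (hcomm (Subgroup.commutator_mem_commutator a.2 b.2))
    rw [mul_inv_eq_one, mul_inv_eq_iff_eq_mul] at h1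
    exact h1
  have hA0 : A ≠ ⊥ := fun h => hAne (h ▸ bot_le)
  have hb : Nat.card V ≤ Nat.card A * Nat.card ↥(fix V A) := by
    have h1 := hbest ⊥ bot_le
    have hle : V ≤ fix V (⊥ : Subgroup G) := fun v hv => mem_inf_centralizer.2 ⟨hv, fun a ha => by
      rw [Subgroup.mem_bot] at ha
      rw [ha, one_mul, mul_one]⟩
    rw [Subgroup.card_bot, one_mul] at h1
    exact (Subgroup.card_le_of_le hle).trans h1
  obtain ⟨D, hDA, hD⟩ := hc.exists_minOff_le hAP hAel hA0 hb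
  obtain ⟨g, hg, hle⟩ := hc.sylP D hD.1 (isPGroup_of_el hD.2.1)
  exact ⟨conjSub g D, hc.family.conj g hg D hD, hle⟩

end CfsgLib.MinParFF
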