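import Cfsg.Agent.MinParFF.Product
import Cfsg.Agent.MinParFF.Blocks
import Cfsg.Agent.MinParFF.MinimalParabolic

/-!
Every offender of a minimal parabolic lies in the product of the natural subgroups over the minimal
offenders.
-/

set_option autoImplicit false
set_option linter.style.haveILetI false
set_option linter.unusedSectionVars false

open Cfsg
open scoped commutatorElement

namespace CfsgLib.MinParFF

variable {G : Type*} [Group G] [Finite G] {p : ℕ} [hp : Fact p.Prime] {P V M T : Subgroup G}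

/-- A `p`-element of `M` centralizing the member `A` and normalizing `L` is an element of `A` times
an element centralizing `[V, L]`. -/
theorem Natl.exists_centralizing_part (hc : Ctx p P V M T) {Q A L : Subgroup G}
    (hQ : QMax p P M (OffMin p P V) Q) (hA : Cross M (OffMin p P V) Q A) (h : Natl p P V M Q A L)
    {x : G} (hxM : x ∈ M) (hxp : IsPGroup p (Subgroup.zpowers x))
    (hxA : ∀ a ∈ A, x * a = a * x) (hxL : x ∈ Subgroup.normalizer (L : Set G)) :
    ∃ a ∈ A, x * a⁻¹ ∈ Subgroup.centralizer ((⁅V, L⁆ : Subgroup G) : Set G) := by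
  classical
  haveI := hc.comm
  haveI := hA.mem.2.1.1
  set W := fix V A with hW
  set V₀ := fix V L with hV₀
  have hxP : x ∈ P := hc.M_le hxM
  have hxV : x ∈ Subgroup.normalizer (V : Set G) := hc.P_norm hxP
  have hxAn : x ∈ Subgroup.normalizer (A : Set G) :=
    Subgroup.mem_normalizer_fintype fun a ha => by
      rw [SetLike.mem_coe] at ha ⊢
      rwa [hxA a ha, mul_inv_cancel_right]
  have hxW : x ∈ Subgroup.normalizer (W : Set G) := by
    rw [mem_normalizer_iff_conjSub, ← fix_conjSub hxV, mem_normalizer_iff_conjSub.1 hxAn]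
  have hxV₀ : x ∈ Subgroup.normalizer (V₀ : Set G) := by
    rw [mem_normalizer_iff_conjSub, ← fix_conjSub hxV, mem_normalizer_iff_conjSub.1 hxL]
  have hWV : W ≤ V := inf_le_left
  have hV₀W : V₀ ≤ W := h.V0_le
  have hAP : A ≤ P := hA.mem.1
  have hcmW : ∀ a ∈ A, ∀ v ∈ V, cm a v ∈ W := fun a ha v hv => hc.cm_mem_fix hA.mem ha hv
  have hadd : ∀ a ∈ A, ∀ u ∈ V, ∀ v ∈ V, cm a (u * v) = cm a u * cm a v := fun a ha u hu v hv =>
    cm_mul_right (V := V) hu hv (hc.cm_memV (hAP ha) hv)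
  have hmul : ∀ a ∈ A, ∀ b ∈ A, ∀ v ∈ V, cm (a * b) v = cm b v * cm a v := fun a ha b hb v hv => by
    rw [show cm (a * b) v = a * cm b v * a⁻¹ * cm a v by simp only [cm]; group,
      conj_eq_of_fix (hcmW b hb v hv) ha]
  have hcminv : ∀ a ∈ A, ∀ v ∈ V, cm a⁻¹ v = (cm a v)⁻¹ := fun a ha v hv => by
    have h1 := hmul a ha a⁻¹ (A.inv_mem ha) v hv
    rw [mul_inv_cancel, cm_one_left] at h1
    exact eq_inv_of_mul_eq_one_left h1.symm
  -- `x` commutes with the commutator maps of `A`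
  have hxcm : ∀ a ∈ A, ∀ v : G, x * cm a v * x⁻¹ = cm a (x * v * x⁻¹) := fun a ha v => by
    rw [← cm_conj, hxA a ha, mul_inv_cancel_right]
  -- a vector moved into `W`
  obtain ⟨v₀, hv₀, hv₀W, hxv₀⟩ := exists_fixed_mod (X := Subgroup.zpowers x) (V := V)
    (fun w => ⟨1, Subtype.ext (by simpa using hc.V_el.2 _ w.2)⟩) hWV
    (fun hle => by
      obtain ⟨v, hv, hv'⟩ := h.exists_notMem_W
      exact hv' (hle hv))
    hxp (Subgroup.zpowers_le.2 hxV) (Subgroup.zpowers_le.2 hxW)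
  -- the commutator map at a vector outside `W` covers `W / V₀`
  have hcover : ∀ u ∈ V, u ∉ W → ∀ w ∈ W, ∃ a ∈ A, (cm a u)⁻¹ * w ∈ V₀ := by
    intro u hu huW w hw
    haveI : (V₀.subgroupOf W).Normal := by
      haveI : IsMulCommutative W := ⟨⟨fun a b => Subtype.ext
        (setLike_mul_comm (S := Subgroup G) (s := V) (hWV a.2) (hWV b.2))⟩⟩
      exact Subgroup.normal_of_isMulCommutative _
    let f : A → ↥W ⧸ V₀.subgroupOf W := fun a => QuotientGroup.mk ⟨cm (a : G) u, hcmW a a.2 u hu⟩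
    have hinj : Function.Injective f := by
      intro a b hab
      have h1 := QuotientGroup.eq.1 hab
      rw [Subgroup.mem_subgroupOf] at h1
      push_cast at h1
      have h2 : cm ((a : G)⁻¹ * b) u ∈ V₀ := by
        rw [hmul _ (A.inv_mem a.2) _ b.2 u hu, hcminv _ a.2 u hu,
          setLike_mul_comm (S := Subgroup G) (s := V) (hc.cm_memV (hAP b.2) hu)
            (V.inv_mem (hc.cm_memV (hAP a.2) hu))]
        exact h1
      by_contra hne
      refine huW (h.inj (A.mul_mem (A.inv_mem a.2) b.2) (fun h0 => hne (Subtype.ext ?_)) hu h2)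
      rwa [inv_mul_eq_one] at h0
    have hcard : Nat.card A = Nat.card (↥W ⧸ V₀.subgroupOf W) := by
      have h1 := Subgroup.card_eq_card_quotient_mul_card_subgroup (V₀.subgroupOf W)
      rw [Nat.card_congr (Subgroup.subgroupOfEquivOfLe hV₀W).toEquiv, ← h.card_W] at h1
      exact Nat.eq_of_mul_eq_mul_right Nat.card_pos h1
    obtain ⟨a, ha⟩ := ((Nat.bijective_iff_injective_and_card f).2 ⟨hinj, hcard⟩).2
      (QuotientGroup.mk ⟨w, hw⟩)
    have h1 := QuotientGroup.eq.1 ha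
    rw [Subgroup.mem_subgroupOf] at h1
    push_cast at h1
    exact ⟨a, a.2, h1⟩
  -- `x` acts trivially on `W / V₀`
  have hxWtriv : ∀ w ∈ W, cm x w ∈ V₀ := by
    intro w hw
    obtain ⟨a, ha, hv'⟩ := hcover v₀ hv₀ hv₀W w hw
    have hcV : cm a v₀ ∈ V := hc.cm_memV (hAP ha) hv₀
    have h1 : cm x (cm a v₀) = 1 := by
      rw [cm, hxcm a ha, show x * v₀ * x⁻¹ = cm x v₀ * v₀ by simp [cm],
        hadd a ha _ (hc.cm_memV hxP hv₀) _ hv₀,
        (mem_fix_cm.1 (hxv₀ x (Subgroup.mem_zpowers x))).2 a ha, one_mul, mul_inv_cancel]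
    have h2 : cm x ((cm a v₀)⁻¹ * w) ∈ V₀ :=
      V₀.mul_mem ((Subgroup.mem_normalizer_iff.1 hxV₀ _).1 hv') (V₀.inv_mem hv')
    have hwV : (cm a v₀)⁻¹ * w ∈ V := hv'.1
    have h3 := cm_mul_right (V := V) (x := x) hcV hwV (hc.cm_memV hxP hwV)
    rw [mul_inv_cancel_left, h1, one_mul] at h3
    exact h3 ▸ h2
  -- `x` acts trivially on `V / W`
  have hxVtriv : ∀ v ∈ V, cm x v ∈ W := by
    intro v hv
    obtain ⟨a, ha, ha1⟩ := A.bot_or_exists_ne_one.resolve_left h.min.A_ne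
    refine h.inj ha ha1 (hc.cm_memV hxP hv) ?_
    have h1 : cm x (cm a v) = cm a (cm x v) := by
      rw [cm, hxcm a ha, show x * v * x⁻¹ = cm x v * v by simp [cm],
        hadd a ha _ (hc.cm_memV hxP hv) _ hv, mul_inv_cancel_right]
    exact h1 ▸ hxWtriv _ (hcmW a ha v hv)
  obtain ⟨g, hg, hgM⟩ := h.exists_g
  set A' := conjSub g A with hA'
  have hA'L : A' ≤ L := conjSub_le_of_mem hg h.A_le
  have hW' : fix V A' = conjSub g W := h.fix_conj hg
  obtain ⟨u₀, hu₀, hu₀V₀⟩ : ∃ u ∈ fix V A', u ∉ V₀ := by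
    obtain ⟨w, hw, hw'⟩ := SetLike.not_le_iff_exists.1 h.W_not_le
    refine ⟨g * w * g⁻¹, hW' ▸ conj_mem_conjSub hw, fun hm => hw' ?_⟩
    have h1 := h.conj_fix (L.inv_mem hg) hm
    have h2 : g * w * g⁻¹ = w := by
      refine h1.symm.trans ?_
      group
    rwa [h2] at hm
  have hu₀W : u₀ ∉ W := fun hm => hu₀V₀ ((h.fix_inter hg hgM).le ⟨hm, hW'.le hu₀⟩)
  obtain ⟨a, ha, hau⟩ := hcover u₀ hu₀.1 hu₀W (cm x u₀) (hxVtriv u₀ hu₀.1)
  refine ⟨a, ha, ?_⟩
  set y := x * a⁻¹ with hy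
  have hyM : y ∈ M := M.mul_mem hxM (M.inv_mem (h.A_le_M ha))
  have hyP : y ∈ P := hc.M_le hyM
  have hyA : ∀ b ∈ A, y * b = b * y := fun b hb => by
    rw [hy, mul_assoc, setLike_mul_comm (S := Subgroup G) (s := A) (A.inv_mem ha) hb, ← mul_assoc,
      hxA b hb, mul_assoc]
  have hyL : y ∈ Subgroup.normalizer (L : Set G) :=
    mul_mem hxL (inv_mem (Subgroup.le_normalizer (h.A_le ha)))
  have hcmy : ∀ v : G, cm y v = x * cm a⁻¹ v * x⁻¹ * cm x v := fun v => by
    simp only [hy, cm]; group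
  have hyW : ∀ w ∈ W, cm y w ∈ V₀ := by
    intro w hw
    rw [hcmy, (mem_fix_cm.1 hw).2 a⁻¹ (A.inv_mem ha), mul_one, mul_inv_cancel, one_mul]
    exact hxWtriv w hw
  have hyV : ∀ v ∈ V, cm y v ∈ W := by
    intro v hv
    rw [hcmy]
    exact W.mul_mem ((Subgroup.mem_normalizer_iff.1 hxW _).1 (hcmW _ (A.inv_mem ha) v hv))
      (hxVtriv v hv)
  have hyu₀ : cm y u₀ ∈ V₀ := by
    rw [hcmy, hcminv a ha u₀ hu₀.1]
    have hcV : cm a u₀ ∈ V := hc.cm_memV (hAP ha) hu₀.1
    have h1 : cm x (cm a u₀)⁻¹ ∈ V₀ := hxWtriv _ (W.inv_mem (hcmW a ha u₀ hu₀.1))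
    rw [show x * (cm a u₀)⁻¹ * x⁻¹ * cm x u₀ =
      cm x (cm a u₀)⁻¹ * ((cm a u₀)⁻¹ * cm x u₀) by simp only [cm]; group]
    exact V₀.mul_mem h1 hau
  have hyAn : y ∈ Subgroup.normalizer (A : Set G) :=
    Subgroup.mem_normalizer_fintype fun b hb => by
      rw [SetLike.mem_coe] at hb ⊢
      rwa [hyA b hb, mul_inv_cancel_right]
  -- `y` normalizes `A'`
  have hyA' : y ∈ Subgroup.normalizer (A' : Set G) := by
    set g' := y * g * y⁻¹ with hg'
    have hg'L : g' ∈ L := (Subgroup.mem_normalizer_iff.1 hyL g).1 hg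
    have hyA'eq : conjSub y A' = conjSub g' A := by
      conv_rhs => rw [hg', ← conjSub_conjSub (y * g),
        mem_normalizer_iff_conjSub.1 (inv_mem hyAn)]
      rw [hA', conjSub_conjSub]
    have hu' : u₀ ∈ fix V (conjSub g' A) := by
      have h1 : y * u₀ * y⁻¹ ∈ fix V (conjSub g' A) := by
        rw [← hyA'eq, fix_conjSub (hc.P_norm hyP)]
        exact conj_mem_conjSub hu₀
      have h2 : cm y u₀ ∈ fix V (conjSub g' A) :=
        fix_anti (conjSub_le_of_mem hg'L h.A_le) hyu₀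
      have h3 := mul_mem (inv_mem h2) h1
      rwa [show (cm y u₀)⁻¹ * (y * u₀ * y⁻¹) = u₀ by simp only [cm]; group] at h3
    have hmem : g⁻¹ * g' ∈ M := by
      by_contra hne
      refine hu₀V₀ ?_
      have hgg : g⁻¹ * g' ∈ L := L.mul_mem (L.inv_mem hg) hg'L
      have h1 : g⁻¹ * u₀ * g ∈ W ⊓ conjSub (g⁻¹ * g') W := by
        refine ⟨?_, ?_⟩
        · have h2 := hW' ▸ hu₀
          rwa [mem_conjSub] at h2
        · show g⁻¹ * u₀ * g ∈ conjSub (g⁻¹ * g') W
          rw [mem_conjSub]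
          rw [h.fix_conj hg'L, mem_conjSub] at hu'
          convert hu' using 1
          group
      rw [h.fix_inter hgg hne] at h1
      have h2 := h.conj_fix hg h1
      rw [show g * (g⁻¹ * u₀ * g) * g⁻¹ = u₀ by group] at h2
      rwa [← h2] at h1
    have hk : conjSub (g⁻¹ * g') A = A := by
      have hkL : g⁻¹ * g' ∈ L := L.mul_mem (L.inv_mem hg) hg'L
      refine hc.cross_eq hQ hA ⟨hc.family.conj _ (h.le hkL) A hA.mem,
        conjSub_le_of_mem hmem h.A_le_M, conjSub_le_of_mem (h.norm hkL) hA.norm, fun hle => ?_⟩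
      exact hA.nle fun z hz =>
        (Subgroup.mem_normalizer_iff.1 (h.norm hkL) z).2 (hle (conj_mem_conjSub hz))
    rw [mem_normalizer_iff_conjSub, hyA'eq]
    calc conjSub g' A = conjSub g (conjSub (g⁻¹ * g') A) := by
          rw [conjSub_conjSub, mul_inv_cancel_left]
      _ = A' := by rw [hk]
  -- `y` is trivial on `V / V₀`
  have hytriv : ∀ v ∈ V, cm y v ∈ V₀ := by
    intro v hv
    rw [← h.W_sup hg hgM] at hv
    obtain ⟨w, hw, w', hw', rfl⟩ := exists_mul_of_mem_sup hWV (fun u hu => (hW' ▸ hu).1) hv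
    have hw'' : w' ∈ fix V A' := hW' ▸ hw'
    rw [cm_mul_right (V := V) hw.1 hw''.1 (hc.cm_memV hyP hw''.1)]
    refine V₀.mul_mem (hyW w hw) ?_
    have h1 : cm y w' ∈ fix V A' := by
      refine Subgroup.mul_mem _ ?_ (Subgroup.inv_mem _ hw'')
      have h2 := conj_mem_conjSub (x := y) hw''
      rwa [← fix_conjSub (hc.P_norm hyP), mem_normalizer_iff_conjSub.1 hyA'] at h2
    exact (h.fix_inter hg hgM).le ⟨hyV _ hw''.1, hW'.le h1⟩
  -- `y` commutes with `A'`
  have hycomm : ∀ b ∈ A', y * b = b * y := by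
    intro b hb
    have hbL : b ∈ L := hA'L hb
    set c := y * b * y⁻¹ * b⁻¹ with hcdef
    have hcA' : c ∈ A' :=
      A'.mul_mem ((Subgroup.mem_normalizer_iff.1 hyA' b).1 hb) (A'.inv_mem hb)
    have htriv : ∀ v ∈ V, cm c v ∈ V₀ := by
      intro v hv
      set u₁ := b⁻¹ * v * b with hu₁
      have hu₁V : u₁ ∈ V := hc.conj_memV' (h.le hbL) hv
      set z := y⁻¹ * u₁ * y with hz
      have hzV : z ∈ V := hc.conj_memV' hyP hu₁V
      set r := b * z * b⁻¹ with hr
      have hrV : r ∈ V := hc.conj_memV (h.le hbL) hzV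
      have e : cm c v = cm y r * (b * (cm y z)⁻¹ * b⁻¹) := by
        simp only [hcdef, hu₁, hz, hr, cm]; group
      rw [e, h.conj_fix hbL (V₀.inv_mem (hytriv z hzV))]
      exact V₀.mul_mem (hytriv r hrV) (V₀.inv_mem (hytriv z hzV))
    suffices c = 1 by rwa [hcdef, mul_inv_eq_one, mul_inv_eq_iff_eq_mul] at this
    by_contra hc1
    obtain ⟨v, hv, hvW⟩ := h.exists_notMem_W
    rw [hA', mem_conjSub] at hcA'
    refine hvW (h.inj hcA' (fun h0 => hc1 ?_) hv ?_)
    · calc c = g * (g⁻¹ * c * g) * g⁻¹ := by group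
        _ = 1 := by rw [h0, mul_one, mul_inv_cancel]
    · have h1 := htriv _ (hc.conj_memV (h.le hg) hv)
      have h2 := h.conj_fix (L.inv_mem hg) h1
      rw [inv_inv] at h2
      have h3 : cm (g⁻¹ * c * g) v = g⁻¹ * cm c (g * v * g⁻¹) * g := by simp only [cm]; group
      rw [h3, h2]
      exact h1
  have hyL' : ∀ e ∈ L, y * e = e * y := by
    intro e he
    have hle : A ⊔ A' ≤ Subgroup.centralizer ({y} : Set G) := sup_le
      (fun b hb => Subgroup.mem_centralizer_singleton_iff.2 (hyA b hb).symm)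
      (fun b hb => Subgroup.mem_centralizer_singleton_iff.2 (hycomm b hb).symm)
    rw [h.gen hg hgM] at hle
    exact (Subgroup.mem_centralizer_singleton_iff.1 (hle he)).symm
  have hfin : (⁅V, L⁆ : Subgroup G) ≤ Subgroup.centralizer ({y} : Set G) := by
    refine commutator_le_of_cm fun e he v hv => ?_
    rw [Subgroup.mem_centralizer_singleton_iff]
    have h1 : y * cm e v * y⁻¹ = cm e v := by
      rw [← cm_conj, hyL' e he, mul_inv_cancel_right, show y * v * y⁻¹ = cm y v * v by simp [cm],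
        cm_mul_right (V := V) (hc.cm_memV hyP hv) hv (hc.cm_memV (h.le he) hv),
        (mem_fix_cm.1 (hytriv v hv)).2 e he, one_mul]
    exact (mul_inv_eq_iff_eq_mul.1 h1).symm
  exact Subgroup.mem_centralizer_iff.2 fun u hu =>
    Subgroup.mem_centralizer_singleton_iff.1 (hfin hu)

/-- The subgroup generated by all minimal offenders. -/
def offSpan (p : ℕ) (P V : Subgroup G) : Subgroup G := sSup {X | OffMin p P V X}

namespace Ctx

/-- An offender in `T` lies in every subgroup containing the members in `T`. -/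
theorem offender_le (hc : Ctx p P V M T) {N : Subgroup G}
    (hN : ∀ Y, OffMin p P V Y → Y ≤ T → Y ≤ N) {X : Subgroup G} (hXT : X ≤ T)
    (hX : IsElementaryAbelian p X) (hb : Nat.card V ≤ Nat.card X * Nat.card ↥(fix V X)) : X ≤ N := by
  induction hn : Nat.card X using Nat.strong_induction_on generalizing X with
  | _ n ih =>
  subst hn
  haveI := hc.comm
  haveI := hX.1
  by_cases hX0 : X = ⊥
  · exact hX0 ▸ bot_le
  have hTP : T ≤ P := hc.T_le.trans hc.M_le
  obtain ⟨D, hDX, hD⟩ := hc.exists_minOff_le (hXT.trans hTP) hX hX0 hb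
  have hDT : D ≤ T := hDX.trans hXT
  obtain ⟨hQ, hcr, hL⟩ := hc.member_setup hD hDT
  set L := LT p P V T D with hLdef
  set U := (⁅V, L⁆ : Subgroup G) with hUdef
  set X' := X ⊓ Subgroup.centralizer (U : Set G) with hX'
  have hUV : U ≤ V := le_sup_left.trans hL.comm_sup.le
  have hsplit : X ≤ X' ⊔ D := by
    intro x hx
    have hxA : ∀ a ∈ D, x * a = a * x := fun a ha => setLike_mul_comm hx (hDX ha)
    have hxD : conjSub x D = D := conjSub_eq_self fun a ha => by rwa [hxA a ha, mul_inv_cancel_right]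
    obtain ⟨a, ha, hy⟩ := hL.exists_centralizing_part hc hQ hcr (hc.T_le (hXT hx))
      (hc.T_p.to_le (Subgroup.zpowers_le.2 (hXT hx))) hxA
      (mem_normalizer_iff_conjSub.2 ((hc.LT_conj hD hDT (hXT hx)).trans (congrArg _ hxD)))
    rw [show x = x * a⁻¹ * a by rw [inv_mul_cancel_right]]
    exact Subgroup.mul_mem_sup ⟨X.mul_mem hx (X.inv_mem (hDX ha)), hy⟩ ha
  have hnot : ¬ D ≤ Subgroup.centralizer (U : Set G) := by
    intro hle
    refine hD.2.2.1 ((Subgroup.eq_bot_iff_forall _).2 fun d hd => hc.eq_one (hD.1 hd) fun v hv => ?_)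
    rw [← hL.comm_sup] at hv
    obtain ⟨u, hu, w, hw, rfl⟩ := exists_mul_of_mem_sup hUV inf_le_left hv
    rw [cm_mul_right (V := V) (hUV hu) hw.1 (hc.cm_memV (hD.1 hd) hw.1),
      (mem_fix_cm.1 (hL.V0_le hw)).2 d hd, mul_one, cm_eq_one_iff]
    exact (Subgroup.mem_centralizer_iff.1 (hle hd) u hu).symm
  have hlt : Nat.card X' < Nat.card X := by
    refine lt_of_le_of_ne (Subgroup.card_le_of_le inf_le_left) fun he => hnot ?_
    have h1 : X' = X := Subgroup.eq_of_le_of_card_ge inf_le_left he.ge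
    exact hDX.trans (h1.ge.trans inf_le_right)
  have hb' : Nat.card V ≤ Nat.card X' * Nat.card ↥(fix V X') := by
    refine hb.trans ?_
    have hnorm : ∀ {A B : Subgroup G}, A ≤ V → B ≤ V → B ≤ Subgroup.normalizer (A : Set G) :=
      fun hA hB => normalizes_of_comm hA hB
    have hDn : D ≤ Subgroup.normalizer (X' : Set G) := fun d hd =>
      Subgroup.mem_normalizer_fintype fun y hy => by
        rw [SetLike.mem_coe] at hy ⊢
        rwa [setLike_mul_comm (hDX hd) hy.1, mul_inv_cancel_right]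
    have h1 : Nat.card X ≤ Nat.card X' * Nat.card D :=
      (Subgroup.card_le_of_le hsplit).trans ((Nat.le_mul_of_pos_right _ Nat.card_pos).trans
        (card_sup_mul_inf hDn).le)
    have h2 : fix V X ⊔ U ≤ fix V X' := sup_le (fix_anti inf_le_left)
      (le_inf hUV ((Subgroup.le_centralizer_iff).1 inf_le_right))
    have hW : fix V D ⊔ U = V := le_antisymm (sup_le inf_le_left hUV)
      (hL.comm_sup.ge.trans (sup_le le_sup_right ((hL.V0_le).trans le_sup_left)))
    have h3 := card_sup_mul_inf (hnorm (A := fix V D) inf_le_left hUV)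
    rw [hW, hL.card_V] at h3
    have h4 := card_sup_mul_inf (hnorm (A := fix V X) inf_le_left hUV)
    have h5 : Nat.card ↥(fix V X ⊓ U) ≤ Nat.card ↥(fix V D ⊓ U) :=
      Subgroup.card_le_of_le (inf_le_inf_right U (fix_anti hDX))
    -- `|U| = |D| |C_U(D)|`
    have h6 : Nat.card D * Nat.card ↥(fix V D ⊓ U) = Nat.card U := by
      refine Nat.eq_of_mul_eq_mul_left (Nat.card_pos (α := ↥(fix V D))) ?_
      rw [← h3]; ring
    have h7 : Nat.card D * Nat.card ↥(fix V X) ≤ Nat.card ↥(fix V X') := by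
      refine le_trans ?_ (Subgroup.card_le_of_le h2)
      refine Nat.le_of_mul_le_mul_right ?_ (Nat.card_pos (α := ↥(fix V X ⊓ U)))
      rw [h4, ← h6]
      calc Nat.card D * Nat.card ↥(fix V X) * Nat.card ↥(fix V X ⊓ U)
          ≤ Nat.card D * Nat.card ↥(fix V X) * Nat.card ↥(fix V D ⊓ U) :=
            Nat.mul_le_mul_left _ h5
        _ = _ := by ring
    calc Nat.card X * Nat.card ↥(fix V X)
        ≤ Nat.card X' * Nat.card D * Nat.card ↥(fix V X) := Nat.mul_le_mul_right _ h1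
      _ = Nat.card X' * (Nat.card D * Nat.card ↥(fix V X)) := by ring
      _ ≤ _ := Nat.mul_le_mul_left _ h7
  exact hsplit.trans (sup_le
    (ih _ hlt (inf_le_left.trans hXT) (el_mono hX inf_le_left) hb' rfl) (hN D hD hDT))

theorem offSpan_le_P (_hc : Ctx p P V M T) : offSpan p P V ≤ P := sSup_le fun _ h => h.1

theorem P_normalizes_offSpan (hc : Ctx p P V M T) :
    P ≤ Subgroup.normalizer (offSpan p P V : Set G) := by
  intro g hg
  rw [mem_normalizer_iff_conjSub]
  refine Subgroup.eq_of_le_of_card_ge ?_ (card_conjSub g _).ge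
  rw [conjSub_le_iff]
  refine sSup_le fun X hX => ?_
  rw [← conjSub_le_iff]
  exact le_sSup (hc.family.conj g hg X hX)

/-- Every offender lies in the span of the minimal offenders. -/
theorem offender_le_offSpan (hc : Ctx p P V M T) {X : Subgroup G} (hXP : X ≤ P)
    (hX : IsElementaryAbelian p X) (hb : Nat.card V ≤ Nat.card X * Nat.card ↥(fix V X)) :
    X ≤ offSpan p P V := by
  obtain ⟨g, hg, hle⟩ := hc.sylP X hXP (isPGroup_of_el hX)
  have h1 := hc.offender_le (N := offSpan p P V) (fun Y hY _ => le_sSup hY) hle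
    (isElementaryAbelian_conjSub hX)
    (by rwa [fix_conjSub (hc.P_norm hg), card_conjSub, card_conjSub])
  rw [conjSub_le_iff] at h1
  rwa [mem_normalizer_iff_conjSub.1 (inv_mem (hc.P_normalizes_offSpan hg))] at h1

/-- A normal subgroup containing one minimal offender contains all of them. -/
theorem offSpan_le (hc : Ctx p P V M T) {N A : Subgroup G}
    (hN : P ≤ Subgroup.normalizer (N : Set G)) (hA : OffMin p P V A) (hAN : A ≤ N) :
    offSpan p P V ≤ N := by
  have hmove : ∀ g ∈ P, ∀ X, conjSub g X ≤ N → X ≤ N := fun g hg X hX => by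
    rw [conjSub_le_iff, mem_normalizer_iff_conjSub.1 (inv_mem (hN hg))] at hX
    exact hX
  obtain ⟨g, hg, hgA⟩ := hc.sylP A hA.1 (isPGroup_of_el hA.2.1)
  refine sSup_le fun Y hY => ?_
  obtain ⟨k, hk, hkY⟩ := hc.sylP Y hY.1 (isPGroup_of_el hY.2.1)
  obtain ⟨t, ht, he⟩ := hc.member_transitive (hc.family.conj g hg A hA) hgA
    (hc.family.conj k hk Y hY) hkY
  refine hmove k hk Y (he ▸ ?_)
  rw [conjSub_le_iff, mem_normalizer_iff_conjSub.1 (inv_mem (hN (hc.M_le (hc.T_le ht)))),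
    conjSub_le_iff, mem_normalizer_iff_conjSub.1 (inv_mem (hN hg))]
  exact hAN

theorem LT_le_offSpan (hc : Ctx p P V M T) (A : Subgroup G) : LT p P V T A ≤ offSpan p P V :=
  sSup_le fun _ h => le_sSup h.1

theorem sup_LT_eq_offSpan (hc : Ctx p P V M T)
    (hgen : (⨆ i : Idx p P V T, LT p P V T i.1) ⊔ T = P) :
    (⨆ i : Idx p P V T, LT p P V T i.1) = offSpan p P V := by
  set N := ⨆ i : Idx p P V T, LT p P V T i.1 with hN
  refine le_antisymm (iSup_le fun i => hc.LT_le_offSpan _) ?_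
  have hTP : T ≤ P := hc.T_le.trans hc.M_le
  have hTN : T ≤ Subgroup.normalizer (N : Set G) := by
    intro t ht
    rw [mem_normalizer_iff_conjSub]
    refine Subgroup.eq_of_le_of_card_ge ?_ (card_conjSub t _).ge
    rw [conjSub_le_iff]
    refine iSup_le fun i => ?_
    rw [← conjSub_le_iff, hc.LT_conj i.2.1 i.2.2 ht]
    exact le_iSup (fun j : Idx p P V T => LT p P V T j.1)
      ⟨conjSub t i.1, hc.family.conj t (hTP ht) i.1 i.2.1, conjSub_le_of_mem ht i.2.2⟩
  have hPN : P ≤ Subgroup.normalizer (N : Set G) := hgen.ge.trans (sup_le Subgroup.le_normalizer hTN)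
  refine sSup_le fun Y hY => ?_
  obtain ⟨g, hg, hle⟩ := hc.sylP Y hY.1 (isPGroup_of_el hY.2.1)
  have hmem := hc.family.conj g hg Y hY
  have h2 : conjSub g Y ≤ N := (hc.member_setup hmem hle).2.2.A_le.trans
    (le_iSup (fun j : Idx p P V T => LT p P V T j.1) ⟨_, hmem, hle⟩)
  rw [conjSub_le_iff, mem_normalizer_iff_conjSub.1 (inv_mem (hPN hg))] at h2
  exact h2

/-- The structure theorem, with the product identified as the span of the minimal offenders. -/
theorem structure_offSpan (hc : Ctx p P V M T) (hmax : ∀ K ≤ P, T ≤ K → ¬ K ≤ M → K = P)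
    {A : Subgroup G} (hA : OffMin p P V A) (hAT : A ≤ T) :
    ∃ (r : ℕ) (E : Fin r → Subgroup G), 1 ≤ r ∧ (∀ i, E i ≤ P) ∧ (⨆ i, E i) = offSpan p P V ∧
      (∀ i j, i ≠ j → ⁅E i, E j⁆ = ⊥) ∧ (∀ i, E i ⊓ (⨆ j ∈ {j | j ≠ i}, E j) = ⊥) ∧
      (⨆ i, E i) ⊔ T = P ∧ (∀ i j, ∃ t ∈ T, (E i).map (MulAut.conj t).toMonoidHom = E j) ∧
      (V ⊓ Subgroup.centralizer (((⨆ i, E i) : Subgroup G) : Set G)) ⊔ (⨆ i, ⁅V, E i⁆) = V ∧
      (∀ i j, i ≠ j → ⁅⁅V, E i⁆, E j⁆ = ⊥) ∧
      ∀ i, ∃ n : ℕ, 1 ≤ n ∧ ((∃ (F : Type) (_ : Field F) (_ : Fintype F), Fintype.card F = p ^ n ∧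
          Nonempty (↥(E i) ≃* Matrix.SpecialLinearGroup (Fin 2) F) ∧
          ActsAsSL2OnSection F ⊤ (E i) ⁅V, E i⁆ (⁅V, E i⁆ ⊓ Subgroup.centralizer ((E i : Subgroup G) : Set G))) ∨
        (p = 2 ∧ Nonempty (↥(E i) ≃* Equiv.Perm (Fin (2 ^ n + 1))) ∧
          ActsAsOddPermModuleOnSection (2 ^ n + 1) ⊤ (E i) ⁅V, E i⁆
            (⁅V, E i⁆ ⊓ Subgroup.centralizer ((E i : Subgroup G) : Set G)))) := by
  haveI : Nonempty (Idx p P V T) := ⟨⟨A, hA, hAT⟩⟩
  have hq : ∀ i : Idx p P V T, Nat.card i.1 = Nat.card A := fun i => by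
    obtain ⟨t, -, he⟩ := hc.member_transitive hA hAT i.2.1 i.2.2
    rw [← he, card_conjSub]
  obtain ⟨n, hn⟩ := IsPGroup.iff_card.1 (isPGroup_of_el hA.2.1)
  have hA1 := (Subgroup.one_lt_card_iff_ne_bot A).2 hA.2.2.1
  by_cases h2 : Nat.card A = 2
  · have hp2 : p = 2 := by
      have hn0 : n ≠ 0 := fun h0 => by rw [hn, h0, pow_zero] at hA1; omega
      have hd : p ∣ 2 := by rw [← h2, hn]; exact dvd_pow_self p hn0
      exact (Nat.prime_dvd_prime_iff_eq (Fact.out) Nat.prime_two).1 hd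
    subst hp2
    obtain ⟨κ, r, σ, hκ, hr, hP, h1, h3, h4, h5, h6, h7, hmod⟩ :=
      blocks_conclusion hc hmax inferInstance (fun i => (hq i).trans h2)
    subst hκ
    have hsup : (⨆ i, (σ i).1) = ⨆ i : Idx 2 P V T, LT 2 P V T i.1 := by
      refine le_antisymm (iSup_le fun a => ?_) (iSup_le fun i => ?_)
      · obtain ⟨i, hi⟩ := (σ a).2
        rw [← hi]
        exact iSup_le fun j => le_iSup (fun l : Idx 2 P V T => LT 2 P V T l.1) j.1
      · refine (LT_le_Blk (BRel.refl i)).trans ?_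
        have h8 := le_iSup (fun a => (σ a).1) (σ.symm ⟨_, i, rfl⟩)
        rwa [Equiv.apply_symm_apply] at h8
    refine ⟨r, fun i => (σ i).1, hr, hP, hsup.trans (hc.sup_LT_eq_offSpan (hsup ▸ h4)),
      h1, h3, h4, h5, h6, h7, fun i => ?_⟩
    obtain ⟨m, hm, hiso, hact⟩ := hmod i
    exact ⟨m, hm, Or.inr ⟨rfl, hiso, hact⟩⟩
  · have hgt : ∀ i : Idx p P V T, 2 < Nat.card i.1 := fun i => by rw [hq i]; omega
    obtain ⟨r, σ, hr, h1, h3, h4, h5, h6, h7⟩ :=
      product_conclusion hc hmax (fun i : Idx p P V T => LT p P V T i.1)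
        (fun i => (hc.member_setup i.2.1 i.2.2).2.2.le)
        (fun i => (hc.member_setup i.2.1 i.2.2).2.2.nle)
        (fun i => (hc.member_setup i.2.1 i.2.2).2.2.comm_sup)
        (fun i j hij => hc.large_fix i.2.1 i.2.2 j.2.1 j.2.2 (fun e => hij (Subtype.ext e)) (hgt i))
        (fun i j => by
          obtain ⟨t, ht, he⟩ := hc.member_transitive i.2.1 i.2.2 j.2.1 j.2.2
          exact ⟨t, ht, by rw [hc.LT_conj i.2.1 i.2.2 ht, he]⟩)
    have hsup : (⨆ a, LT p P V T (σ a).1) = ⨆ i : Idx p P V T, LT p P V T i.1 :=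
      σ.iSup_comp (g := fun i : Idx p P V T => LT p P V T i.1)
    refine ⟨r, fun i => LT p P V T (σ i).1, hr,
      fun i => (hc.member_setup (σ i).2.1 (σ i).2.2).2.2.le,
      hsup.trans (hc.sup_LT_eq_offSpan (hsup ▸ h4)), h1, h3, h4, h5, h6, h7, fun i => ?_⟩
    obtain ⟨m, hm, -, hF⟩ := (hc.member_setup (σ i).2.1 (σ i).2.2).2.2.model_comm
    exact ⟨m, hm, Or.inl hF⟩

end Ctx

end CfsgLib.MinParFF
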