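import Cfsg.Agent.MinParFF.LargeField

/-!
Members of order two are transvections.
-/

set_option autoImplicit false
set_option linter.style.haveILetI false
set_option linter.unusedSectionVars false

open Cfsg

namespace CfsgLib.MinParFF

variable {G : Type*} [Group G] [Finite G] {P V M T : Subgroup G}

/-- A member of order two with its centre `r`. -/
structure Tv (P V : Subgroup G) where
  X : Subgroup G
  mem : OffMin 2 P V X
  t : G
  t_mem : t ∈ X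
  t_ne : t ≠ 1
  two : ∀ x ∈ X, x = 1 ∨ x = t
  r : G
  r_ne : r ≠ 1
  val : ∀ v ∈ V, cm t v = 1 ∨ cm t v = r
  attained : ∃ v ∈ V, cm t v = r

/-- The functional of a transvection. -/
noncomputable def Tv.χ (τ : Tv P V) (v : G) : ZMod 2 :=
  haveI := Classical.propDecidable (cm τ.t v = 1)
  if cm τ.t v = 1 then 0 else 1

theorem zmod2_cases (a : ZMod 2) : a = 0 ∨ a = 1 := by
  revert a
  decide

theorem exists_tv (hc : Ctx 2 P V M T) {X : Subgroup G} (hX : OffMin 2 P V X)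
    (h2 : Nat.card X = 2) : ∃ τ : Tv P V, τ.X = X := by
  classical
  haveI := hc.comm
  obtain ⟨t, ht, ht1⟩ := X.bot_or_exists_ne_one.resolve_left hX.2.2.1
  have htwo : ∀ x ∈ X, x = 1 ∨ x = t := by
    intro x hx
    by_contra hcon
    push Not at hcon
    have h3 : (({1, x, t} : Finset G) : Set G) ⊆ X := by
      intro y hy
      simp only [Finset.coe_insert, Finset.coe_singleton, Set.mem_insert_iff,
        Set.mem_singleton_iff] at hy
      rcases hy with rfl | rfl | rfl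
      exacts [one_mem _, hx, ht]
    have h4 := Set.ncard_le_ncard h3 (Set.toFinite _)
    rw [Set.ncard_coe_finset, Finset.card_insert_of_notMem (by simp [Ne.symm hcon.1, Ne.symm ht1]),
      Finset.card_pair hcon.2, ← Nat.card_coe_set_eq] at h4
    simp only [SetLike.coe_sort_coe, h2] at h4
    omega
  have htP := hX.1 ht
  obtain ⟨u, hu, hu1⟩ : ∃ u ∈ V, cm t u ≠ 1 := by
    by_contra hcon
    push Not at hcon
    exact ht1 (hc.eq_one htP hcon)
  let φ : ↥V →* ↥V := MonoidHom.mk' (fun v => ⟨cm t v, hc.cm_memV htP v.2⟩) fun v w =>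
    Subtype.ext (cm_mul_right (V := V) v.2 w.2 (hc.cm_memV htP w.2))
  have hker : Nat.card ↥(fix V X) ≤ Nat.card φ.ker :=
    Nat.card_le_card_of_injective (fun v => (⟨⟨v, v.2.1⟩, Subtype.ext
      ((mem_fix_cm.1 v.2).2 t ht)⟩ : φ.ker)) fun v w e => Subtype.ext
        (congrArg (fun z : φ.ker => ((z : ↥V) : G)) e)
  have hrange : Nat.card φ.range ≤ 2 := by
    have h1 := φ.ker.card_mul_index
    rw [Subgroup.index_ker] at h1
    refine Nat.le_of_mul_le_mul_left ?_ (Nat.card_pos (α := φ.ker))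
    calc Nat.card φ.ker * Nat.card φ.range = Nat.card V := h1
      _ ≤ Nat.card X * Nat.card ↥(fix V X) := hX.2.2.2.1.ge
      _ ≤ _ := by rw [h2, mul_comm (Nat.card φ.ker) 2]; exact Nat.mul_le_mul_left _ hker
  refine ⟨⟨X, hX, t, ht, ht1, htwo, cm t u, hu1, fun v hv => ?_, u, hu, rfl⟩, rfl⟩
  by_contra hcon
  push Not at hcon
  have h3 : (({1, φ ⟨v, hv⟩, φ ⟨u, hu⟩} : Finset V) : Set V) ⊆ φ.range := by
    intro x hx
    simp only [Finset.coe_insert, Finset.coe_singleton, Set.mem_insert_iff,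
      Set.mem_singleton_iff] at hx
    rcases hx with rfl | rfl | rfl
    exacts [one_mem _, ⟨_, rfl⟩, ⟨_, rfl⟩]
  have e1 : φ ⟨v, hv⟩ ≠ 1 := fun e => hcon.1 (congrArg Subtype.val e)
  have e2 : φ ⟨u, hu⟩ ≠ 1 := fun e => hu1 (congrArg Subtype.val e)
  have e3 : φ ⟨v, hv⟩ ≠ φ ⟨u, hu⟩ := fun e => hcon.2 (congrArg Subtype.val e)
  have h4 := Set.ncard_le_ncard h3 (Set.toFinite _)
  rw [Set.ncard_coe_finset, Finset.card_insert_of_notMem (by simp [Ne.symm e1, Ne.symm e2]),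
    Finset.card_pair e3, ← Nat.card_coe_set_eq] at h4
  simp only [SetLike.coe_sort_coe] at h4
  omega

namespace Tv

theorem X_eq (τ : Tv P V) : τ.X = Subgroup.zpowers τ.t := by
  refine le_antisymm (fun x hx => ?_) (Subgroup.zpowers_le.2 τ.t_mem)
  rcases τ.two x hx with rfl | rfl
  exacts [one_mem _, Subgroup.mem_zpowers _]

theorem t_P (τ : Tv P V) : τ.t ∈ P := τ.mem.1 τ.t_mem

theorem t_sq (τ : Tv P V) : τ.t * τ.t = 1 := by
  have := τ.mem.2.1.2 τ.t τ.t_mem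
  rwa [pow_two] at this

theorem r_mem (τ : Tv P V) (hc : Ctx 2 P V M T) : τ.r ∈ V := by
  obtain ⟨v, hv, he⟩ := τ.attained
  exact he ▸ hc.cm_memV τ.t_P hv

theorem r_sq (τ : Tv P V) (hc : Ctx 2 P V M T) : τ.r * τ.r = 1 := by
  have := hc.V_el.2 τ.r (τ.r_mem hc)
  rwa [pow_two] at this

theorem r_pow (τ : Tv P V) (hc : Ctx 2 P V M T) (a b : ZMod 2) :
    τ.r ^ a.val * τ.r ^ b.val = τ.r ^ (a + b).val := by
  rcases zmod2_cases a with rfl | rfl <;> rcases zmod2_cases b with rfl | rfl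
  · simp
  · simp
  · simp
  · rw [show (1 : ZMod 2) + 1 = 0 from rfl]
    simp [ZMod.val_one, τ.r_sq hc]

theorem cm_eq (τ : Tv P V) {v : G} (hv : v ∈ V) : cm τ.t v = τ.r ^ (τ.χ v).val := by
  rcases τ.val v hv with h | h
  · simp [Tv.χ, h]
  · simp [Tv.χ, h, τ.r_ne, ZMod.val_one]

theorem conj_eq (τ : Tv P V) {v : G} (hv : v ∈ V) : τ.t * v * τ.t⁻¹ = τ.r ^ (τ.χ v).val * v := by
  rw [← cm_self, τ.cm_eq hv]

theorem χ_eq_zero (τ : Tv P V) {v : G} : τ.χ v = 0 ↔ cm τ.t v = 1 := by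
  by_cases h : cm τ.t v = 1 <;> simp [Tv.χ, h]

theorem χ_eq_one (τ : Tv P V) {v : G} : τ.χ v = 1 ↔ cm τ.t v ≠ 1 := by
  by_cases h : cm τ.t v = 1 <;> simp [Tv.χ, h]

theorem χ_mul (τ : Tv P V) (hc : Ctx 2 P V M T) {u v : G} (hu : u ∈ V) (hv : v ∈ V) :
    τ.χ (u * v) = τ.χ u + τ.χ v := by
  haveI := hc.comm
  have h := cm_mul_right (V := V) (x := τ.t) hu hv (hc.cm_memV τ.t_P hv)
  rw [τ.cm_eq (V.mul_mem hu hv), τ.cm_eq hu, τ.cm_eq hv, τ.r_pow hc] at h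
  rcases zmod2_cases (τ.χ (u * v)) with e | e <;>
    rcases zmod2_cases (τ.χ u + τ.χ v) with e' | e' <;> rw [e, e'] at h ⊢
  · simp [ZMod.val_one] at h
    exact absurd h.symm τ.r_ne
  · simp [ZMod.val_one] at h
    exact absurd h τ.r_ne

theorem χ_one (τ : Tv P V) : τ.χ 1 = 0 := τ.χ_eq_zero.2 (by simp [cm])

theorem χ_pow (τ : Tv P V) (hc : Ctx 2 P V M T) {u : G} (hu : u ∈ V) (a : ZMod 2) :
    τ.χ (u ^ a.val) = a * τ.χ u := by
  rcases zmod2_cases a with rfl | rfl <;> simp [τ.χ_one, ZMod.val_one]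

theorem χ_self (τ : Tv P V) (hc : Ctx 2 P V M T) : τ.χ τ.r = 0 := by
  obtain ⟨v, hv, he⟩ := τ.attained
  rw [τ.χ_eq_zero, ← he]
  exact (mem_fix_cm.1 (hc.cm_mem_fix τ.mem τ.t_mem hv)).2 _ τ.t_mem

theorem fix_eq (τ : Tv P V) {v : G} : v ∈ fix V τ.X ↔ v ∈ V ∧ τ.χ v = 0 := by
  rw [mem_fix_cm, τ.χ_eq_zero]
  refine and_congr_right fun _ => ⟨fun h => h _ τ.t_mem, fun h a ha => ?_⟩
  rcases τ.two a ha with rfl | rfl
  exacts [cm_one_left v, h]

/-- The conjugate transvection. -/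
def conjTv (τ : Tv P V) (hc : Ctx 2 P V M T) {k : G} (hk : k ∈ P) : Tv P V where
  X := conjSub k τ.X
  mem := hc.family.conj k hk τ.X τ.mem
  t := k * τ.t * k⁻¹
  t_mem := conj_mem_conjSub τ.t_mem
  t_ne := fun h => τ.t_ne (by
    rw [show τ.t = k⁻¹ * (k * τ.t * k⁻¹) * k by group, h]; group)
  two := fun x hx => by
    rw [mem_conjSub] at hx
    rcases τ.two _ hx with h | h
    · exact Or.inl (by rw [show x = k * (k⁻¹ * x * k) * k⁻¹ by group, h]; group)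
    · exact Or.inr (by rw [← h]; group)
  r := k * τ.r * k⁻¹
  r_ne := fun h => τ.r_ne (by
    rw [show τ.r = k⁻¹ * (k * τ.r * k⁻¹) * k by group, h]; group)
  val := fun v hv => by
    rw [cm_conj']
    rcases τ.val _ (hc.conj_memV' hk hv) with h | h <;> rw [h]
    · exact Or.inl (by group)
    · exact Or.inr rfl
  attained := by
    obtain ⟨v, hv, he⟩ := τ.attained
    exact ⟨k * v * k⁻¹, hc.conj_memV hk hv, by rw [cm_conj, he]⟩

theorem χ_conjTv (τ : Tv P V) (hc : Ctx 2 P V M T) {k : G} (hk : k ∈ P) (v : G) :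
    (τ.conjTv hc hk).χ v = τ.χ (k⁻¹ * v * k) := by
  by_cases h : cm τ.t (k⁻¹ * v * k) = 1
  · rw [τ.χ_eq_zero.2 h, χ_eq_zero]
    show cm (k * τ.t * k⁻¹) v = 1
    rw [cm_conj', h]
    group
  · rw [τ.χ_eq_one.2 h, χ_eq_one]
    show cm (k * τ.t * k⁻¹) v ≠ 1
    rw [cm_conj']
    intro e
    exact h (by rw [show cm τ.t (k⁻¹ * v * k) = k⁻¹ * (k * cm τ.t (k⁻¹ * v * k) * k⁻¹) * k by group, e]; group)

theorem conj_inv (σ : Tv P V) {v : G} (hv : v ∈ V) : σ.t⁻¹ * v * σ.t = σ.r ^ (σ.χ v).val * v := by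
  have h : σ.t⁻¹ = σ.t := inv_eq_of_mul_eq_one_right σ.t_sq
  rw [← σ.conj_eq hv]
  simp only [h]

/-- Conjugating by a transvection: the functional. -/
theorem χ_conj_tv (τ σ : Tv P V) (hc : Ctx 2 P V M T) {v : G} (hv : v ∈ V) :
    (τ.conjTv hc σ.t_P).χ v = τ.χ v + σ.χ v * τ.χ σ.r := by
  rw [χ_conjTv, σ.conj_inv hv, τ.χ_mul hc (V.pow_mem (σ.r_mem hc) _) hv,
    τ.χ_pow hc (σ.r_mem hc), add_comm]

theorem r_conj_tv (τ σ : Tv P V) (hc : Ctx 2 P V M T) :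
    (τ.conjTv hc σ.t_P).r = σ.r ^ (σ.χ τ.r).val * τ.r := σ.conj_eq (τ.r_mem hc)

theorem eq_of_χ (τ σ : Tv P V) (hc : Ctx 2 P V M T) (h : ∀ v ∈ V, τ.χ v = σ.χ v) :
    τ.X = σ.X ∧ τ.t = σ.t ∧ τ.r = σ.r := by
  have hX : τ.X = σ.X := hc.sameW τ.mem σ.mem (by
    ext v
    rw [τ.fix_eq, σ.fix_eq]
    exact and_congr_right fun hv => by rw [h v hv])
  have ht : τ.t = σ.t := (σ.two _ (hX ▸ τ.t_mem)).resolve_left τ.t_ne
  refine ⟨hX, ht, ?_⟩
  obtain ⟨v, hv, he⟩ := τ.attained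
  rw [← he, ht]
  refine (σ.val v hv).resolve_left fun h1 => τ.r_ne ?_
  rw [← he, ht, h1]

theorem χ_eq_of_X (τ σ : Tv P V) (h : τ.X = σ.X) (v : G) : τ.χ v = σ.χ v := by
  have ht : τ.t = σ.t := (σ.two _ (h ▸ τ.t_mem)).resolve_left τ.t_ne
  by_cases hv : cm τ.t v = 1
  · rw [τ.χ_eq_zero.2 hv, σ.χ_eq_zero.2 (ht ▸ hv)]
  · rw [τ.χ_eq_one.2 hv, σ.χ_eq_one.2 (ht ▸ hv)]

theorem pairing_of_commute (τ σ : Tv P V) (hc : Ctx 2 P V M T) (h : τ.t * σ.t = σ.t * τ.t) :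
    τ.χ σ.r = 0 := by
  obtain ⟨v, hv, he⟩ := σ.attained
  have h1 : τ.t * σ.r * τ.t⁻¹ = cm σ.t (τ.t * v * τ.t⁻¹) := by
    rw [← he, ← cm_conj, h, mul_inv_cancel_right]
  rw [τ.χ_eq_zero, cm, mul_inv_eq_one]
  rcases σ.val _ (hc.conj_memV τ.t_P hv) with h2 | h2
  · exfalso
    refine σ.r_ne ?_
    rw [show σ.r = τ.t⁻¹ * (τ.t * σ.r * τ.t⁻¹) * τ.t by group, h1, h2]
    group
  · exact h1.trans h2

theorem commute_of_pairing (τ σ : Tv P V) (hc : Ctx 2 P V M T) (h1 : τ.χ σ.r = 0)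
    (h2 : σ.χ τ.r = 0) : τ.t * σ.t = σ.t * τ.t := by
  haveI := hc.comm
  refine commute_of_cm (E := P) (fun x hx => hc.eq_one hx) hc.P_norm τ.t_P σ.t_P
    (fun v hv => ?_) (fun v hv => ?_)
  · rw [σ.cm_eq hv]
    exact ((show Commute τ.t σ.r from cm_eq_one_iff.1 (τ.χ_eq_zero.1 h1)).pow_right _).eq
  · rw [τ.cm_eq hv]
    exact ((show Commute σ.t τ.r from cm_eq_one_iff.1 (σ.χ_eq_zero.1 h2)).pow_right _).eq

end Tv

/-- Members in a common `p`-subgroup commute. -/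
theorem Ctx.members_commute {p : ℕ} [Fact p.Prime] (hc : Ctx p P V M T) {X Y S : Subgroup G}
    (hS : IsPGroup p S) (hSP : S ≤ P) (hX : OffMin p P V X) (hY : OffMin p P V Y) (hXS : X ≤ S)
    (hYS : Y ≤ S) {x y : G} (hx : x ∈ X) (hy : y ∈ Y) : x * y = y * x := by
  obtain ⟨k, hk, hle⟩ := hc.sylP S hSP hS
  have hX' := hc.family.conj k hk X hX
  have hY' := hc.family.conj k hk Y hY
  have hXT := (conjSub_mono hXS).trans hle
  have hYT := (conjSub_mono hYS).trans hle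
  have key : (k * x * k⁻¹) * (k * y * k⁻¹) = (k * y * k⁻¹) * (k * x * k⁻¹) := by
    by_cases hXY : conjSub k Y = conjSub k X
    · haveI := hX'.2.1.1
      exact setLike_mul_comm (conj_mem_conjSub hx) (hXY ▸ conj_mem_conjSub hy)
    · obtain ⟨-, -, hL⟩ := hc.member_setup hX' hXT
      exact (hc.comm_LT_member hX' hXT hY' hYT hXY).1 _ (hL.A_le (conj_mem_conjSub hx)) _
        (conj_mem_conjSub hy)
  calc x * y = k⁻¹ * ((k * x * k⁻¹) * (k * y * k⁻¹)) * k := by group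
    _ = k⁻¹ * ((k * y * k⁻¹) * (k * x * k⁻¹)) * k := by rw [key]
    _ = y * x := by group

namespace Tv

theorem pairing_symm (τ σ : Tv P V) (hc : Ctx 2 P V M T) : τ.χ σ.r = σ.χ τ.r := by
  suffices h : ∀ τ σ : Tv P V, σ.χ τ.r = 0 → τ.χ σ.r = 0 by
    rcases zmod2_cases (τ.χ σ.r) with e | e <;> rcases zmod2_cases (σ.χ τ.r) with e' | e'
    · rw [e, e']
    · have := h σ τ e
      rw [e'] at this
      exact absurd this one_ne_zero
    · have := h τ σ e'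
      rw [e] at this
      exact absurd this one_ne_zero
    · rw [e, e']
  intro τ σ h0
  set τ' := τ.conjTv hc σ.t_P with hτ'
  have hr : τ'.r = τ.r := by rw [hτ', r_conj_tv, h0]; simp
  have hcomm : τ.t * τ'.t = τ'.t * τ.t := by
    refine τ.commute_of_pairing τ' hc (by rw [hr]; exact τ.χ_self hc) ?_
    rw [hτ', χ_conj_tv τ σ hc (τ.r_mem hc), h0, zero_mul, add_zero]
    exact τ.χ_self hc
  set z := τ.t * σ.t with hz
  have hσinv : σ.t⁻¹ = σ.t := inv_eq_of_mul_eq_one_right σ.t_sq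
  have hτinv : τ.t⁻¹ = τ.t := inv_eq_of_mul_eq_one_right τ.t_sq
  have hz2 : z * z = τ.t * τ'.t := by
    show τ.t * σ.t * (τ.t * σ.t) = τ.t * (σ.t * τ.t * σ.t⁻¹)
    rw [hσinv]
    group
  have hz4 : z ^ (2 ^ 2) = 1 := by
    have e : (τ.t * τ'.t) * (τ.t * τ'.t) = (τ.t * τ.t) * (τ'.t * τ'.t) := by
      calc (τ.t * τ'.t) * (τ.t * τ'.t) = τ.t * ((τ'.t * τ.t) * τ'.t) := by group
        _ = τ.t * ((τ.t * τ'.t) * τ'.t) := by rw [hcomm]
        _ = _ := by group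
    rw [show (2 : ℕ) ^ 2 = 2 + 2 from rfl, pow_add, pow_two, hz2, e, τ.t_sq, τ'.t_sq, one_mul]
  have hzp : IsPGroup 2 ↥(Subgroup.zpowers z) := by
    obtain ⟨k, -, hk⟩ := (Nat.dvd_prime_pow Nat.prime_two).1 (orderOf_dvd_of_pow_eq_one hz4)
    exact IsPGroup.of_card (n := k) (by rw [Nat.card_zpowers, hk])
  have hN : σ.X ≤ Subgroup.normalizer (Subgroup.zpowers z : Set G) := by
    rw [σ.X_eq, Subgroup.zpowers_le, mem_normalizer_iff_conjSub]
    refine conjSub_eq_self fun a ha => ?_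
    obtain ⟨n, rfl⟩ := Subgroup.mem_zpowers_iff.1 ha
    rw [← conj_zpow, show σ.t * z * σ.t⁻¹ = z⁻¹ by
      rw [hz, mul_inv_rev, hτinv, ← mul_assoc, mul_inv_cancel_right, hσinv]]
    exact Subgroup.zpow_mem _ (Subgroup.inv_mem _ (Subgroup.mem_zpowers z)) n
  have hS : IsPGroup 2 ↥(σ.X ⊔ Subgroup.zpowers z) :=
    (isPGroup_of_el σ.mem.2.1).to_sup_of_normal_right' hzp hN
  have hSP : σ.X ⊔ Subgroup.zpowers z ≤ P :=
    sup_le σ.mem.1 (Subgroup.zpowers_le.2 (P.mul_mem τ.t_P σ.t_P))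
  have hτS : τ.X ≤ σ.X ⊔ Subgroup.zpowers z := by
    rw [τ.X_eq, Subgroup.zpowers_le, show τ.t = z * σ.t⁻¹ by rw [hz, mul_inv_cancel_right]]
    exact mul_mem (Subgroup.mem_sup_right (Subgroup.mem_zpowers z))
      (Subgroup.mem_sup_left (σ.X.inv_mem σ.t_mem))
  exact τ.pairing_of_commute σ hc
    (hc.members_commute hS hSP τ.mem σ.mem hτS le_sup_left τ.t_mem σ.t_mem)

theorem pairing_one (τ σ : Tv P V) (hc : Ctx 2 P V M T) (h : τ.t * σ.t ≠ σ.t * τ.t) :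
    τ.χ σ.r = 1 := by
  rcases zmod2_cases (τ.χ σ.r) with e | e
  · exact absurd (τ.commute_of_pairing σ hc e (by rw [pairing_symm σ τ hc]; exact e)) h
  · exact e

/-- The conjugate of `τ` by `σ` when the two do not commute. -/
theorem conj_pair (τ σ : Tv P V) (hc : Ctx 2 P V M T) (h : σ.χ τ.r = 1) :
    (τ.conjTv hc σ.t_P).r = σ.r * τ.r ∧
      ∀ v ∈ V, (τ.conjTv hc σ.t_P).χ v = τ.χ v + σ.χ v := by
  refine ⟨by rw [r_conj_tv, h]; simp [ZMod.val_one], fun v hv => ?_⟩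
  rw [χ_conj_tv τ σ hc hv, pairing_symm τ σ hc, h, mul_one]

end Tv

end CfsgLib.MinParFF
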